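import Mathlib
import Cfsg.Agent.H438.SLThreeQ
set_option linter.all false

/-!
# The configurations of type `Pt`, V: lines and planes (helper438, S3727)
-/

set_option autoImplicit false
set_option linter.unusedSectionVars false
set_option linter.unusedSimpArgs false

namespace Cfsg.Agent.H438.SLThree

open Matrix MulAction
open Cfsg.Agent.ClassicalGeometry.AutPSL.Auto

variable {F : Type*} [Field F] {G Ω : Type*} [Group G] [MulAction G Ω]

theorem card_ker [Finite F] {φ : Fin 3 → F} (hφ : φ ≠ 0) :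
    Nat.card {x : Fin 3 → F // x ≠ 0 ∧ φ ⬝ᵥ x = 0} = Nat.card F ^ 2 - 1 := by
  obtain ⟨k, hk⟩ := exists_row hφ
  rw [← card_plane (F := F) 2 0 1 (by decide) (by decide) (by decide) (by decide)]
  symm
  apply Nat.card_congr
  refine (MulAction.toPerm k).subtypeEquiv ?_
  intro x
  rw [MulAction.toPerm_apply, ← hk, dot_inv, e3_dot]
  constructor
  · rintro ⟨h1, h2⟩
    exact ⟨smul_ne' h1 k, h2⟩
  · rintro ⟨h1, h2⟩
    refine ⟨?_, h2⟩
    rintro rfl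
    exact h1 (smul_zero _)

theorem sq_sub_one (q : ℕ) : q ^ 2 - 1 = (q - 1) * (q + 1) := by
  have := Nat.sq_sub_sq q 1
  rw [one_pow] at this
  rw [this]; ring

variable {ρ : Ω → (S F →* G)}

/-- the plane through `a` given by the row `φ` -/
def Blk (ρ : Ω → (S F →* G)) (a : Ω) (φ : Fin 3 → F) : Set Ω := {d | d = a ∨ ∃ v, Pt (Xs (ρ a) d) v ∧ φ ⬝ᵥ v = 0}

theorem mem_Blk {a d : Ω} {φ : Fin 3 → F} : d ∈ Blk ρ a φ ↔ d = a ∨ ∃ v, Pt (Xs (ρ a) d) v ∧ φ ⬝ᵥ v = 0 := Iff.rfl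

theorem Blk_smul {a : Ω} {φ : Fin 3 → F} {k : F} (hk : k ≠ 0) : Blk ρ a (k • φ) = Blk ρ a φ := by
  ext d
  rw [mem_Blk, mem_Blk]
  constructor
  · rintro (h | ⟨v, h1, h2⟩)
    · exact Or.inl h
    · rw [smul_dotProduct, smul_eq_mul] at h2
      exact Or.inr ⟨v, h1, (mul_eq_zero.1 h2).resolve_left hk⟩
  · rintro (h | ⟨v, h1, h2⟩)
    · exact Or.inl h
    · exact Or.inr ⟨v, h1, by rw [smul_dotProduct, h2, smul_zero]⟩

namespace Cfg

variable [Finite F] [CharP F 2] [Finite (S F)] [Finite G] [Finite Ω]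

theorem fix_eq_blk (c : Cfg ρ) (hP : TypePt ρ) {a : Ω} {w φ : Fin 3 → F} (hd : φ ⬝ᵥ w = 0) (hw : w ≠ 0) :
    {d : Ω | ρ a (tv w φ) • d = d} = Blk ρ a φ := by
  ext d
  exact c.fix_tv_iff hP hd hw d

/-- transvections of `N a` fixing `d` are transvections of `N d` -/
theorem tv_change (c : Cfg ρ) (hP : TypePt ρ) {a d : Ω} {w φ : Fin 3 → F} (hd : φ ⬝ᵥ w = 0) (hw : w ≠ 0) (hφ : φ ≠ 0)
    (hfix : ρ a (tv w φ) • d = d) : ∃ w' φ' : Fin 3 → F, φ' ⬝ᵥ w' = 0 ∧ w' ≠ 0 ∧ φ' ≠ 0 ∧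
      ρ a (tv w φ) = ρ d (tv w' φ') := by
  by_cases hda : d = a
  · subst hda
    exact ⟨w, φ, hd, hw, hφ, rfl⟩
  rcases (c.fix_tv_iff hP hd hw d).1 hfix with h | ⟨v, hv, hφv⟩
  · exact (hda h).elim
  have hN := c.P_le hP hda hv (tv_fix hd hφv)
  obtain ⟨g, hg⟩ := hN
  obtain ⟨w', φ', h1, h2⟩ := (c.rep d).exists_tv (g := g) (by rw [hg, ← map_mul, tv_sq hd, map_one])
  rw [hg] at h2
  have h3 := (c.rep a).tv_ne hd hw hφ
  refine ⟨w', φ', h1, ?_, ?_, h2⟩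
  · rintro rfl
    rw [tv_zero_left, map_one] at h2
    exact h3 h2
  · rintro rfl
    rw [tv_zero_right, map_one] at h2
    exact h3 h2

theorem blk_change (c : Cfg ρ) (hP : TypePt ρ) {a d : Ω} {φ : Fin 3 → F} (hφ : φ ≠ 0) (hd : d ∈ Blk ρ a φ) :
    ∃ φ' : Fin 3 → F, φ' ≠ 0 ∧ Blk ρ a φ = Blk ρ d φ' := by
  obtain ⟨w, hw, hφw, -⟩ := exists_common φ φ
  have h1 : ρ a (tv w φ) • d = d := (c.fix_tv_iff hP hφw hw d).2 hd
  obtain ⟨w', φ', h2, h3, h4, h5⟩ := c.tv_change hP hφw hw hφ h1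
  refine ⟨φ', h4, ?_⟩
  rw [← c.fix_eq_blk hP hφw hw, h5, c.fix_eq_blk hP h2 h3]

theorem blk_par (c : Cfg ρ) (hP : TypePt ρ) {a : Ω} {φ φ' : Fin 3 → F} (hφ : φ ≠ 0) (hφ' : φ' ≠ 0)
    (h : Blk ρ a φ = Blk ρ a φ') : ∃ k : F, k ≠ 0 ∧ φ' = k • φ := by
  obtain ⟨k, hk⟩ := sep hφ (w := φ') (by
    intro v hv
    by_cases hv0 : v = 0
    · rw [hv0, zero_dotProduct]
    obtain ⟨d, hd⟩ := c.A_pos hP a hv0
    have h1 : d ∈ Blk ρ a φ := Or.inr ⟨v, hd, by rw [dotProduct_comm, hv]⟩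
    rw [h] at h1
    rcases h1 with h1 | ⟨v', h2, h3⟩
    · exact (c.ne_of_pt hd h1).elim
    · obtain ⟨l, hl, hl'⟩ := h2.par hd
      rw [hl', smul_dotProduct, dotProduct_comm, h3, smul_zero])
  refine ⟨k, ?_, hk⟩
  rintro rfl
  rw [zero_smul] at hk
  exact hφ' hk

theorem card_blk (c : Cfg ρ) (_ : TypePt ρ) (a : Ω) {φ : Fin 3 → F} (hφ : φ ≠ 0) :
    Nat.card (Blk ρ a φ) = 1 + (Nat.card F + 1) * Nat.card {b : Ω // Pt (Xs (ρ a) b) e1} := by
  have hq := q_sub F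
  have hc := dcount (fun (x : Fin 3 → F) (b : Ω) => Pt (Xs (ρ a) b) x) (fun x => x ≠ 0 ∧ φ ⬝ᵥ x = 0)
    (c := Nat.card {b : Ω // Pt (Xs (ρ a) b) e1}) (m := Nat.card F - 1) (fun x hx => pt_count x hx.1)
    (fun b hb => pt_fiber _ (fun c x hc hx => ⟨smul_ne_zero hc hx.1, by rw [dotProduct_smul, hx.2, smul_zero]⟩) b hb)
  rw [card_ker hφ, sq_sub_one, mul_assoc, mul_comm (Nat.card {b : Ω // ∃ x, _})] at hc
  have h2 := Nat.eq_of_mul_eq_mul_left hq hc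
  rw [h2, ← card_or a]
  · apply Nat.card_congr
    refine Equiv.subtypeEquivRight ?_
    intro b
    rw [mem_Blk]
    constructor
    · rintro (h | ⟨v, h1, h2⟩)
      · exact Or.inl h
      · exact Or.inr ⟨v, ⟨h1.1, h2⟩, h1⟩
    · rintro (h | ⟨v, ⟨h1, h2⟩, h3⟩)
      · exact Or.inl h
      · exact Or.inr ⟨v, h3, h2⟩
  · rintro ⟨x, -, hx⟩
    exact c.not_pt a x hx

/-- **the number of planes is an integer** -/
theorem plane_dvd (c : Cfg ρ) (hP : TypePt ρ) (a : Ω) :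
    1 + (Nat.card F + 1) * Nat.card {b : Ω // Pt (Xs (ρ a) b) e1} ∣
      Nat.card Ω * (Nat.card F ^ 2 + Nat.card F + 1) := by
  classical
  have hq := q_sub F
  have hc := dcount (α := Ω × (Fin 3 → F)) (β := Set Ω) (fun p B => p.2 ≠ 0 ∧ B = Blk ρ p.1 p.2) (fun p => p.2 ≠ 0)
    (c := 1) (m := (1 + (Nat.card F + 1) * Nat.card {b : Ω // Pt (Xs (ρ a) b) e1}) * (Nat.card F - 1))
    (by
      rintro ⟨d, φ⟩ hφ
      have : Unique {B : Set Ω // φ ≠ 0 ∧ B = Blk ρ d φ} :=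
        { default := ⟨Blk ρ d φ, hφ, rfl⟩
          uniq := fun B => Subtype.ext B.2.2 }
      exact Nat.card_unique)
    (by
      rintro B ⟨⟨d0, φ0⟩, hφ0, -, hB⟩
      simp only at hφ0 hB
      have h1 : ∀ d : B, ∃ φ : Fin 3 → F, φ ≠ 0 ∧ B = Blk ρ d.1 φ := by
        rintro ⟨d, hd⟩
        rw [hB] at hd
        obtain ⟨φ', h2, h3⟩ := c.blk_change hP hφ0 hd
        exact ⟨φ', h2, hB.trans h3⟩
      choose f hf1 hf2 using h1
      have e : B × Fˣ ≃ {p : Ω × (Fin 3 → F) // p.2 ≠ 0 ∧ (p.2 ≠ 0 ∧ B = Blk ρ p.1 p.2)} := by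
        refine Equiv.ofBijective (fun p => ⟨(p.1.1, (p.2 : F) • f p.1), smul_ne_zero p.2.ne_zero (hf1 _),
          smul_ne_zero p.2.ne_zero (hf1 _), by rw [Blk_smul p.2.ne_zero]; exact hf2 _⟩) ⟨?_, ?_⟩
        · rintro ⟨d, s⟩ ⟨d', s'⟩ hdd
          have h2 : ((d : Ω), (s : F) • f d) = ((d' : Ω), (s' : F) • f d') := congrArg Subtype.val hdd
          have h3 : d = d' := Subtype.ext (congrArg Prod.fst h2)
          subst h3
          have h4 : (s : F) • f d = (s' : F) • f d := congrArg Prod.snd h2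
          have h5 : s = s' := Units.ext (smul_left_injective F (hf1 d) h4)
          rw [h5]
        · rintro ⟨⟨d, φ⟩, h2, -, h3⟩
          have hd : d ∈ B := by
            rw [h3]
            exact Or.inl rfl
          obtain ⟨k, hk, hk'⟩ := c.blk_par hP (hf1 ⟨d, hd⟩) h2 (by rw [← hf2 ⟨d, hd⟩]; exact h3)
          refine ⟨(⟨d, hd⟩, Units.mk0 k hk), ?_⟩
          apply Subtype.ext
          exact Prod.ext rfl hk'.symm
      rw [← Nat.card_congr e, Nat.card_prod, Nat.card_units]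
      congr 1
      rw [hB, c.card_blk hP d0 hφ0, c.A_eq hP d0 a])
  have h1 : Nat.card {p : Ω × (Fin 3 → F) // p.2 ≠ 0} = Nat.card Ω * (Nat.card F ^ 3 - 1) := by
    rw [← card_ne, ← Nat.card_prod]
    apply Nat.card_congr
    exact
      { toFun := fun p => (p.1.1, ⟨p.1.2, p.2⟩)
        invFun := fun p => ⟨(p.1, p.2.1), p.2.2⟩
        left_inv := fun _ => rfl
        right_inv := fun _ => rfl }
  have h2 : Nat.card F ^ 3 - 1 = (Nat.card F ^ 2 + Nat.card F + 1) * (Nat.card F - 1) := by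
    obtain ⟨r, hr⟩ : ∃ r, Nat.card F = r + 1 := ⟨Nat.card F - 1, by omega⟩
    rw [hr, Nat.add_sub_cancel]
    have : (r + 1) ^ 3 = ((r + 1) ^ 2 + (r + 1) + 1) * r + 1 := by ring
    rw [this, Nat.add_sub_cancel]
  rw [h1, mul_one, h2, ← mul_assoc, ← mul_assoc] at hc
  have h3 := Nat.eq_of_mul_eq_mul_right hq hc
  rw [h3]
  exact Dvd.intro_left _ rfl

/-- a line has at most `q + 1` points -/
theorem A_le (c : Cfg ρ) (hP : TypePt ρ) (a : Ω) : Nat.card {b : Ω // Pt (Xs (ρ a) b) e1} ≤ Nat.card F := by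
  classical
  have hq := q_sub F
  have e2_ne : (![0, 1, 0] : Fin 3 → F) ≠ 0 := fun h => by simpa using congrFun h 1
  obtain ⟨b, hb⟩ := c.A_pos hP a e1_ne
  obtain ⟨d0, hd0⟩ := c.A_pos hP a e2_ne
  have hba := c.ne_of_pt hb
  have hd0a := c.ne_of_pt hd0
  have hbd0 : b ≠ d0 := by
    rintro rfl
    obtain ⟨k, -, hk⟩ := hb.par hd0
    have := congrFun hk 1
    simp [smul_ap] at this
  have hncol : ¬ Col ρ b a d0 := by
    intro h1
    obtain ⟨v, h3, h4⟩ := c.col_rot hP hd0a.symm h1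
    obtain ⟨k, -, hk⟩ := hb.par h3
    obtain ⟨k', -, hk'⟩ := hd0.par h4
    rw [hk] at hk'
    have h5 := congrFun hk' 0
    have hv1 := h3.1
    rw [hk] at hv1
    simp [smul_ap] at h5
    exact hv1 (by rw [h5, zero_smul])
  obtain ⟨u, hu⟩ := hP b d0 hbd0.symm
  have hd13 : (e3 : Fin 3 → F) ⬝ᵥ e1 = 0 := by rw [dot_e1]; rfl
  have hd23 : (e3 : Fin 3 → F) ⬝ᵥ ![0, 1, 0] = 0 := by rw [e3_dot]; rfl
  -- the transvection
  obtain ⟨w, χ, hχ, hw, hχ0, he⟩ := c.tv_change hP hd13 e1_ne e3_ne ((c.fix_tv_iff hP hd13 e1_ne b).2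
    (Or.inr ⟨e1, hb, hd13⟩))
  have h1 : ρ b (tv w χ) • d0 = d0 := by
    rw [← he]
    exact (c.fix_tv_iff hP hd13 e1_ne d0).2 (Or.inr ⟨_, hd0, hd23⟩)
  have hχu : χ ⬝ᵥ u = 0 := by
    rcases (c.fix_tv_iff hP hχ hw d0).1 h1 with h2 | ⟨v, h2, h3⟩
    · exact (hbd0 h2.symm).elim
    · obtain ⟨k, -, rfl⟩ := h2.par hu
      rw [dotProduct_smul, h3, smul_zero]
  have hL : ∀ d : {d : Ω // d = b ∨ Pt (Xs (ρ b) d) u}, ∃ v, Pt (Xs (ρ a) d.1) v ∧ (e3 : Fin 3 → F) ⬝ᵥ v = 0 := by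
    rintro ⟨d, hd⟩
    have hda : d ≠ a := by
      rintro rfl
      rcases hd with h2 | h2
      · exact hba h2.symm
      · exact hncol ⟨u, h2, hu⟩
    have h2 : ρ b (tv w χ) • d = d := (c.fix_tv_iff hP hχ hw d).2 (by
      rcases hd with h2 | h2
      · exact Or.inl h2
      · exact Or.inr ⟨u, h2, hχu⟩)
    rw [← he] at h2
    exact ((c.fix_tv_iff hP hd13 e1_ne d).1 h2).resolve_left hda
  choose f hf1 hf2 using hL
  have hinj : Function.Injective (fun p : {d : Ω // d = b ∨ Pt (Xs (ρ b) d) u} × Fˣ =>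
      (⟨(p.2 : F) • f p.1, smul_ne_zero p.2.ne_zero (hf1 p.1).1, by rw [dotProduct_smul, hf2, smul_zero]⟩ :
        {x : Fin 3 → F // x ≠ 0 ∧ e3 ⬝ᵥ x = 0})) := by
    rintro ⟨d, s⟩ ⟨d', s'⟩ hdd
    have h2 : (s : F) • f d = (s' : F) • f d' := congrArg Subtype.val hdd
    have hdd' : d = d' := by
      apply Subtype.ext
      by_contra hne
      have h3 : Col ρ a d.1 d'.1 := by
        refine ⟨(s : F) • f d, (hf1 d).smul s.ne_zero, ?_⟩
        rw [h2]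
        exact (hf1 d').smul s'.ne_zero
      obtain ⟨d, hd⟩ := d
      obtain ⟨d', hd'⟩ := d'
      simp only at h3 hne
      rcases hd with rfl | hd
      · rcases hd' with hd' | hd'
        · exact hne hd'.symm
        · have h4 : Col ρ d a d' := c.col_rot hP hne h3
          exact hncol (h4.swap.trans ⟨u, hd', hu⟩)
      · rcases hd' with rfl | hd'
        · have h4 : Col ρ d' a d := c.col_rot hP (Ne.symm hne) h3.swap
          exact hncol (h4.swap.trans ⟨u, hd, hu⟩)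
        · have h4 : Col ρ d b d' := c.col_rot hP hne ⟨u, hd, hd'⟩
          have h5 : Col ρ d a d' := c.col_rot hP hne h3
          have h6 : Col ρ d a b := h5.swap.trans h4.swap
          have h7 : Col ρ a d b := c.col_rot hP hba.symm h6
          have h8 : Col ρ b a d := c.col_rot hP (c.ne_of_pt hd).symm h7.swap
          exact hncol (h8.swap.trans ⟨u, hd, hu⟩)
    subst hdd'
    have h5 : s = s' := Units.ext (smul_left_injective F (hf1 d).1 h2)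
    rw [h5]
  have hle := Nat.card_le_card_of_injective _ hinj
  rw [Nat.card_prod, Nat.card_units, card_ker e3_ne, sq_sub_one, card_or b _ (c.not_pt b u), pt_count u hu.1,
    c.A_eq hP b a, mul_comm (Nat.card F - 1)] at hle
  have := Nat.le_of_mul_le_mul_right hle hq
  omega

theorem A_ge (c : Cfg ρ) (hP : TypePt ρ) (a : Ω) (hM : ∀ (b : Ω) (v : Fin 3 → F), Pt (Xs (ρ a) b) v →
    ∀ μ, EV (ρ a) b v μ → μ = 1) : Nat.card F - 1 ≤ Nat.card {b : Ω // Pt (Xs (ρ a) b) e1} := by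
  obtain ⟨b, hb⟩ := c.A_pos hP a e1_ne
  rw [← Nat.card_units]
  have hdet : ∀ s : Fˣ, (s : F) * ((s⁻¹ : Fˣ) : F) * 1 = 1 := by
    intro s
    rw [mul_one, ← Units.val_mul, mul_inv_cancel, Units.val_one]
  have he : ∀ s : Fˣ, dg (s : F) ((s⁻¹ : Fˣ) : F) 1 (hdet s) • (e1 : Fin 3 → F) = (s : F) • e1 := by
    intro s
    rw [dg_apply]
    apply ext3 <;> simp [smul_ap]
  apply Nat.card_le_card_of_injective (fun s : Fˣ => (⟨ρ a (dg (s : F) ((s⁻¹ : Fˣ) : F) 1 (hdet s)) • b, by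
    have h1 := hb.conj (Xs_conj (ρ a) b (dg (s : F) ((s⁻¹ : Fˣ) : F) 1 (hdet s)))
    rw [he] at h1
    have h2 := h1.smul (c := (s : F)⁻¹) (inv_ne_zero s.ne_zero)
    rwa [smul_smul, inv_mul_cancel₀ s.ne_zero, one_smul] at h2⟩ : {b : Ω // Pt (Xs (ρ a) b) e1}))
  intro s s' hss
  have h1 : ρ a (dg (s : F) ((s⁻¹ : Fˣ) : F) 1 (hdet s)) • b = ρ a (dg (s' : F) ((s'⁻¹ : Fˣ) : F) 1 (hdet s')) • b :=
    congrArg Subtype.val hss
  have h2 : (dg (s' : F) ((s'⁻¹ : Fˣ) : F) 1 (hdet s'))⁻¹ * dg (s : F) ((s⁻¹ : Fˣ) : F) 1 (hdet s) ∈ Xs (ρ a) b := by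
    rw [mem_Xs, map_mul, map_inv, mul_smul, h1, inv_smul_smul]
  have h3 := hM b e1 hb (((s' : F)⁻¹) * s) ⟨_, h2, by
    rw [mul_smul, he, inv_smul_eq_iff, smul_smul_comm', he, smul_smul, mul_assoc, mul_comm (s : F),
      inv_mul_cancel_left₀ s'.ne_zero]⟩
  apply Units.ext
  have h4 : (s' : F) * ((s' : F)⁻¹ * s) = s' * 1 := by rw [h3]
  rwa [mul_inv_cancel_left₀ s'.ne_zero, mul_one] at h4

end Cfg

end Cfsg.Agent.H438.SLThree
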