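import Mathlib
import Cfsg.Agent.H438.SLThreeR
set_option linter.all false

-- part: H438/SLThreeV
section
/-!
# Type `Fl`, I: counting (helper438, S3727)
-/

set_option autoImplicit false
set_option linter.unusedSectionVars false
set_option linter.unusedSimpArgs false

namespace Cfsg.Agent.H438.SLThree

open Matrix MulAction

variable {F : Type*} [Field F] {G Ω : Type*} [Group G] [MulAction G Ω]

theorem Fl.smul_left {X : Subgroup (S F)} {v φ : Fin 3 → F} (h : Fl X v φ) {k : F} (hk : k ≠ 0) :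
    Fl X (k • v) φ := by
  obtain ⟨h1, h2, h3, h4, h5, h6, h7⟩ := h
  refine ⟨smul_ne_zero hk h1, h2, by rw [dotProduct_smul, h3, smul_zero], ?_, h5, h6.smul k, h7⟩
  intro g hg
  obtain ⟨μ, hμ⟩ := h4 g hg
  exact ⟨μ, by rw [smul_smul_comm', hμ, smul_comm]⟩

theorem Fl.smul_right {X : Subgroup (S F)} {v φ : Fin 3 → F} (h : Fl X v φ) {k : F} (hk : k ≠ 0) :
    Fl X v (k • φ) := by
  obtain ⟨h1, h2, h3, h4, h5, h6, h7⟩ := h
  refine ⟨h1, smul_ne_zero hk h2, by rw [smul_dotProduct, h3, smul_zero], h4, ?_, h6, h7.smul k⟩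
  intro g hg
  obtain ⟨μ, hμ⟩ := h5 g hg
  exact ⟨μ, by rw [row_smul, hμ, smul_comm]⟩

theorem Fl.par {X : Subgroup (S F)} {v φ w ψ : Fin 3 → F} (h : Fl X v φ) (h' : Fl X w ψ) :
    (∃ k : F, k ≠ 0 ∧ w = k • v) ∧ ∃ k : F, k ≠ 0 ∧ ψ = k • φ := by
  constructor
  · obtain ⟨k, hk⟩ := cen_unique h.1 h.2.2.2.2.2.1 h'.2.2.2.1
    refine ⟨k, ?_, hk⟩
    rintro rfl
    exact h'.1 (by rw [hk, zero_smul])
  · obtain ⟨k, hk⟩ := ax_unique h.2.1 h.2.2.2.2.2.2 h'.2.2.2.2.1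
    refine ⟨k, ?_, hk⟩
    rintro rfl
    exact h'.2.1 (by rw [hk, zero_smul])

theorem Fl.of_par {X : Subgroup (S F)} {v φ w ψ : Fin 3 → F} (h : Fl X v φ) (h' : Fl X w ψ) : Fl X v ψ := by
  obtain ⟨-, k, hk, rfl⟩ := h.par h'
  exact h.smul_right hk

theorem not_all_fix {v : Fin 3 → F} (hv : v ≠ 0) (h : ∀ g : S F, ∃ μ : F, g • v = μ • v) : False := by
  have key : ∀ w : Fin 3 → F, w ≠ 0 → ∃ c : F, w = c • v := by
    intro w hw
    obtain ⟨g, hg⟩ := exists_smul hv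
    obtain ⟨k, hk⟩ := exists_smul hw
    obtain ⟨μ, hμ⟩ := h (k * g⁻¹)
    refine ⟨μ, ?_⟩
    rw [← hμ, mul_smul, ← hg, inv_smul_smul, hk]
  obtain ⟨c1, h1⟩ := key e1 e1_ne
  obtain ⟨c3, h3⟩ := key e3 e3_ne
  have a1 := congrFun h1 0
  have a2 := congrFun h1 2
  have a4 := congrFun h3 2
  simp only [smul_ap, e1_zero, e1_two] at a1 a2
  have h5 : v 2 = 0 := by
    rcases mul_eq_zero.1 a2.symm with h6 | h6
    · rw [h6, zero_mul] at a1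
      exact (one_ne_zero a1).elim
    · exact h6
  rw [smul_ap, h5, mul_zero] at a4
  exact one_ne_zero (α := F) a4

theorem Fl.ne_top {X : Subgroup (S F)} {v φ : Fin 3 → F} (h : Fl X v φ) : X ≠ ⊤ := by
  rintro rfl
  exact not_all_fix h.1 fun g => h.2.2.2.1 g trivial

theorem planes_par {v w φ ψ : Fin 3 → F} (hv : v ≠ 0) (hφ : φ ≠ 0) (hnp : ¬ ∃ k : F, w = k • v)
    (h1 : φ ⬝ᵥ v = 0) (h2 : φ ⬝ᵥ w = 0) (h3 : ψ ⬝ᵥ v = 0) (h4 : ψ ⬝ᵥ w = 0) : ∃ k : F, ψ = k • φ := by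
  obtain ⟨k, β, hβ, hk, hkφ, hkw⟩ := exists_adapted hv hφ h1 h2 hnp
  have e0 : row ψ k ⬝ᵥ e1 = 0 := by rw [row_dot, hk, h3]
  have e1' : row ψ k ⬝ᵥ ![0, 1, 0] = 0 := by rw [row_dot, hkw, dotProduct_smul, h4, smul_zero]
  refine ⟨row ψ k 2, ?_⟩
  have h5 : row ψ k = row ψ k 2 • e3 := by
    apply ext3
    · rw [dot_e1] at e0
      rw [e0]; simp [smul_ap]
    · rw [dot_apply] at e1'
      simp at e1'
      rw [e1']; simp [smul_ap]
    · simp [smul_ap]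
  rw [← hkφ, ← row_smul, ← h5, row_row_inv]

theorem fl_dual_iff {ρ : S F →* G} {b : Ω} {v φ : Fin 3 → F} :
    Fl (Xs (ρ.comp dual) b) φ v ↔ Fl (Xs ρ b) v φ := by
  constructor
  · intro h
    have h1 := h.toDual
    rw [← Xs_dual, comp_dual_dual] at h1
    exact h1
  · intro h
    rw [Xs_dual]
    exact h.toDual

variable {ρ : S F →* G}

theorem fl_count [Finite Ω] (P : Ω → Prop) (hP : ∀ h b, P (ρ h • b) ↔ P b) {v φ : Fin 3 → F} (hv : v ≠ 0) (hφ : φ ≠ 0)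
    (hd : φ ⬝ᵥ v = 0) :
    Nat.card {b : Ω // P b ∧ Fl (Xs ρ b) v φ} = Nat.card {b : Ω // P b ∧ Fl (Xs ρ b) e1 e3} := by
  obtain ⟨h, hh, hh'⟩ := exists_flag hv hφ hd
  symm
  apply Nat.card_congr
  refine (MulAction.toPerm (ρ h)).subtypeEquiv ?_
  intro b
  rw [MulAction.toPerm_apply]
  constructor
  · rintro ⟨hb1, hb⟩
    refine ⟨(hP h b).2 hb1, ?_⟩
    rw [← hh, ← hh']
    exact hb.conj (Xs_conj ρ b h)
  · rintro ⟨hb1, hb⟩
    refine ⟨(hP h b).1 hb1, ?_⟩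
    have h8 := hb.conj (Y := Xs ρ b) (h := h⁻¹) (by
      intro g
      have := Xs_conj ρ (ρ h • b) h⁻¹ g
      rwa [← mul_smul, ← map_mul, inv_mul_cancel, map_one, one_smul] at this)
    rwa [← hh, inv_smul_smul, ← hh', inv_inv, row_inv_row] at h8

theorem fl_fiber [Finite F] (X : Subgroup (S F)) {v φ : Fin 3 → F} (hX : Fl X v φ) (K : (Fin 3 → F) → Prop)
    (hK : ∀ ψ, Fl X v ψ → K ψ) : Nat.card {ψ // K ψ ∧ Fl X v ψ} = Nat.card F - 1 := by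
  classical
  have : Fintype F := Fintype.ofFinite F
  have e : {c : F // c ≠ 0} ≃ {x // K x ∧ Fl X v x} := by
    refine Equiv.ofBijective (fun c => ⟨c.1 • φ, hK _ (hX.smul_right c.2), hX.smul_right c.2⟩) ⟨?_, ?_⟩
    · rintro ⟨c, hc⟩ ⟨d, hd⟩ hcd
      have h1 : c • φ = d • φ := congrArg Subtype.val hcd
      apply Subtype.ext
      exact smul_left_injective F hX.2.1 h1
    · rintro ⟨y, hy1, hy2⟩
      obtain ⟨-, c, hc0, hc⟩ := hX.par hy2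
      exact ⟨⟨c, hc0⟩, Subtype.ext hc.symm⟩
  rw [← Nat.card_congr e, Nat.card_eq_fintype_card, Fintype.card_subtype_compl, Fintype.card_subtype_eq,
    Nat.card_eq_fintype_card]

theorem card_ker' [Finite F] {v : Fin 3 → F} (hv : v ≠ 0) :
    Nat.card {φ : Fin 3 → F // φ ≠ 0 ∧ φ ⬝ᵥ v = 0} = Nat.card F ^ 2 - 1 := by
  rw [← card_ker hv]
  apply Nat.card_congr
  refine Equiv.subtypeEquivRight fun x => ?_
  rw [dotProduct_comm]

/-- points over `w` -/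
theorem card_F1 [Finite F] [Finite Ω] (P : Ω → Prop) (hP : ∀ h b, P (ρ h • b) ↔ P b) {w : Fin 3 → F} (hw : w ≠ 0) :
    Nat.card {b : Ω // P b ∧ ∃ φ, Fl (Xs ρ b) w φ} =
      (Nat.card F + 1) * Nat.card {b : Ω // P b ∧ Fl (Xs ρ b) e1 e3} := by
  have hq := q_sub F
  have hc := dcount (fun (φ : Fin 3 → F) (b : Ω) => P b ∧ Fl (Xs ρ b) w φ) (fun φ => φ ≠ 0 ∧ φ ⬝ᵥ w = 0)
    (c := Nat.card {b : Ω // P b ∧ Fl (Xs ρ b) e1 e3}) (m := Nat.card F - 1)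
    (fun φ hφ => fl_count P hP hw hφ.1 hφ.2) (by
      rintro b ⟨φ, -, hPb, hb⟩
      rw [← fl_fiber (Xs ρ b) hb (fun φ => φ ≠ 0 ∧ φ ⬝ᵥ w = 0) (fun ψ hψ => ⟨hψ.2.1, hψ.2.2.1⟩)]
      apply Nat.card_congr
      refine Equiv.subtypeEquivRight fun x => ?_
      tauto)
  rw [card_ker' hw, sq_sub_one, mul_assoc, mul_comm (Nat.card {b : Ω // ∃ x, _})] at hc
  rw [Nat.eq_of_mul_eq_mul_left hq hc]
  apply Nat.card_congr
  refine Equiv.subtypeEquivRight fun b => ?_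
  constructor
  · rintro ⟨h1, φ, h2⟩
    exact ⟨φ, ⟨h2.2.1, h2.2.2.1⟩, h1, h2⟩
  · rintro ⟨φ, -, h1, h2⟩
    exact ⟨h1, φ, h2⟩

/-- points over the line `χ` -/
theorem card_F2 [Finite F] [Finite Ω] (P : Ω → Prop) (hP : ∀ h b, P (ρ h • b) ↔ P b) {χ : Fin 3 → F} (hχ : χ ≠ 0) :
    Nat.card {b : Ω // P b ∧ ∃ v, Fl (Xs ρ b) v χ} =
      (Nat.card F + 1) * Nat.card {b : Ω // P b ∧ Fl (Xs ρ b) e1 e3} := by
  have h1 := card_F1 (ρ := ρ.comp dual) P (fun h b => hP _ b) hχ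
  simp only [fl_dual_iff] at h1
  rw [h1, fl_count P hP e3_ne e1_ne (by rw [dot_apply]; simp)]

theorem card_Fall [Finite F] [Finite Ω] (P : Ω → Prop) (hP : ∀ h b, P (ρ h • b) ↔ P b) :
    Nat.card {b : Ω // P b ∧ ∃ v φ, Fl (Xs ρ b) v φ} =
      (Nat.card F ^ 2 + Nat.card F + 1) * ((Nat.card F + 1) * Nat.card {b : Ω // P b ∧ Fl (Xs ρ b) e1 e3}) := by
  have hq := q_sub F
  have hc := dcount (fun (v : Fin 3 → F) (b : Ω) => P b ∧ ∃ φ, Fl (Xs ρ b) v φ) (fun v => v ≠ 0)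
    (c := (Nat.card F + 1) * Nat.card {b : Ω // P b ∧ Fl (Xs ρ b) e1 e3}) (m := Nat.card F - 1)
    (fun v hv => card_F1 P hP hv) (by
      rintro b ⟨v, -, hPb, φ, hb⟩
      have h1 := fl_fiber (Xs (ρ.comp dual) b) (fl_dual_iff.2 hb) (fun φ => φ ≠ 0) (fun ψ hψ => hψ.2.1)
      rw [← h1]
      apply Nat.card_congr
      refine Equiv.subtypeEquivRight fun x => ?_
      rw [fl_dual_iff]
      constructor
      · rintro ⟨hx, -, ψ, hψ⟩
        exact ⟨hx, hψ.of_par hb⟩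
      · rintro ⟨hx, hψ⟩
        exact ⟨hx, hPb, _, hψ⟩)
  have h2 : Nat.card F ^ 3 - 1 = (Nat.card F - 1) * (Nat.card F ^ 2 + Nat.card F + 1) := by
    obtain ⟨r, hr⟩ : ∃ r, Nat.card F = r + 1 := ⟨Nat.card F - 1, by omega⟩
    rw [hr, Nat.add_sub_cancel]
    have : (r + 1) ^ 3 = r * ((r + 1) ^ 2 + (r + 1) + 1) + 1 := by ring
    rw [this, Nat.add_sub_cancel]
  rw [card_ne, h2, mul_assoc, mul_comm (Nat.card {b : Ω // ∃ x, _})] at hc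
  rw [Nat.eq_of_mul_eq_mul_left hq hc]
  apply Nat.card_congr
  refine Equiv.subtypeEquivRight fun b => ?_
  constructor
  · rintro ⟨h1, v, φ, h2⟩
    exact ⟨v, h2.1, h1, φ, h2⟩
  · rintro ⟨v, -, h1, φ, h2⟩
    exact ⟨h1, v, φ, h2⟩

theorem Fl.tv_mem_aux {X : Subgroup (S F)} {v φ w χ : Fin 3 → F} (h : Fl X v φ) (hw : w ≠ 0) (hχ : χ ≠ 0)
    (hd : χ ⬝ᵥ w = 0) {μ μ' : F} (hμ : tv w χ • v = μ • v) (hμ' : row φ (tv w χ) = μ' • φ) :
    (∃ k : F, k ≠ 0 ∧ w = k • v) ∨ ∃ k : F, k ≠ 0 ∧ χ = k • φ := by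
  have h1 : χ ⬝ᵥ v = 0 := dot_of_fix hd hw hμ
  by_cases hp : ∃ k : F, w = k • v
  · obtain ⟨k, hk⟩ := hp
    left
    refine ⟨k, ?_, hk⟩
    rintro rfl
    exact hw (by rw [hk, zero_smul])
  · right
    by_cases hφw : φ ⬝ᵥ w = 0
    · obtain ⟨k, hk⟩ := planes_par h.1 h.2.1 hp h.2.2.1 hφw h1 hd
      refine ⟨k, ?_, hk⟩
      rintro rfl
      exact hχ (by rw [hk, zero_smul])
    · rw [row_tv hd] at hμ'
      have h2 : (φ ⬝ᵥ w) • χ = (μ' - 1) • φ := by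
        rw [sub_smul, one_smul, ← hμ']; simp
      have h3 : χ = ((φ ⬝ᵥ w)⁻¹ * (μ' - 1)) • φ := by
        rw [mul_smul, ← h2, smul_smul, inv_mul_cancel₀ hφw, one_smul]
      refine ⟨_, ?_, h3⟩
      intro h4
      exact hχ (by rw [h3, h4, zero_smul])

/-- transvections in a flag stabiliser -/
theorem Fl.tv_mem {X : Subgroup (S F)} {v φ w χ : Fin 3 → F} (h : Fl X v φ) (hw : w ≠ 0) (hχ : χ ≠ 0)
    (hd : χ ⬝ᵥ w = 0) : tv w χ ∈ X ↔ (∃ k : F, k ≠ 0 ∧ w = k • v) ∨ ∃ k : F, k ≠ 0 ∧ χ = k • φ := by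
  constructor
  · intro ht
    obtain ⟨μ, hμ⟩ := h.2.2.2.1 _ ht
    obtain ⟨μ', hμ'⟩ := h.2.2.2.2.1 _ ht
    exact h.tv_mem_aux hw hχ hd hμ hμ'
  · rintro (⟨k, hk, rfl⟩ | ⟨k, hk, rfl⟩)
    · exact (h.2.2.2.2.2.1.smul k) _ hd
    · exact (h.2.2.2.2.2.2.smul k) _ hd

theorem Fl.tv_mem_of {X : Subgroup (S F)} {v φ w χ : Fin 3 → F} (h : Fl X v φ) (hw : w ≠ 0) (hχ : χ ≠ 0)
    (hd : χ ⬝ᵥ w = 0) {μ μ' : F} (hμ : tv w χ • v = μ • v) (hμ' : row φ (tv w χ) = μ' • φ) : tv w χ ∈ X :=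
  (h.tv_mem hw hχ hd).2 (h.tv_mem_aux hw hχ hd hμ hμ')

/-- fixed points of a transvection -/
theorem fix_count [Finite F] [Finite Ω] (a : Ω) (hfix : ∀ g, ρ g • a = a) (hFl : ∀ b, b ≠ a → ∃ v φ, Fl (Xs ρ b) v φ)
    {w χ : Fin 3 → F} (hw : w ≠ 0) (hχ : χ ≠ 0) (hd : χ ⬝ᵥ w = 0) :
    {b : Ω | ρ (tv w χ) • b = b} = insert a ({b | ∃ φ, Fl (Xs ρ b) w φ} ∪ {b | ∃ v, Fl (Xs ρ b) v χ}) := by
  ext b
  simp only [Set.mem_ofPred_eq, Set.mem_insert_iff, Set.mem_union]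
  by_cases hb : b = a
  · subst hb
    exact ⟨fun _ => Or.inl rfl, fun _ => hfix _⟩
  obtain ⟨v, φ, h⟩ := hFl b hb
  have h1 := h.tv_mem hw hχ hd
  rw [mem_Xs] at h1
  rw [h1]
  constructor
  · rintro (⟨k, hk, rfl⟩ | ⟨k, hk, rfl⟩)
    · exact Or.inr (Or.inl ⟨φ, h.smul_left hk⟩)
    · exact Or.inr (Or.inr ⟨v, h.smul_right hk⟩)
  · rintro (h2 | ⟨φ', h2⟩ | ⟨v', h2⟩)
    · exact (hb h2).elim
    · obtain ⟨⟨k, hk, hk'⟩, -⟩ := h.par h2
      exact Or.inl ⟨k, hk, hk'⟩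
    · obtain ⟨-, k, hk, hk'⟩ := h.par h2
      exact Or.inr ⟨k, hk, hk'⟩

theorem not_fl (a : Ω) (hfix : ∀ g, ρ g • a = a) (v φ : Fin 3 → F) : ¬ Fl (Xs ρ a) v φ := by
  intro h
  apply h.ne_top
  rw [eq_top_iff]
  intro g _
  exact hfix g

theorem ncard_F1 [Finite F] [Finite Ω] {w : Fin 3 → F} (hw : w ≠ 0) :
    {b : Ω | ∃ φ, Fl (Xs ρ b) w φ}.ncard = (Nat.card F + 1) * Nat.card {b : Ω // Fl (Xs ρ b) e1 e3} := by
  have h := card_F1 (ρ := ρ) (Ω := Ω) (fun _ => True) (fun _ _ => Iff.rfl) hw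
  simp only [true_and] at h
  exact h

theorem ncard_F2 [Finite F] [Finite Ω] {χ : Fin 3 → F} (hχ : χ ≠ 0) :
    {b : Ω | ∃ v, Fl (Xs ρ b) v χ}.ncard = (Nat.card F + 1) * Nat.card {b : Ω // Fl (Xs ρ b) e1 e3} := by
  have h := card_F2 (ρ := ρ) (Ω := Ω) (fun _ => True) (fun _ _ => Iff.rfl) hχ
  simp only [true_and] at h
  exact h

theorem ncard_F12 [Finite Ω] {w χ : Fin 3 → F} (hw : w ≠ 0) (hχ : χ ≠ 0) (hd : χ ⬝ᵥ w = 0) :
    ({b : Ω | ∃ φ, Fl (Xs ρ b) w φ} ∩ {b | ∃ v, Fl (Xs ρ b) v χ}).ncard =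
      Nat.card {b : Ω // Fl (Xs ρ b) e1 e3} := by
  have h := fl_count (ρ := ρ) (Ω := Ω) (fun _ => True) (fun _ _ => Iff.rfl) hw hχ hd
  simp only [true_and] at h
  rw [← h]
  apply congrArg Set.ncard
  ext b
  simp only [Set.mem_inter_iff, Set.mem_ofPred_eq]
  constructor
  · rintro ⟨⟨φ, h1⟩, v, h2⟩
    exact h1.of_par h2
  · intro h1
    exact ⟨⟨_, h1⟩, _, h1⟩

theorem ncard_fix [Finite F] [Finite Ω] (a : Ω) (hfix : ∀ g, ρ g • a = a)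
    (hFl : ∀ b, b ≠ a → ∃ v φ, Fl (Xs ρ b) v φ) {w χ : Fin 3 → F} (hw : w ≠ 0) (hχ : χ ≠ 0) (hd : χ ⬝ᵥ w = 0) :
    {b : Ω | ρ (tv w χ) • b = b}.ncard = 1 + (2 * Nat.card F + 1) * Nat.card {b : Ω // Fl (Xs ρ b) e1 e3} := by
  rw [fix_count a hfix hFl hw hχ hd, Set.ncard_insert_of_notMem, add_comm 1]
  · congr 1
    have h1 := Set.ncard_union_add_ncard_inter {b : Ω | ∃ φ, Fl (Xs ρ b) w φ} {b | ∃ v, Fl (Xs ρ b) v χ}
      (Set.toFinite _) (Set.toFinite _)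
    rw [ncard_F1 hw, ncard_F2 hχ, ncard_F12 hw hχ hd] at h1
    have h2 : (Nat.card F + 1) * Nat.card {b : Ω // Fl (Xs ρ b) e1 e3} +
        (Nat.card F + 1) * Nat.card {b : Ω // Fl (Xs ρ b) e1 e3} =
        (2 * Nat.card F + 1) * Nat.card {b : Ω // Fl (Xs ρ b) e1 e3} + Nat.card {b : Ω // Fl (Xs ρ b) e1 e3} := by ring
    omega
  · simp only [Set.mem_union, Set.mem_ofPred_eq, not_or, not_exists]
    exact ⟨fun φ => not_fl a hfix _ _, fun v => not_fl a hfix _ _⟩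

end Cfsg.Agent.H438.SLThree
end

-- part: H438/SLThreeW
section
/-!
# Type `Fl`, II: the centralisers (helper438, S3727)
-/

set_option autoImplicit false
set_option linter.unusedSectionVars false
set_option linter.unusedSimpArgs false

namespace Cfsg.Agent.H438.SLThree

open Matrix MulAction

variable {F : Type*} [Field F] {G Ω : Type*} [Group G] [MulAction G Ω]

variable {ρ : Ω → (S F →* G)}

namespace Cfg

variable [Finite F] [CharP F 2] [Finite (S F)] [Finite G] [Finite Ω]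

/-- `C(N a) ∩ N b = 1` -/
theorem KN_one_fl (c : Cfg ρ) (hP : TypeFl ρ) {a b : Ω} (hab : b ≠ a) {x : G} (hx : x ∈ K ρ a) (hxb : x ∈ N ρ b) :
    x = 1 := by
  classical
  by_contra hx1
  have : Fintype F := Fintype.ofFinite F
  have key : ∀ a' b' : Ω, b' ≠ a' → ∀ v φ : Fin 3 → F, Fl (Xs (ρ b') a') v φ →
      ∃ k : F, k ≠ 0 ∧ ρ b' (tv v (k • φ)) ∈ K ρ a' := by
    intro a' b' hab' v φ hfl
    obtain ⟨y, hy1, hy2⟩ := c.two a b a' b' hab.symm hab'.symm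
    have h1 : y * x * y⁻¹ ∈ K ρ a' := hy1 ▸ c.K_conj hx
    have h2 : y * x * y⁻¹ ∈ N ρ b' := hy2 ▸ c.N_conj hxb
    have h3 : y * x * y⁻¹ ≠ 1 := by
      intro h
      rw [mul_inv_eq_one, mul_eq_left] at h
      exact hx1 h
    obtain ⟨W, hW1, hW2, hW3, hW4, hW5⟩ := c.W_pt h1 h2 h3
    obtain ⟨k, hk, hk'⟩ := hfl.normal_tv hW1 hW2 hW3 hW4
    exact ⟨k, hk, hW5 _ hk'⟩
  -- few points over a flag
  have hA : Nat.card {d : Ω // Fl (Xs (ρ b) d) e1 e3} ≤ Nat.card F - 1 := by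
    have hch : ∀ d : {d : Ω // Fl (Xs (ρ b) d) e1 e3}, ∃ k : {k : F // k ≠ 0}, ρ b (tv e1 (k.1 • e3)) ∈ K ρ d.1 := by
      rintro ⟨d, hd⟩
      have hdb : b ≠ d := by
        rintro rfl
        exact not_fl b (c.fix b) _ _ hd
      obtain ⟨k, hk, hk'⟩ := key d b hdb _ _ hd
      exact ⟨⟨k, hk⟩, hk'⟩
    choose f hf using hch
    have hinj : Function.Injective f := by
      rintro d d' hdd
      by_contra hne
      have hne' : d'.1 ≠ d.1 := fun h => hne (Subtype.ext h.symm)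
      have h1 := hf d
      have h2 := hf d'
      rw [← hdd] at h2
      have h3 := c.K_inf hne' h1 h2
      have h4 : ((f d).1 • (e3 : Fin 3 → F)) ⬝ᵥ e1 = 0 := by
        rw [smul_dotProduct, dot_e1]; simp
      exact (c.rep b).tv_ne h4 e1_ne (smul_ne_zero (f d).2 e3_ne) h3
    have h5 := Nat.card_le_card_of_injective f hinj
    have h6 : Nat.card {k : F // k ≠ 0} = Nat.card F - 1 := by
      rw [Nat.card_eq_fintype_card, Fintype.card_subtype_compl, Fintype.card_subtype_eq, Nat.card_eq_fintype_card]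
    rwa [h6] at h5
  obtain ⟨v, φ, hfl⟩ := hP b a hab.symm
  obtain ⟨k, hk, ht⟩ := key a b hab v φ hfl
  have hd : (k • φ) ⬝ᵥ v = 0 := by rw [smul_dotProduct, hfl.2.2.1, smul_zero]
  have hfix := ncard_fix (ρ := ρ b) b (c.fix b) (hP b) hfl.1 (smul_ne_zero hk hfl.2.1) hd
  have hinv : ∀ (h : S F) (d : Ω), ρ b (tv v (k • φ)) • ρ a h • d = ρ a h • d ↔ ρ b (tv v (k • φ)) • d = d := by
    intro h d
    rw [← mul_smul, mem_K.1 ht h, mul_smul]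
    exact smul_left_cancel_iff _
  have h1 := card_Fall (ρ := ρ a) (fun d => ρ b (tv v (k • φ)) • d = d) hinv
  obtain ⟨v1, φ1, h2⟩ := hP a b hab
  have h3 := fl_count (ρ := ρ a) (fun d => ρ b (tv v (k • φ)) • d = d) hinv h2.1 h2.2.1 h2.2.2.1
  have h4 : 0 < Nat.card {d : Ω // ρ b (tv v (k • φ)) • d = d ∧ Fl (Xs (ρ a) d) v1 φ1} := by
    rw [Nat.card_pos_iff]
    exact ⟨⟨b, c.fix b _, h2⟩, inferInstance⟩
  rw [h3] at h4
  have h5 : Nat.card {d : Ω // ρ b (tv v (k • φ)) • d = d ∧ ∃ v φ, Fl (Xs (ρ a) d) v φ} ≤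
      {d : Ω | ρ b (tv v (k • φ)) • d = d}.ncard := by
    apply Set.ncard_le_ncard (s := {d : Ω | ρ b (tv v (k • φ)) • d = d ∧ ∃ v φ, Fl (Xs (ρ a) d) v φ})
    intro d hd
    exact hd.1
  rw [h1, hfix] at h5
  have hq := q_sub F
  obtain ⟨r, hr⟩ : ∃ r, Nat.card F = r + 2 := ⟨Nat.card F - 2, by omega⟩
  rw [hr] at h5 hA
  have h6 : ((r + 2) ^ 2 + (r + 2) + 1) * ((r + 2 + 1) * 1) ≤ 1 + (2 * (r + 2) + 1) * (r + 1) := by
    calc _ ≤ _ := Nat.mul_le_mul_left _ (Nat.mul_le_mul_left _ h4)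
      _ ≤ _ := h5
      _ ≤ _ := Nat.add_le_add_left (Nat.mul_le_mul_left _ (by omega)) 1
  nlinarith

/-- `C(N a) ∩ G_b = 1` -/
theorem KG_one_fl (c : Cfg ρ) (hP : TypeFl ρ) {a b : Ω} (hab : b ≠ a) {x : G} (hx : x ∈ K ρ a) (hxb : x • b = b) :
    x = 1 := by
  classical
  by_contra hx1
  obtain ⟨⟨a, b, x⟩, ⟨hab, hx, hxb, hx1⟩, hmax⟩ := Set.exists_max_image
    {p : Ω × Ω × G | p.2.1 ≠ p.1 ∧ p.2.2 ∈ K ρ p.1 ∧ p.2.2 • p.2.1 = p.2.1 ∧ p.2.2 ≠ 1}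
    (fun p => {d : Ω | p.2.2 • d = d}.ncard) (Set.toFinite _) ⟨(a, b, x), hab, hx, hxb, hx1⟩
  simp only at hab hx hxb hx1 hmax
  obtain ⟨v, φ, hfl⟩ := hP b a hab.symm
  have hcomm : ∀ g ∈ Xs (ρ b) a, x * ρ b g * x⁻¹ = ρ b g := by
    intro g hg
    have h1 : x * ρ b g * x⁻¹ * (ρ b g)⁻¹ ∈ N ρ b :=
      (N ρ b).mul_mem (c.N_conj_fix hxb (rho_mem b g)) ((N ρ b).inv_mem (rho_mem b g))
    have h2 : x * (ρ b g * x⁻¹ * (ρ b g)⁻¹) ∈ K ρ a :=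
      (K ρ a).mul_mem hx (c.K_conj_fix hg ((K ρ a).inv_mem hx))
    have h3 := c.KN_one_fl hP hab h2 (by simpa only [mul_assoc] using h1)
    have h4 : x * ρ b g * x⁻¹ * (ρ b g)⁻¹ = 1 := by simpa only [mul_assoc] using h3
    exact mul_inv_eq_one.1 h4
  obtain ⟨k, hk⟩ := c.exists_root hxb hfl.1 hfl.2.1 hfl.2.2.1
    (fun ψ hψ => hcomm _ (hfl.2.2.2.2.2.1 ψ hψ)) (fun w hw => hcomm _ (hfl.2.2.2.2.2.2 w hw))
  have hd : (k • φ) ⬝ᵥ v = 0 := by rw [smul_dotProduct, hfl.2.2.1, smul_zero]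
  have hza : ρ b (tv v (k • φ)) • a = a := hfl.2.2.2.2.2.1 _ hd
  have hk0 : k ≠ 0 := by
    rintro rfl
    rw [zero_smul, tv_zero_right, map_one, inv_one, one_mul] at hk
    exact hx1 (c.K_inf hab hx hk)
  set y := (ρ b (tv v (k • φ)))⁻¹ * x with hy
  have hxy : x = ρ b (tv v (k • φ)) * y := by rw [hy, mul_inv_cancel_left]
  have hya : y • a = a := by
    rw [hy, mul_smul, c.K_fix hx, inv_smul_eq_iff, hza]
  have hy1 : y ≠ 1 := by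
    intro h
    rw [h, mul_one] at hxy
    exact hx1 (c.KN_one_fl hP hab hx (hxy ▸ rho_mem b _))
  have hsub : {d : Ω | x • d = d} ⊆ {d : Ω | y • d = d} := by
    intro d hd'
    simp only [Set.mem_ofPred_eq] at hd' ⊢
    by_cases hdb : d = b
    · rw [hdb]; exact c.K_fix hk
    obtain ⟨v', φ', hfl'⟩ := hP b d hdb
    have h1 : y • d = ρ b (tv v (k • φ))⁻¹ • d := by
      rw [map_inv, eq_inv_smul_iff, ← mul_smul, ← hxy, hd']
    have h2 : Xs (ρ b) (y • d) = Xs (ρ b) d := by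
      ext g
      rw [mem_Xs, mem_Xs, ← mul_smul, ← mem_K.1 hk g, mul_smul]
      exact smul_left_cancel_iff _
    have h3 := hfl'.conj (Xs_conj (ρ b) d (tv v (k • φ))⁻¹)
    rw [← h1, h2] at h3
    obtain ⟨⟨k1, hk1, h4⟩, ⟨k2, hk2, h5⟩⟩ := hfl'.par h3
    have h6 : tv v (k • φ) • v' = k1⁻¹ • v' := by
      have h7 : v' = k1 • (tv v (k • φ) • v') := by
        rw [← smul_smul_comm', ← h4, smul_inv_smul]
      nth_rewrite 2 [h7]
      rw [smul_smul, inv_mul_cancel₀ hk1, one_smul]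
    rw [inv_inv] at h5
    have h7 : tv v (k • φ) ∈ Xs (ρ b) d := hfl'.tv_mem_of hfl.1 (smul_ne_zero hk0 hfl.2.1) hd h6 h5
    rw [h1, map_inv, inv_smul_eq_iff]
    exact h7.symm
  have hle : {d : Ω | y • d = d}.ncard ≤ {d : Ω | x • d = d}.ncard := hmax (b, a, y) ⟨hab.symm, hk, hya, hy1⟩
  have heq := Set.eq_of_subset_of_ncard_le hsub hle (Set.toFinite _)
  obtain ⟨u, hu⟩ := exists_dot (smul_ne_zero hk0 hfl.2.1)
  have hu0 : u ≠ 0 := by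
    rintro rfl
    rw [dotProduct_zero] at hu
    exact zero_ne_one hu
  obtain ⟨g1, hg1⟩ := exists_smul hfl.1
  obtain ⟨g2, hg2⟩ := exists_smul hu0
  have h1 : y • ρ b (g2 * g1⁻¹) • a = ρ b (g2 * g1⁻¹) • a := by
    rw [← mul_smul, mem_K.1 hk, mul_smul, hya]
  have h2 : ρ b (g2 * g1⁻¹) • a ∈ {d : Ω | x • d = d} := by
    rw [heq]; exact h1
  have h3 : ρ b (tv v (k • φ)) • ρ b (g2 * g1⁻¹) • a = ρ b (g2 * g1⁻¹) • a := by
    have h4 : x • ρ b (g2 * g1⁻¹) • a = ρ b (g2 * g1⁻¹) • a := h2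
    rwa [hxy, mul_smul, h1] at h4
  have h4 : (g2 * g1⁻¹)⁻¹ * tv v (k • φ) * (g2 * g1⁻¹) ∈ Xs (ρ b) a := by
    rw [← Xs_conj]
    exact h3
  obtain ⟨μ, hμ⟩ := hfl.2.2.2.1 _ h4
  have h5 : tv v (k • φ) • u = μ • u := by
    have h6 : (g2 * g1⁻¹) • v = u := by rw [mul_smul, ← hg1, inv_smul_smul, hg2]
    rw [← h6, ← smul_smul_comm', ← hμ, ← mul_smul, ← mul_smul]
    congr 1
    group
  rw [dot_of_fix hd hfl.1 h5] at hu
  exact zero_ne_one hu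

end Cfg

end Cfsg.Agent.H438.SLThree
end

-- part: H438/SLThreeX
section
/-!
# Type `Fl`, III: no polarities (helper438, S3727)
-/

set_option autoImplicit false
set_option linter.unusedSectionVars false
set_option linter.unusedSimpArgs false

namespace Cfsg.Agent.H438.SLThree

open Matrix MulAction

variable {F : Type*} [Field F] {G Ω : Type*} [Group G] [MulAction G Ω]

/-- the transposed inverse -/
def st (C : GL (Fin 3) F) : GL (Fin 3) F :=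
  ⟨(C⁻¹ : GL (Fin 3) F).1ᵀ, C.1ᵀ, by
    rw [← transpose_mul, ← Units.val_mul, mul_inv_cancel, Units.val_one, transpose_one], by
    rw [← transpose_mul, ← Units.val_mul, inv_mul_cancel, Units.val_one, transpose_one]⟩

theorem cr_st (C : GL (Fin 3) F) (σ : F ≃+* F) (u : Fin 3 → F) : cr (st C) σ u = cv C σ u := by
  unfold cr cv
  change (fun i => σ (u i)) ᵥ* C.1ᵀ = _
  rw [vecMul_transpose]

theorem th_dual (C : GL (Fin 3) F) (σ : F ≃+* F) (g : S F) : th C σ (dual g) = dual (th (st C) σ g) := by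
  apply ext_smul
  intro u
  obtain ⟨u, rfl⟩ := cv_surj C σ u
  rw [th_smul, dual_smul, dual_smul, ← cr_st, ← cr_st, ← map_inv, row_th]

theorem Tr.flip {ρ ρ' : S F →* G} {y : G} {C : GL (Fin 3) F} {σ : F ≃+* F} (h : Tr (ρ.comp dual) ρ' y C σ) :
    Tr ρ (ρ'.comp dual) y (st C) σ := by
  intro g
  have h1 := h (dual g)
  rw [th_dual, MonoidHom.comp_apply, dual_dual] at h1
  exact h1

theorem Tr.flip' {ρ ρ' : S F →* G} {y : G} {C : GL (Fin 3) F} {σ : F ≃+* F} (h : Tr ρ ρ' y C σ) :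
    Tr (ρ.comp dual) (ρ'.comp dual) y (st C) σ := by
  intro g
  have h1 := h (dual g)
  rw [th_dual] at h1
  exact h1

variable {ρ : Ω → (S F →* G)}

/-- a polarity coming from a linear map is symmetric -/
theorem symm_of_graph [CharP F 2] {ρ : S F →* G} (hρ : IsRep ρ) {x : G} (hxx : x * x = 1) {C : GL (Fin 3) F}
    {σ : F ≃+* F} (hT : Tr (ρ.comp dual) ρ x C σ) (hσ : ∀ c, σ c = c) : ∀ i j, C.1 i j = C.1 j i := by
  have hcv : ∀ u : Fin 3 → F, cv C σ u = C.1 *ᵥ u := by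
    intro u
    unfold cv
    congr 1
    funext i
    exact hσ _
  have hT2 : Tr ρ ρ (x * x) _ _ := hT.flip.comp hT
  -- the square acts trivially
  have hall : ∀ v : Fin 3 → F, ∃ k : F, cv (C * mapG σ (st C)) (σ * σ) v = k • v := by
    intro v
    by_cases hv : v = 0
    · exact ⟨0, by rw [hv, cv_zero, zero_smul]⟩
    obtain ⟨φ, hφ, hφv, -⟩ := exists_common v v
    rw [dotProduct_comm] at hφv
    have h1 := hT2 (tv v φ)
    rw [th_tv _ _ hφv, hxx, inv_one, mul_one, one_mul] at h1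
    have hd2 : cr (C * mapG σ (st C)) (σ * σ) φ ⬝ᵥ cv (C * mapG σ (st C)) (σ * σ) v = 0 := by
      rw [cr_dot_cv, hφv, map_zero]
    obtain ⟨k, hk, hk1, -⟩ := tv_inj hφv hd2 hv hφ (hρ.tv_eq hφv hd2 h1)
    exact ⟨k, hk1⟩
  have hσσ : ∀ c, (σ * σ) c = c := fun c => (hσ _).trans (hσ _)
  obtain ⟨k, hk⟩ := scalar_of_all (cv (C * mapG σ (st C)) (σ * σ)) (cv_add _ _) (fun c u => by
    rw [cv_smul, hσσ]) hall
  -- so `C = k Cᵀ`
  have h2 : ∀ u : Fin 3 → F, C.1 *ᵥ (((C⁻¹ : GL (Fin 3) F).1)ᵀ *ᵥ u) = k • u := by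
    intro u
    rw [← hk u, ← cv_mapG, hcv]
    congr 1
    unfold cv
    change _ = ((C⁻¹ : GL (Fin 3) F).1)ᵀ *ᵥ _
    congr 1
    funext i
    exact (hσ _).symm
  have h3 : C.1 = k • C.1ᵀ := by
    apply mulVec_injective
    funext u
    have h4 := h2 (C.1ᵀ *ᵥ u)
    rw [mulVec_mulVec (M := ((C⁻¹ : GL (Fin 3) F).1)ᵀ), ← transpose_mul, ← Units.val_mul, mul_inv_cancel,
      Units.val_one, transpose_one, one_mulVec] at h4
    rw [h4, smul_mulVec]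
  have h4 : ∀ i j, C.1 i j = k * C.1 j i := by
    intro i j
    have := congrFun (congrFun h3 i) j
    rwa [Matrix.smul_apply, transpose_apply, smul_eq_mul] at this
  have h5 : k = 1 := by
    obtain ⟨i, j, hij⟩ : ∃ i j, C.1 i j ≠ 0 := by
      by_contra hcon
      push Not at hcon
      have h6 : C.1 = 0 := by ext i j; exact hcon i j
      have h7 : C.1 * (C⁻¹ : GL (Fin 3) F).1 = 1 := by rw [← Units.val_mul, mul_inv_cancel, Units.val_one]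
      rw [h6, zero_mul] at h7
      exact zero_ne_one h7
    have h6 := h4 i j
    rw [h4 j i, ← mul_assoc] at h6
    have h7 : k * k = 1 := by
      have h8 : (k * k) * C.1 i j = 1 * C.1 i j := by rw [one_mul]; exact h6.symm
      exact mul_right_cancel₀ hij h8
    have h8 : (k + 1) * (k + 1) = 0 := by
      have : (k + 1) * (k + 1) = k * k + 1 + (k + k) := by ring
      rw [this, h7, CharTwo.add_self_eq_zero, CharTwo.add_self_eq_zero, add_zero]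
    have h9 := mul_self_eq_zero.1 h8
    rw [← CharTwo.sub_eq_add, sub_eq_zero] at h9
    exact h9
  intro i j
  rw [h4 i j, h5, one_mul]

/-- the quadratic form of a polarity -/
theorem exists_lin [Finite F] [CharP F 2] {C : GL (Fin 3) F} (hC : ∀ i j, C.1 i j = C.1 j i) :
    ∃ s : Fin 3 → F, s ≠ 0 ∧ ∀ u : Fin 3 → F, u ⬝ᵥ (C.1 *ᵥ u) = (u ⬝ᵥ s) * (u ⬝ᵥ s) := by
  choose r hr using fun i : Fin 3 => StdRank2.OutField.exists_sqrt (C.1 i i)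
  refine ⟨r, ?_, ?_⟩
  · rintro rfl
    have h0 : ∀ i, C.1 i i = 0 := fun i => by rw [← hr i]; simp
    have hdet : C.1.det = 0 := by
      rw [det_fin_three, h0 0, h0 1, h0 2, hC 1 0, hC 2 0, hC 2 1]
      have : (0 : F) * 0 * 0 - 0 * C.1 1 2 * C.1 1 2 - C.1 0 1 * C.1 0 1 * 0 + C.1 0 1 * C.1 1 2 * C.1 0 2 +
          C.1 0 2 * C.1 0 1 * C.1 1 2 - C.1 0 2 * 0 * C.1 0 2 =
          C.1 0 1 * C.1 1 2 * C.1 0 2 + C.1 0 1 * C.1 1 2 * C.1 0 2 := by ring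
      rw [this, CharTwo.add_self_eq_zero]
    have h7 : C.1 * (C⁻¹ : GL (Fin 3) F).1 = 1 := by rw [← Units.val_mul, mul_inv_cancel, Units.val_one]
    have h8 := congrArg Matrix.det h7
    rw [det_mul, hdet, zero_mul, det_one] at h8
    exact zero_ne_one h8
  · intro u
    have h1 : u ⬝ᵥ (C.1 *ᵥ u) = C.1 0 0 * (u 0 * u 0) + C.1 1 1 * (u 1 * u 1) + C.1 2 2 * (u 2 * u 2) +
        (u 0 * u 1 * C.1 0 1 + u 0 * u 1 * C.1 1 0) + (u 0 * u 2 * C.1 0 2 + u 0 * u 2 * C.1 2 0) +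
        (u 1 * u 2 * C.1 1 2 + u 1 * u 2 * C.1 2 1) := by
      simp only [dotProduct, mulVec, Fin.sum_univ_three]
      ring
    rw [h1, hC 1 0, hC 2 0, hC 2 1, CharTwo.add_self_eq_zero, CharTwo.add_self_eq_zero, CharTwo.add_self_eq_zero,
      ← hr 0, ← hr 1, ← hr 2, dot_apply]
    have h2 : (u 0 * r 0 + u 1 * r 1 + u 2 * r 2) * (u 0 * r 0 + u 1 * r 1 + u 2 * r 2) =
        r 0 * r 0 * (u 0 * u 0) + r 1 * r 1 * (u 1 * u 1) + r 2 * r 2 * (u 2 * u 2) +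
        (u 0 * r 0 * (u 1 * r 1) + u 0 * r 0 * (u 1 * r 1)) + (u 0 * r 0 * (u 2 * r 2) + u 0 * r 0 * (u 2 * r 2)) +
        (u 1 * r 1 * (u 2 * r 2) + u 1 * r 1 * (u 2 * r 2)) := by ring
    rw [h2, CharTwo.add_self_eq_zero, CharTwo.add_self_eq_zero, CharTwo.add_self_eq_zero]

namespace Cfg

variable [Finite F] [CharP F 2] [Finite (S F)] [Finite G] [Finite Ω]

/-- `|Ω|` for type `Fl` -/
theorem card_eq_fl (c : Cfg ρ) (hP : TypeFl ρ) (a : Ω) : Nat.card Ω = 1 +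
    (Nat.card F ^ 2 + Nat.card F + 1) * ((Nat.card F + 1) * Nat.card {b : Ω // Fl (Xs (ρ a) b) e1 e3}) := by
  have h := card_Fall (ρ := ρ a) (Ω := Ω) (fun _ => True) (fun _ _ => Iff.rfl)
  simp only [true_and] at h
  rw [card_ne' a, ← h]
  congr 1
  apply Nat.card_congr
  refine Equiv.subtypeEquivRight fun b => ?_
  constructor
  · intro hb
    exact hP a b hb
  · rintro ⟨v, φ, hb⟩ rfl
    exact not_fl b (c.fix b) _ _ hb

theorem Af_eq (c : Cfg ρ) (hP : TypeFl ρ) (a b : Ω) :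
    Nat.card {d : Ω // Fl (Xs (ρ a) d) e1 e3} = Nat.card {d : Ω // Fl (Xs (ρ b) d) e1 e3} := by
  have h1 := c.card_eq_fl hP a
  have h2 := c.card_eq_fl hP b
  rw [h1] at h2
  have h3 := Nat.add_left_cancel h2
  have h4 := Nat.eq_of_mul_eq_mul_left (by positivity) h3
  exact Nat.eq_of_mul_eq_mul_left (by positivity) h4

theorem Af_pos (_ : Cfg ρ) (hP : TypeFl ρ) {a b : Ω} (hab : b ≠ a) : 0 < Nat.card {d : Ω // Fl (Xs (ρ a) d) e1 e3} := by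
  obtain ⟨v, φ, h⟩ := hP a b hab
  have h1 := fl_count (ρ := ρ a) (Ω := Ω) (fun _ => True) (fun _ _ => Iff.rfl) h.1 h.2.1 h.2.2.1
  simp only [true_and] at h1
  rw [← h1, Nat.card_pos_iff]
  exact ⟨⟨b, h⟩, inferInstance⟩

/-- a transvection of `N b` does not induce a linear polarity -/
theorem no_polarity (c : Cfg ρ) (hP : TypeFl ρ) {a b : Ω} (hab : b ≠ a) {x : G} (hx1 : x ≠ 1) (hxx : x * x = 1)
    (hxb : x ∈ N ρ b) {C : GL (Fin 3) F} {σ : F ≃+* F} (hT : Tr ((ρ a).comp dual) (ρ a) x C σ)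
    (hσ : ∀ c, σ c = c) (hxa : x • a = a) : False := by
  classical
  have hq := q_sub F
  have hcv : ∀ u : Fin 3 → F, cv C σ u = C.1 *ᵥ u := by
    intro u
    unfold cv
    congr 1
    funext i
    exact hσ _
  obtain ⟨s, hs, hs'⟩ := exists_lin (symm_of_graph (c.rep a) hxx hT hσ)
  obtain ⟨g, rfl⟩ := hxb
  obtain ⟨w, χ, hd, hg⟩ := (c.rep b).exists_tv hxx
  rw [hg] at hx1 hT hxa hxx
  have hw : w ≠ 0 := by rintro rfl; exact hx1 (by rw [tv_zero_left, map_one])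
  have hχ : χ ≠ 0 := by rintro rfl; exact hx1 (by rw [tv_zero_right, map_one])
  have h1 := ncard_fix (ρ := ρ b) b (c.fix b) (hP b) hw hχ hd
  -- fixed points seen from `a`
  have hquad : ∀ φ : Fin 3 → F, φ ⬝ᵥ s = 0 → φ ⬝ᵥ cv C σ φ = 0 := by
    intro φ hφ
    rw [hcv, hs', hφ, mul_zero]
  have hc := dcount (fun (φ : Fin 3 → F) (d : Ω) => Fl (Xs (ρ a) d) (cv C σ φ) φ) (fun φ => φ ≠ 0 ∧ φ ⬝ᵥ s = 0)
    (c := Nat.card {d : Ω // Fl (Xs (ρ a) d) e1 e3}) (m := Nat.card F - 1) (by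
      rintro φ ⟨hφ, hφs⟩
      have h2 := fl_count (ρ := ρ a) (Ω := Ω) (fun _ => True) (fun _ _ => Iff.rfl) (cv_ne C σ hφ) hφ (hquad φ hφs)
      simpa only [true_and] using h2) (by
      rintro d ⟨φ, ⟨hφ, hφs⟩, hd'⟩
      have h2 := fl_fiber (Xs (ρ a) d) hd' (fun ψ => ψ ≠ 0 ∧ ψ ⬝ᵥ s = 0) (by
        intro ψ hψ
        refine ⟨hψ.2.1, ?_⟩
        obtain ⟨-, k, hk, rfl⟩ := hd'.par hψ
        rw [smul_dotProduct, hφs, smul_zero])
      rw [← h2]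
      apply Nat.card_congr
      refine Equiv.subtypeEquivRight fun ψ => ?_
      constructor
      · rintro ⟨h3, h4⟩
        exact ⟨h3, hd'.of_par h4⟩
      · rintro ⟨h3, h4⟩
        refine ⟨h3, ?_⟩
        obtain ⟨-, k, hk, rfl⟩ := hd'.par h4
        rw [cv_smul]
        exact h4.smul_left (by rwa [ne_eq, map_eq_zero]))
  rw [card_ker' hs, sq_sub_one, mul_assoc, mul_comm (Nat.card {d : Ω // ∃ x, _})] at hc
  have hc' := Nat.eq_of_mul_eq_mul_left hq hc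
  have h3 : {d : Ω | ρ b (tv w χ) • d = d} ⊆
      insert a {d : Ω | ∃ φ : Fin 3 → F, (φ ≠ 0 ∧ φ ⬝ᵥ s = 0) ∧ Fl (Xs (ρ a) d) (cv C σ φ) φ} := by
    intro d hd'
    simp only [Set.mem_ofPred_eq] at hd'
    rw [Set.mem_insert_iff]
    by_cases hda : d = a
    · exact Or.inl hda
    right
    obtain ⟨v, φ, hfl⟩ := hP a d hda
    have h4 := hT.fl (fl_dual_iff.2 hfl)
    rw [hd'] at h4
    obtain ⟨⟨k, hk, h5⟩, -⟩ := hfl.par h4
    have h6 : Fl (Xs (ρ a) d) (cv C σ φ) φ := by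
      rw [h5]; exact hfl.smul_left hk
    refine ⟨φ, ⟨hfl.2.1, ?_⟩, h6⟩
    have h7 : φ ⬝ᵥ cv C σ φ = 0 := h6.2.2.1
    rw [hcv, hs'] at h7
    exact mul_self_eq_zero.1 h7
  have h4 := Set.ncard_le_ncard h3 (Set.toFinite _)
  have h5 := Set.ncard_insert_le a {d : Ω | ∃ φ : Fin 3 → F, (φ ≠ 0 ∧ φ ⬝ᵥ s = 0) ∧ Fl (Xs (ρ a) d) (cv C σ φ) φ}
  have h6 : {d : Ω | ∃ φ : Fin 3 → F, (φ ≠ 0 ∧ φ ⬝ᵥ s = 0) ∧ Fl (Xs (ρ a) d) (cv C σ φ) φ}.ncard =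
      (Nat.card F + 1) * Nat.card {d : Ω // Fl (Xs (ρ a) d) e1 e3} := hc'.symm
  rw [h6] at h5
  rw [h1, c.Af_eq hP b a] at h4
  have h7 := c.Af_pos hP hab
  have h8 : (Nat.card F + 1) * Nat.card {d : Ω // Fl (Xs (ρ a) d) e1 e3} <
      (2 * Nat.card F + 1) * Nat.card {d : Ω // Fl (Xs (ρ a) d) e1 e3} :=
    Nat.mul_lt_mul_of_pos_right (by omega) h7
  omega

end Cfg

end Cfsg.Agent.H438.SLThree
end

-- part: H438/SLThreeY
section
/-!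
# Type `Fl`, IV: transvections of `N b` fixing `a` are in `N a` (helper438, S3727)
-/

set_option autoImplicit false
set_option linter.unusedSectionVars false
set_option linter.unusedSimpArgs false

namespace Cfsg.Agent.H438.SLThree

open Matrix MulAction

variable {F : Type*} [Field F] {G Ω : Type*} [Group G] [MulAction G Ω]

theorem card_perp [Finite F] {v : Fin 3 → F} (hv : v ≠ 0) :
    Nat.card {ψ : Fin 3 → F // ψ ⬝ᵥ v = 0} = Nat.card F ^ 2 := by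
  have h1 := card_or (Ω := Fin 3 → F) 0 (fun ψ => ψ ≠ 0 ∧ ψ ⬝ᵥ v = 0) (fun h => h.1 rfl)
  rw [card_ker' hv] at h1
  have h2 : 1 ≤ Nat.card F ^ 2 := Nat.one_le_pow _ _ (by have := q_sub F; omega)
  rw [show 1 + (Nat.card F ^ 2 - 1) = Nat.card F ^ 2 by omega] at h1
  rw [← h1]
  apply Nat.card_congr
  refine Equiv.subtypeEquivRight fun ψ => ?_
  constructor
  · intro h
    by_cases h0 : ψ = 0
    · exact Or.inl h0
    · exact Or.inr ⟨h0, h⟩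
  · rintro (rfl | h)
    · exact zero_dotProduct _
    · exact h.2

theorem Qs_inj {ρ : S F →* G} (hρ : IsRep ρ) {v : Fin 3 → F} (hv : v ≠ 0) {ψ ψ' : Fin 3 → F} (h : ψ ⬝ᵥ v = 0)
    (h' : ψ' ⬝ᵥ v = 0) (he : ρ (tv v ψ) = ρ (tv v ψ')) : ψ = ψ' := by
  by_contra hne
  have h1 : (ψ - ψ') ⬝ᵥ v = 0 := by rw [sub_dotProduct, h, h', sub_zero]
  apply hρ.tv_ne h1 hv (sub_ne_zero.2 hne)
  have h2 : (-ψ') ⬝ᵥ v = 0 := by rw [neg_dotProduct, h', neg_zero]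
  rw [sub_eq_add_neg, ← tv_mul h h2, ← tv_inv h', map_mul, map_inv, he, mul_inv_cancel]

theorem card_Qs [Finite F] {ρ : S F →* G} (hρ : IsRep ρ) {v : Fin 3 → F} (hv : v ≠ 0) :
    Nat.card (Qs ρ v) = Nat.card F ^ 2 := by
  rw [← card_perp hv]
  symm
  refine Nat.card_congr (Equiv.ofBijective (fun ψ => ⟨ρ (tv v ψ.1), ψ.1, ψ.2, rfl⟩) ⟨?_, ?_⟩)
  · rintro ⟨ψ, hψ⟩ ⟨ψ', hψ'⟩ h
    exact Subtype.ext (Qs_inj hρ hv hψ hψ' (congrArg Subtype.val h))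
  · rintro ⟨_, ψ, hψ, rfl⟩
    exact ⟨⟨ψ, hψ⟩, rfl⟩

theorem Qs_comm {ρ : S F →* G} {v : Fin 3 → F} {x y : G} (hx : x ∈ Qs ρ v) (hy : y ∈ Qs ρ v) : x * y = y * x := by
  obtain ⟨ψ, hψ, rfl⟩ := hx
  obtain ⟨ψ', hψ', rfl⟩ := hy
  rw [← map_mul, ← map_mul, tv_mul hψ hψ', tv_mul hψ' hψ, add_comm]

theorem plane_basis {v w φ u : Fin 3 → F} (hv : v ≠ 0) (hφ : φ ≠ 0) (hnp : ¬ ∃ k : F, w = k • v)
    (h1 : φ ⬝ᵥ v = 0) (h2 : φ ⬝ᵥ w = 0) (h3 : φ ⬝ᵥ u = 0) : ∃ α β : F, u = α • v + β • w := by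
  obtain ⟨k, β, hβ, hk, hkφ, hkw⟩ := exists_adapted hv hφ h1 h2 hnp
  have e0 : (k⁻¹ • u) 2 = 0 := by
    rw [← e3_dot (k⁻¹ • u), ← row_dot, hkφ, h3]
  have h4 : k⁻¹ • u = ((k⁻¹ • u) 0) • e1 + ((k⁻¹ • u) 1) • ![0, 1, 0] := by
    apply ext3
    · simp
    · simp
    · rw [e0]; simp
  refine ⟨(k⁻¹ • u) 0, (k⁻¹ • u) 1 * β, ?_⟩
  have h5 := congrArg (fun z => k • z) h4
  simp only [smul_inv_smul] at h5
  rw [smul_add, smul_smul_comm', smul_smul_comm', hk, hkw, smul_smul _ β] at h5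
  exact h5

theorem cv_one (u : Fin 3 → F) : cv (1 : GL (Fin 3) F) (1 : F ≃+* F) u = u := by
  unfold cv
  rw [Units.val_one, one_mulVec]
  rfl

theorem tr_one (ρ : S F →* G) : Tr ρ ρ 1 1 1 := by
  intro g
  have : th (1 : GL (Fin 3) F) 1 g = g := by
    apply ext_smul
    intro u
    have := th_smul (1 : GL (Fin 3) F) (1 : F ≃+* F) g u
    rwa [cv_one, cv_one] at this
  rw [this]; group

theorem Tr.sq {ρ : S F →* G} (hρ : IsRep ρ) {x : G} (hxx : x * x = 1) {C : GL (Fin 3) F} {σ : F ≃+* F}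
    (hT : Tr ρ ρ x C σ) : σ * σ = 1 :=
  ((hT.comp hT).of_eq hxx).unique hρ (tr_one ρ)

theorem Tr.sq' {ρ : S F →* G} (hρ : IsRep ρ) {x : G} (hxx : x * x = 1) {C : GL (Fin 3) F} {σ : F ≃+* F}
    (hT : Tr (ρ.comp dual) ρ x C σ) : σ * σ = 1 :=
  ((hT.flip.comp hT).of_eq hxx).unique hρ (tr_one ρ)

/-- few elements of `Qs` commute with a field automorphism -/
theorem fix_bound [Finite F] [CharP F 2] {ρ : S F →* G} (hρ : IsRep ρ) {x : G} {C : GL (Fin 3) F} {σ : F ≃+* F}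
    (hσσ : σ * σ = 1) (hσ1 : σ ≠ 1) {u : Fin 3 → F} (hu : u ≠ 0) (hT : Tr ρ ρ x C σ ∨ Tr (ρ.comp dual) ρ x C σ)
    {H : Subgroup G} (hH : H ≤ Qs ρ u) (hcomm : ∀ h ∈ H, x * h * x⁻¹ = h) : Nat.card H ≤ Nat.card F := by
  classical
  have hle : Nat.card H ≤ Nat.card {ψ : Fin 3 → F // ψ ⬝ᵥ u = 0 ∧ ρ (tv u ψ) ∈ H} := by
    have hs : Function.Surjective (fun ψ : {ψ : Fin 3 → F // ψ ⬝ᵥ u = 0 ∧ ρ (tv u ψ) ∈ H} =>
        (⟨ρ (tv u ψ.1), ψ.2.2⟩ : H)) := by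
      rintro ⟨y, hy⟩
      obtain ⟨ψ, hψ, rfl⟩ := hH hy
      exact ⟨⟨ψ, hψ, hy⟩, rfl⟩
    exact Nat.card_le_card_of_surjective _ hs
  refine hle.trans ?_
  rcases hT with hT | hT
  · have key : ∀ ψ : Fin 3 → F, ψ ⬝ᵥ u = 0 → ψ ≠ 0 → ρ (tv u ψ) ∈ H →
        ∃ k : F, k ≠ 0 ∧ cv C σ u = k • u ∧ cr C σ ψ = k⁻¹ • ψ := by
      intro ψ hψ hψ0 hψH
      have h1 := hcomm _ hψH
      rw [hT, th_tv _ _ hψ] at h1
      have hd2 : cr C σ ψ ⬝ᵥ cv C σ u = 0 := by rw [cr_dot_cv, hψ, map_zero]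
      exact tv_inj hψ hd2 hu hψ0 (hρ.tv_eq hψ hd2 h1.symm)
    by_cases h0 : ∀ ψ : Fin 3 → F, ψ ⬝ᵥ u = 0 ∧ ρ (tv u ψ) ∈ H → ψ = 0
    · have hsub : Subsingleton {ψ : Fin 3 → F // ψ ⬝ᵥ u = 0 ∧ ρ (tv u ψ) ∈ H} :=
        ⟨fun x y => Subtype.ext ((h0 _ x.2).trans (h0 _ y.2).symm)⟩
      have := Finite.card_le_one_iff_subsingleton.2 hsub
      have := q_sub F
      omega
    · push Not at h0
      obtain ⟨ψ1, ⟨h1, h1'⟩, h10⟩ := h0
      obtain ⟨k, hk, hk1, hk2⟩ := key ψ1 h1 h10 h1'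
      have key2 : ∀ ψ : Fin 3 → F, ψ ⬝ᵥ u = 0 → ρ (tv u ψ) ∈ H → cr C σ ψ = k⁻¹ • ψ := by
        intro ψ hψ hψH
        by_cases hψ0 : ψ = 0
        · rw [hψ0, cr_zero, smul_zero]
        obtain ⟨k', hk', hk1', hk2'⟩ := key ψ hψ hψ0 hψH
        have : k' = k := smul_left_injective F hu (show k' • u = k • u by rw [← hk1', hk1])
        rw [hk2', this]
      by_cases h2 : ∀ ψ : Fin 3 → F, ψ ⬝ᵥ u = 0 ∧ ρ (tv u ψ) ∈ H → ∃ α : F, ψ = α • ψ1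
      · choose f hf using h2
        apply Nat.card_le_card_of_injective (fun ψ : {ψ : Fin 3 → F // ψ ⬝ᵥ u = 0 ∧ ρ (tv u ψ) ∈ H} => f ψ.1 ψ.2)
        rintro ⟨ψ, h⟩ ⟨ψ', h'⟩ he
        apply Subtype.ext
        change f ψ h = f ψ' h' at he
        change ψ = ψ'
        rw [hf ψ h, hf ψ' h', he]
      · push Not at h2
        obtain ⟨ψ2, ⟨h2, h2'⟩, h20⟩ := h2
        have hnp : ¬ ∃ α : F, ψ2 = α • ψ1 := by
          rintro ⟨α, hα⟩
          exact h20 α hα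
        have h3 : ∀ ψ : {ψ : Fin 3 → F // ψ ⬝ᵥ u = 0 ∧ ρ (tv u ψ) ∈ H},
            ∃ p : {x : F // σ x = x} × {x : F // σ x = x}, ψ.1 = p.1.1 • ψ1 + p.2.1 • ψ2 := by
          rintro ⟨ψ, hψ, hψH⟩
          obtain ⟨α, β, hαβ⟩ := plane_basis h10 hu hnp (by rw [dotProduct_comm, h1]) (by rw [dotProduct_comm, h2])
            (by rw [dotProduct_comm, hψ])
          have h4 := key2 ψ hψ hψH
          rw [hαβ, cr_add, cr_smul, cr_smul, key2 ψ1 h1 h1', key2 ψ2 h2 h2', smul_add, smul_smul, smul_smul,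
            smul_smul, smul_smul] at h4
          have h5 : (σ β * k⁻¹ - k⁻¹ * β) • ψ2 = (k⁻¹ * α - σ α * k⁻¹) • ψ1 := by
            rw [sub_smul, sub_smul, sub_eq_sub_iff_add_eq_add, add_comm, h4, add_comm]
          have h6 : σ β * k⁻¹ - k⁻¹ * β = 0 := by
            by_contra h6
            apply hnp
            refine ⟨(σ β * k⁻¹ - k⁻¹ * β)⁻¹ * (k⁻¹ * α - σ α * k⁻¹), ?_⟩
            rw [mul_smul, ← h5, smul_smul, inv_mul_cancel₀ h6, one_smul]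
          rw [h6, zero_smul] at h5
          have h7 := (smul_eq_zero.1 h5.symm).resolve_right h10
          have h8 : σ α = α := by
            rw [mul_comm, ← sub_mul] at h7
            exact (sub_eq_zero.1 ((mul_eq_zero.1 h7).resolve_right (inv_ne_zero hk))).symm
          have h9 : σ β = β := by
            rw [mul_comm k⁻¹, ← sub_mul] at h6
            exact (sub_eq_zero.1 ((mul_eq_zero.1 h6).resolve_right (inv_ne_zero hk)))
          exact ⟨⟨⟨α, h8⟩, ⟨β, h9⟩⟩, hαβ⟩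
        choose f hf using h3
        have hinj : Function.Injective f := by
          intro ψ ψ' he
          apply Subtype.ext
          rw [hf ψ, hf ψ', he]
        have h4 := Nat.card_le_card_of_injective f hinj
        rwa [Nat.card_prod, StdRank2.OutField.card_fix hσσ hσ1] at h4
  · have h3 : ∀ ψ : {ψ : Fin 3 → F // ψ ⬝ᵥ u = 0 ∧ ρ (tv u ψ) ∈ H}, ∃ k : F, cv C σ ψ.1 = k • u := by
      rintro ⟨ψ, hψ, hψH⟩
      by_cases hψ0 : ψ = 0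
      · exact ⟨0, by change cv C σ ψ = _; rw [hψ0, cv_zero, zero_smul]⟩
      have h1 := hT (dual (tv u ψ))
      rw [MonoidHom.comp_apply, dual_dual, hcomm _ hψH, dual_tv hψ] at h1
      have hd1 : (-u) ⬝ᵥ ψ = 0 := by rw [neg_dotProduct, dotProduct_comm, hψ, neg_zero]
      rw [th_tv _ _ hd1] at h1
      have hd2 : cr C σ (-u) ⬝ᵥ cv C σ ψ = 0 := by rw [cr_dot_cv, hd1, map_zero]
      obtain ⟨k, hk, hk1, -⟩ := tv_inj hψ hd2 hu hψ0 (hρ.tv_eq hψ hd2 h1)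
      exact ⟨k, hk1⟩
    choose f hf using h3
    apply Nat.card_le_card_of_injective f
    intro ψ ψ' he
    apply Subtype.ext
    apply cv_inj C σ
    rw [hf ψ, hf ψ', he]

variable {ρ : Ω → (S F →* G)}

/-- the dual configuration -/
theorem Cfg.dualize (c : Cfg ρ) : Cfg (fun a => (ρ a).comp dual) := by
  have hN : ∀ a, N (fun a => (ρ a).comp (dual (F := F))) a = N ρ a := fun a => range_comp_dual _
  refine ⟨c.two, c.faith, c.even, fun a => (c.rep a).toDual, fun a g => c.fix a _, ?_⟩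
  intro y a g
  have h1 : (ρ a).comp dual g ∈ N (fun a => (ρ a).comp (dual (F := F))) a := rho_mem (ρ := fun a => (ρ a).comp dual) a g
  rw [hN] at h1
  have h2 := c.N_conj (y := y) h1
  rw [← hN] at h2
  obtain ⟨g', hg'⟩ := h2
  exact ⟨g', hg'.symm⟩

theorem TypeFl.dualize (hP : TypeFl ρ) : TypeFl (fun a => (ρ a).comp (dual (F := F))) := by
  intro a b hab
  obtain ⟨v, φ, h⟩ := hP a b hab
  exact ⟨φ, v, fl_dual_iff.2 h⟩

namespace Cfg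

variable [Finite F] [CharP F 2] [Finite (S F)] [Finite G] [Finite Ω]

theorem exists_type (c : Cfg ρ) {a : Ω} {x : G} (hx : x • a = a) :
    (∃ C σ, Tr (ρ a) (ρ a) x C σ) ∨ ∃ C σ, Tr ((ρ a).comp dual) (ρ a) x C σ := by
  have : Fact (Nat.Prime 2) := ⟨Nat.prime_two⟩
  have h := c.tr 2 x a
  rwa [hx] at h

/-- type of an involution of `N b` outside `N a` -/
theorem field_ne (c : Cfg ρ) (hP : TypeFl ρ) {a b : Ω} (hab : b ≠ a) {x : G} (hxx : x * x = 1) (hxb : x ∈ N ρ b)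
    (hxa : x • a = a) (hxN : x ∉ N ρ a) {C : GL (Fin 3) F} {σ : F ≃+* F}
    (hT : Tr (ρ a) (ρ a) x C σ ∨ Tr ((ρ a).comp dual) (ρ a) x C σ) : σ ≠ 1 := by
  rintro rfl
  rcases hT with hT | hT
  · exact hxN (c.mem_N_of_linear (fun a b hab x hx hxb => c.KG_one_fl hP hab hx hxb) hxx hT (fun _ => rfl))
  · have hx1 : x ≠ 1 := by
      rintro rfl
      exact hxN (N ρ a).one_mem
    exact c.no_polarity hP hab hx1 hxx hxb hT (fun _ => rfl) hxa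

theorem index_two (c : Cfg ρ) (hP : TypeFl ρ) {a b : Ω} (hab : b ≠ a) {x y : G} (hxx : x * x = 1) (hyy : y * y = 1)
    (hxy : x * y = y * x) (hxb : x ∈ N ρ b) (hyb : y ∈ N ρ b) (hxa : x • a = a) (hya : y • a = a)
    (hxN : x ∉ N ρ a) (hyN : y ∉ N ρ a) : x * y ∈ N ρ a := by
  have hs : (x * y) * (x * y) = 1 := by
    calc (x * y) * (x * y) = x * (y * x) * y := by group
      _ = (x * x) * (y * y) := by rw [← hxy]; group
      _ = 1 := by rw [hxx, hyy, one_mul]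
  have hxya : (x * y) • a = a := by rw [mul_smul, hya, hxa]
  have hxyb : x * y ∈ N ρ b := (N ρ b).mul_mem hxb hyb
  by_contra hcon
  have hf := fun {C : GL (Fin 3) F} {σ : F ≃+* F} => c.field_ne hP hab (C := C) (σ := σ) hs hxyb hxya hcon
  rcases c.exists_type hxa with ⟨C, σ, hx⟩ | ⟨C, σ, hx⟩ <;> rcases c.exists_type hya with ⟨D, τ, hy⟩ | ⟨D, τ, hy⟩
  · have h1 := StdRank2.OutField.unique_invol (hx.sq (c.rep a) hxx) (hy.sq (c.rep a) hyy)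
      (c.field_ne hP hab hxx hxb hxa hxN (Or.inl hx)) (c.field_ne hP hab hyy hyb hya hyN (Or.inl hy))
    apply hf (Or.inl (hy.comp hx))
    rw [← h1, hx.sq (c.rep a) hxx]
  · have h1 := StdRank2.OutField.unique_invol (hx.sq (c.rep a) hxx) (hy.sq' (c.rep a) hyy)
      (c.field_ne hP hab hxx hxb hxa hxN (Or.inl hx)) (c.field_ne hP hab hyy hyb hya hyN (Or.inr hy))
    apply hf (Or.inr (hy.comp hx))
    rw [← h1, hx.sq (c.rep a) hxx]
  · have h1 := StdRank2.OutField.unique_invol (hx.sq' (c.rep a) hxx) (hy.sq (c.rep a) hyy)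
      (c.field_ne hP hab hxx hxb hxa hxN (Or.inr hx)) (c.field_ne hP hab hyy hyb hya hyN (Or.inl hy))
    apply hf (Or.inr (hy.flip'.comp hx))
    rw [← h1, hx.sq' (c.rep a) hxx]
  · have h1 := StdRank2.OutField.unique_invol (hx.sq' (c.rep a) hxx) (hy.sq' (c.rep a) hyy)
      (c.field_ne hP hab hxx hxb hxa hxN (Or.inr hx)) (c.field_ne hP hab hyy hyb hya hyN (Or.inr hy))
    apply hf (Or.inl (hy.flip.comp hx))
    rw [← h1, hx.sq' (c.rep a) hxx]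

theorem tv_mem_dual {ρ : S F →* G} {w φ : Fin 3 → F} (hd : φ ⬝ᵥ w = 0) : ρ (tv w φ) ∈ Qs (ρ.comp dual) φ := by
  refine ⟨-w, by rw [neg_dotProduct, dotProduct_comm, hd, neg_zero], ?_⟩
  rw [MonoidHom.comp_apply, dual_tv (by rw [neg_dotProduct, dotProduct_comm, hd, neg_zero]), tv_neg_neg hd]

/-- involutions of `N a` fixing `b` -/
theorem mem_union (c : Cfg ρ) {a b : Ω} {v φ : Fin 3 → F} (hfl : Fl (Xs (ρ a) b) v φ) {y : G} (hy : y ∈ N ρ a)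
    (hyy : y * y = 1) (hyb : y • b = b) : y ∈ Qs (ρ a) v ∨ y ∈ Qs ((ρ a).comp dual) φ := by
  by_cases hy1 : y = 1
  · rw [hy1]; exact Or.inl (Qs (ρ a) v).one_mem
  obtain ⟨g, rfl⟩ := hy
  obtain ⟨w, χ, hd, hg⟩ := (c.rep a).exists_tv hyy
  rw [hg] at hy1 hyb ⊢
  have hw : w ≠ 0 := by rintro rfl; exact hy1 (by rw [tv_zero_left, map_one])
  have hχ : χ ≠ 0 := by rintro rfl; exact hy1 (by rw [tv_zero_right, map_one])
  rcases (hfl.tv_mem hw hχ hd).1 hyb with ⟨k, hk, rfl⟩ | ⟨k, hk, rfl⟩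
  · left
    rw [← Qs_smul _ _ hk]
    exact ⟨χ, hd, rfl⟩
  · right
    rw [← Qs_smul _ _ hk]
    exact tv_mem_dual hd

/-- **the transvections of `N b` fixing `a` lie in `N a`** -/
theorem unip_mem (c : Cfg ρ) (hP : TypeFl ρ) {a b : Ω} (hab : b ≠ a) {v φ : Fin 3 → F} (hfl : Fl (Xs (ρ b) a) v φ)
    {ψ : Fin 3 → F} (hψ : ψ ⬝ᵥ v = 0) : ρ b (tv v ψ) ∈ N ρ a := by
  classical
  by_contra hxN
  have hQ : ∀ y ∈ Qs (ρ b) v, y * y = 1 ∧ y ∈ N ρ b ∧ y • a = a := by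
    rintro _ ⟨ψ', hψ', rfl⟩
    exact ⟨by rw [← map_mul, tv_sq hψ', map_one], rho_mem _ _, hfl.2.2.2.2.2.1 ψ' hψ'⟩
  have hx : ρ b (tv v ψ) ∈ Qs (ρ b) v := ⟨ψ, hψ, rfl⟩
  obtain ⟨hxx, hxb, hxa⟩ := hQ _ hx
  have hxi : (ρ b (tv v ψ))⁻¹ = ρ b (tv v ψ) := inv_eq_of_mul_eq_one_left hxx
  have h1 := StdRank2.OutField.ncard_le_two (S := (Qs (ρ b) v : Set G)) (H := (Qs (ρ b) v ⊓ N ρ a : Subgroup G))
    (ρ b (tv v ψ)) (by
      intro y hy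
      by_cases hyN : y ∈ N ρ a
      · exact Or.inl ⟨hy, hyN⟩
      · right
        obtain ⟨hyy, hyb, hya⟩ := hQ _ hy
        rw [hxi]
        exact ⟨(Qs (ρ b) v).mul_mem hx hy,
          c.index_two hP hab hxx hyy (Qs_comm hx hy) hxb hyb hxa hya hxN hyN⟩)
  have h2 : (Qs (ρ b) v : Set G).ncard = Nat.card F ^ 2 := by
    rw [← card_Qs (c.rep b) hfl.1]; rfl
  have h3 : ((Qs (ρ b) v ⊓ N ρ a : Subgroup G) : Set G).ncard = Nat.card ↥(Qs (ρ b) v ⊓ N ρ a) := rfl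
  rw [h2, h3] at h1
  have hcomm : ∀ h ∈ Qs (ρ b) v ⊓ N ρ a, ρ b (tv v ψ) * h * (ρ b (tv v ψ))⁻¹ = h := by
    intro h hh
    rw [Qs_comm hx hh.1, mul_inv_cancel_right]
  obtain ⟨v1, φ1, hfl1⟩ := hP a b hab
  have h4 : ((Qs (ρ b) v ⊓ N ρ a : Subgroup G) : Set G) ⊆ (Qs (ρ a) v1 : Set G) ∪ (Qs ((ρ a).comp dual) φ1 : Set G) := by
    intro y hy
    obtain ⟨hyy, hyb, hya⟩ := hQ _ hy.1
    exact c.mem_union hfl1 hy.2 hyy (c.N_fix hyb)
  have key : ∃ C : GL (Fin 3) F, ∃ σ : F ≃+* F, σ * σ = 1 ∧ σ ≠ 1 ∧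
      (Tr (ρ a) (ρ a) (ρ b (tv v ψ)) C σ ∨ Tr ((ρ a).comp dual) (ρ a) (ρ b (tv v ψ)) C σ) := by
    rcases c.exists_type hxa with ⟨C, σ, hT⟩ | ⟨C, σ, hT⟩
    · exact ⟨C, σ, hT.sq (c.rep a) hxx, c.field_ne hP hab hxx hxb hxa hxN (Or.inl hT), Or.inl hT⟩
    · exact ⟨C, σ, hT.sq' (c.rep a) hxx, c.field_ne hP hab hxx hxb hxa hxN (Or.inr hT), Or.inr hT⟩
  obtain ⟨C, σ, hσσ, hσ1, hT⟩ := key
  have h5 : Nat.card ↥(Qs (ρ b) v ⊓ N ρ a) ≤ Nat.card F := by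
    rcases (SubgroupClass.subset_union (H := Qs (ρ b) v ⊓ N ρ a)).1 h4 with h5 | h5
    · exact fix_bound (c.rep a) hσσ hσ1 hfl1.1 hT h5 hcomm
    · refine fix_bound (ρ := (ρ a).comp dual) (c.rep a).toDual hσσ hσ1 hfl1.2.1 (C := st C) ?_ h5 hcomm
      rcases hT with hT | hT
      · exact Or.inl hT.flip'
      · right
        rw [comp_dual_dual]
        exact hT.flip
  have h6 := StdRank2.OutField.card_fix hσσ hσ1
  have h7 : 2 ≤ Nat.card {x : F // σ x = x} := by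
    have : Nontrivial {x : F // σ x = x} := ⟨⟨⟨0, map_zero σ⟩, ⟨1, map_one σ⟩, fun h => zero_ne_one (congrArg Subtype.val h)⟩⟩
    exact Finite.one_lt_card
  have h8 : 4 ≤ Nat.card F := by rw [← h6]; nlinarith
  nlinarith

/-- the dual statement -/
theorem unip_mem' (c : Cfg ρ) (hP : TypeFl ρ) {a b : Ω} (hab : b ≠ a) {v φ : Fin 3 → F} (hfl : Fl (Xs (ρ b) a) v φ)
    {w : Fin 3 → F} (hw : φ ⬝ᵥ w = 0) : ρ b (tv w φ) ∈ N ρ a := by
  have hN : N (fun a => (ρ a).comp (dual (F := F))) a = N ρ a := range_comp_dual _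
  obtain ⟨ψ, hψ, he⟩ := tv_mem_dual (ρ := ρ b) hw
  rw [← hN, ← he]
  exact c.dualize.unip_mem hP.dualize hab (fl_dual_iff.2 hfl) hψ

end Cfg

end Cfsg.Agent.H438.SLThree
end

-- part: H438/SLThreeZ
section
/-!
# Type `Fl`, V: type `Fl` does not occur (helper438, S3727)
-/

set_option autoImplicit false
set_option linter.unusedSectionVars false
set_option linter.unusedSimpArgs false

namespace Cfsg.Agent.H438.SLThree

open Matrix MulAction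

variable {F : Type*} [Field F] {G Ω : Type*} [Group G] [MulAction G Ω]

theorem exists_perp_ne [Finite F] {v φ : Fin 3 → F} (hv : v ≠ 0) :
    ∃ ψ : Fin 3 → F, ψ ⬝ᵥ v = 0 ∧ ¬ ∃ α : F, ψ = α • φ := by
  by_contra hcon
  push Not at hcon
  have h1 := card_perp (F := F) hv
  have h2 : Nat.card {ψ : Fin 3 → F // ψ ⬝ᵥ v = 0} ≤ Nat.card F := by
    choose f hf using hcon
    apply Nat.card_le_card_of_injective (fun ψ : {ψ : Fin 3 → F // ψ ⬝ᵥ v = 0} => f ψ.1 ψ.2)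
    rintro ⟨ψ, h⟩ ⟨ψ', h'⟩ he
    apply Subtype.ext
    change f ψ h = f ψ' h' at he
    change ψ = ψ'
    rw [hf ψ h, hf ψ' h', he]
  have h3 := q_sub F
  have h4 : 2 ≤ Nat.card F := by omega
  rw [h1] at h2
  nlinarith

/-- `t` belongs to only one group `Qs ρ v` -/
theorem Qs_unique {ρ : S F →* G} (hρ : IsRep ρ) {v w χ : Fin 3 → F} (hw : w ≠ 0) (hχ : χ ≠ 0)
    (hd : χ ⬝ᵥ w = 0) (h : ρ (tv w χ) ∈ Qs ρ v) : Qs ρ v = Qs ρ w := by
  obtain ⟨ψ, hψ, he⟩ := h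
  obtain ⟨k, hk, rfl, -⟩ := tv_inj hd hψ hw hχ (hρ.tv_eq hd hψ he.symm)
  exact Qs_smul ρ w hk

theorem dual_tv' {w χ : Fin 3 → F} (hd : χ ⬝ᵥ w = 0) : dual (tv χ (-w)) = tv w χ := by
  rw [dual_tv (by rw [neg_dotProduct, dotProduct_comm, hd, neg_zero]), tv_neg_neg hd]

theorem tv_dual_eq {ρ : S F →* G} {w χ : Fin 3 → F} (hd : χ ⬝ᵥ w = 0) : ρ (tv w χ) = (ρ.comp dual) (tv χ (-w)) := by
  rw [MonoidHom.comp_apply, dual_tv' hd]

theorem Qs_unique' {ρ : S F →* G} (hρ : IsRep ρ) {φ w χ : Fin 3 → F} (hw : w ≠ 0) (hχ : χ ≠ 0)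
    (hd : χ ⬝ᵥ w = 0) (h : ρ (tv w χ) ∈ Qs (ρ.comp dual) φ) : Qs (ρ.comp dual) φ = Qs (ρ.comp dual) χ := by
  rw [tv_dual_eq hd] at h
  exact Qs_unique hρ.toDual hχ (neg_ne_zero.2 hw) (by rw [neg_dotProduct, dotProduct_comm, hd, neg_zero]) h

theorem Qs_ne [Finite F] {ρ : S F →* G} (hρ : IsRep ρ) {v φ : Fin 3 → F} (hv : v ≠ 0) :
    Qs ρ v ≠ Qs (ρ.comp dual) φ := by
  intro he
  obtain ⟨ψ, hψ, hne⟩ := exists_perp_ne (F := F) (φ := φ) hv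
  have hψ0 : ψ ≠ 0 := by
    rintro rfl
    exact hne ⟨0, by rw [zero_smul]⟩
  have h1 : ρ (tv v ψ) ∈ Qs ρ v := ⟨ψ, hψ, rfl⟩
  rw [he] at h1
  obtain ⟨w, hw, h2⟩ := h1
  have hw' : φ ⬝ᵥ w = 0 := by rw [dotProduct_comm, hw]
  have h3 : ρ (tv v ψ) = ρ (tv w (-φ)) := by
    rw [← h2, MonoidHom.comp_apply, dual_tv hw]
  have hd2 : (-φ) ⬝ᵥ w = 0 := by rw [neg_dotProduct, hw', neg_zero]
  obtain ⟨k, hk, -, h4⟩ := tv_inj hψ hd2 hv hψ0 (hρ.tv_eq hψ hd2 h3)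
  apply hne
  refine ⟨-k, ?_⟩
  have h5 : ψ = k • (-φ) := by rw [h4, smul_smul, mul_inv_cancel₀ hk, one_smul]
  rw [h5, smul_neg, neg_smul]

theorem Qs_fix_eq {ρ : S F →* G} {b : Ω} {v v1 φ1 : Fin 3 → F} (h : Fl (Xs ρ b) v1 φ1) (hv : v ≠ 0)
    (hfix : ∀ x ∈ Qs ρ v, x • b = b) : Qs ρ v = Qs ρ v1 := by
  have h1 : Ce (Xs ρ b) v := Qs_fix.1 hfix
  obtain ⟨k, hk⟩ := cen_unique hv h1 h.2.2.2.1
  have hk0 : k ≠ 0 := by
    rintro rfl
    exact h.1 (by rw [hk, zero_smul])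
  rw [hk, Qs_smul _ _ hk0]

/-- fixed points of a subgroup -/
def Fx (Ω : Type*) {G : Type*} [Group G] [MulAction G Ω] (Q : Subgroup G) : Set Ω := {d | ∀ x ∈ Q, x • d = d}

theorem mem_Fx {Q : Subgroup G} {d : Ω} : d ∈ Fx Ω Q ↔ ∀ x ∈ Q, x • d = d := Iff.rfl

theorem Fx_Qs {ρ : S F →* G} {a : Ω} (hfix : ∀ g, ρ g • a = a) (hFl : ∀ b, b ≠ a → ∃ v φ, Fl (Xs ρ b) v φ)
    {w : Fin 3 → F} (hw : w ≠ 0) : Fx Ω (Qs ρ w) = insert a {b | ∃ φ, Fl (Xs ρ b) w φ} := by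
  ext d
  rw [mem_Fx, Set.mem_insert_iff, Set.mem_ofPred_eq]
  constructor
  · intro h
    by_cases hda : d = a
    · exact Or.inl hda
    right
    obtain ⟨v, φ, h1⟩ := hFl d hda
    obtain ⟨k, hk⟩ := cen_unique hw (Qs_fix.1 h) h1.2.2.2.1
    have hk0 : k ≠ 0 := by
      rintro rfl
      exact h1.1 (by rw [hk, zero_smul])
    refine ⟨φ, ?_⟩
    have h2 := h1.smul_left (inv_ne_zero hk0)
    rwa [hk, smul_smul, inv_mul_cancel₀ hk0, one_smul] at h2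
  · rintro (rfl | ⟨φ, h⟩)
    · rintro _ ⟨ψ, -, rfl⟩
      exact hfix _
    · exact Qs_fix.2 h.2.2.2.2.2.1

theorem card_Fx_Qs [Finite F] [Finite Ω] {ρ : S F →* G} {a : Ω} (hfix : ∀ g, ρ g • a = a)
    (hFl : ∀ b, b ≠ a → ∃ v φ, Fl (Xs ρ b) v φ) {w : Fin 3 → F} (hw : w ≠ 0) :
    (Fx Ω (Qs ρ w)).ncard = 1 + (Nat.card F + 1) * Nat.card {b : Ω // Fl (Xs ρ b) e1 e3} := by
  rw [Fx_Qs hfix hFl hw, Set.ncard_insert_of_notMem, ncard_F1 hw, add_comm]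
  rintro ⟨φ, h⟩
  exact not_fl a hfix _ _ h

theorem card_Fx_Qs' [Finite F] [Finite Ω] {ρ : S F →* G} {a : Ω} (hfix : ∀ g, ρ g • a = a)
    (hFl : ∀ b, b ≠ a → ∃ v φ, Fl (Xs ρ b) v φ) {χ : Fin 3 → F} (hχ : χ ≠ 0) :
    (Fx Ω (Qs (ρ.comp dual) χ)).ncard = 1 + (Nat.card F + 1) * Nat.card {b : Ω // Fl (Xs ρ b) e1 e3} := by
  rw [card_Fx_Qs (ρ := ρ.comp dual) (fun g => hfix _) (fun b hb => by
    obtain ⟨v, φ, h⟩ := hFl b hb
    exact ⟨φ, v, fl_dual_iff.2 h⟩) hχ]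
  congr 2
  have h := fl_count (ρ := ρ) (Ω := Ω) (fun _ => True) (fun _ _ => Iff.rfl) e3_ne e1_ne (by rw [dot_apply]; simp)
  simp only [true_and] at h
  rw [← h]
  apply Nat.card_congr
  refine Equiv.subtypeEquivRight fun x => ?_
  rw [fl_dual_iff]

theorem Fx_tv [Finite F] [Finite Ω] {ρ : S F →* G} {a : Ω} (hfix : ∀ g, ρ g • a = a)
    (hFl : ∀ b, b ≠ a → ∃ v φ, Fl (Xs ρ b) v φ) {w χ : Fin 3 → F} (hw : w ≠ 0) (hχ : χ ≠ 0) (hd : χ ⬝ᵥ w = 0) :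
    {d : Ω | ρ (tv w χ) • d = d} = Fx Ω (Qs ρ w) ∪ Fx Ω (Qs (ρ.comp dual) χ) := by
  have hF2 := Fx_Qs (ρ := ρ.comp dual) (fun g => hfix _) (fun b hb => by
    obtain ⟨v, φ, h⟩ := hFl b hb
    exact ⟨φ, v, fl_dual_iff.2 h⟩) hχ
  simp only [fl_dual_iff] at hF2
  rw [fix_count a hfix hFl hw hχ hd, Fx_Qs hfix hFl hw, hF2, Set.insert_union_distrib]

theorem card_Fx_inter [Finite F] [Finite Ω] {ρ : S F →* G} {a : Ω} (hfix : ∀ g, ρ g • a = a)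
    (hFl : ∀ b, b ≠ a → ∃ v φ, Fl (Xs ρ b) v φ) {w χ : Fin 3 → F} (hw : w ≠ 0) (hχ : χ ≠ 0) (hd : χ ⬝ᵥ w = 0) :
    (Fx Ω (Qs ρ w) ∩ Fx Ω (Qs (ρ.comp dual) χ)).ncard = 1 + Nat.card {b : Ω // Fl (Xs ρ b) e1 e3} := by
  have hF2 := Fx_Qs (ρ := ρ.comp dual) (fun g => hfix _) (fun b hb => by
    obtain ⟨v, φ, h⟩ := hFl b hb
    exact ⟨φ, v, fl_dual_iff.2 h⟩) hχ
  simp only [fl_dual_iff] at hF2
  rw [Fx_Qs hfix hFl hw, hF2, ← Set.insert_inter_distrib, Set.ncard_insert_of_notMem, ncard_F12 hw hχ hd, add_comm]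
  rintro ⟨⟨φ, h⟩, -⟩
  exact not_fl a hfix _ _ h

variable {ρ : Ω → (S F →* G)}

/-- the groups of centres and axes at `a` -/
def FQ (ρ : Ω → (S F →* G)) (a : Ω) : Set (Subgroup G) :=
  {Q | (∃ v : Fin 3 → F, v ≠ 0 ∧ Q = Qs (ρ a) v) ∨ ∃ φ : Fin 3 → F, φ ≠ 0 ∧ Q = Qs ((ρ a).comp dual) φ}

theorem FQ_le {a : Ω} {Q : Subgroup G} (hQ : Q ∈ FQ ρ a) : Q ≤ N ρ a := by
  rcases hQ with ⟨v, -, rfl⟩ | ⟨v, -, rfl⟩
  · rintro _ ⟨ψ, -, rfl⟩
    exact rho_mem _ _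
  · rintro _ ⟨ψ, -, rfl⟩
    exact rho_mem _ _

namespace Cfg

variable [Finite F] [CharP F 2] [Finite (S F)] [Finite G] [Finite Ω]

theorem Q_sets (c : Cfg ρ) (hP : TypeFl ρ) {a b : Ω} (hab : b ≠ a) {v1 φ1 v2 φ2 : Fin 3 → F}
    (h1 : Fl (Xs (ρ a) b) v1 φ1) (h2 : Fl (Xs (ρ b) a) v2 φ2) :
    (Qs (ρ a) v1 = Qs (ρ b) v2 ∧ Qs ((ρ a).comp dual) φ1 = Qs ((ρ b).comp dual) φ2) ∨
    (Qs (ρ a) v1 = Qs ((ρ b).comp dual) φ2 ∧ Qs ((ρ a).comp dual) φ1 = Qs (ρ b) v2) := by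
  have hc1 := card_Qs (c.rep a) h1.1
  have hc2 := card_Qs (c.rep a).toDual h1.2.1
  have hc3 := card_Qs (c.rep b) h2.1
  have hc4 := card_Qs (c.rep b).toDual h2.2.1
  have k1 : (Qs (ρ b) v2 : Set G) ⊆ (Qs (ρ a) v1 : Set G) ∪ (Qs ((ρ a).comp dual) φ1 : Set G) := by
    rintro _ ⟨ψ, hψ, rfl⟩
    exact c.mem_union h1 (c.unip_mem hP hab h2 hψ) (by rw [← map_mul, tv_sq hψ, map_one]) (c.fix b _)
  have k2 : (Qs ((ρ b).comp dual) φ2 : Set G) ⊆ (Qs (ρ a) v1 : Set G) ∪ (Qs ((ρ a).comp dual) φ1 : Set G) := by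
    rintro _ ⟨w, hw, rfl⟩
    have hw' : φ2 ⬝ᵥ (-w) = 0 := by rw [dotProduct_neg, dotProduct_comm, hw, neg_zero]
    have h3 : ((ρ b).comp dual) (tv φ2 w) = ρ b (tv (-w) φ2) := by
      rw [tv_dual_eq hw', neg_neg]
    have h4 : ((ρ b).comp dual) (tv φ2 w) ∈ N ρ a := by
      rw [h3]
      exact c.unip_mem' hP hab h2 hw'
    exact c.mem_union h1 h4 (by rw [← map_mul, tv_sq hw, map_one]) (c.fix b _)
  have hne1 := Qs_ne (φ := φ2) (c.rep b) h2.1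
  rcases SubgroupClass.subset_union.1 k1 with k1 | k1 <;> rcases SubgroupClass.subset_union.1 k2 with k2 | k2
  · have e1 := Subgroup.eq_of_le_of_card_ge k1 (by rw [hc1, hc3])
    have e2 := Subgroup.eq_of_le_of_card_ge k2 (by rw [hc1, hc4])
    exact (hne1 (e1.trans e2.symm)).elim
  · have e1 := Subgroup.eq_of_le_of_card_ge k1 (by rw [hc1, hc3])
    have e2 := Subgroup.eq_of_le_of_card_ge k2 (by rw [hc2, hc4])
    exact Or.inl ⟨e1.symm, e2.symm⟩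
  · have e1 := Subgroup.eq_of_le_of_card_ge k1 (by rw [hc2, hc3])
    have e2 := Subgroup.eq_of_le_of_card_ge k2 (by rw [hc1, hc4])
    exact Or.inr ⟨e2.symm, e1.symm⟩
  · have e1 := Subgroup.eq_of_le_of_card_ge k1 (by rw [hc2, hc3])
    have e2 := Subgroup.eq_of_le_of_card_ge k2 (by rw [hc2, hc4])
    exact (hne1 (e1.trans e2.symm)).elim

theorem FQ_of_fix (c : Cfg ρ) (hP : TypeFl ρ) {a b : Ω} {Q : Subgroup G} (hQ : Q ∈ FQ ρ a)
    (hfix : b ∈ Fx Ω Q) : Q ∈ FQ ρ b := by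
  by_cases hab : b = a
  · rw [hab]; exact hQ
  obtain ⟨v1, φ1, h1⟩ := hP a b hab
  obtain ⟨v2, φ2, h2⟩ := hP b a (Ne.symm hab)
  have h3 := c.Q_sets hP hab h1 h2
  rcases hQ with ⟨v, hv, rfl⟩ | ⟨φ, hφ, rfl⟩
  · rw [Qs_fix_eq h1 hv hfix]
    rcases h3 with ⟨h3, -⟩ | ⟨h3, -⟩
    · exact Or.inl ⟨v2, h2.1, h3⟩
    · exact Or.inr ⟨φ2, h2.2.1, h3⟩
  · rw [Qs_fix_eq (fl_dual_iff.2 h1) hφ hfix]
    rcases h3 with ⟨-, h3⟩ | ⟨-, h3⟩
    · exact Or.inr ⟨φ2, h2.2.1, h3⟩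
    · exact Or.inl ⟨v2, h2.1, h3⟩

theorem two_Q (c : Cfg ρ) (hP : TypeFl ρ) (a : Ω) {t : G} (ht : t ∈ N ρ a) (htt : t * t = 1) (ht1 : t ≠ 1) :
    ∃ Q1 Q2 : Subgroup G, Q1 ∈ FQ ρ a ∧ Q2 ∈ FQ ρ a ∧ t ∈ Q1 ∧ t ∈ Q2 ∧
      (∀ Q ∈ FQ ρ a, t ∈ Q → Q = Q1 ∨ Q = Q2) ∧
      {d : Ω | t • d = d} = Fx Ω Q1 ∪ Fx Ω Q2 ∧
      (Fx Ω Q1).ncard = 1 + (Nat.card F + 1) * Nat.card {b : Ω // Fl (Xs (ρ a) b) e1 e3} ∧
      (Fx Ω Q2).ncard = 1 + (Nat.card F + 1) * Nat.card {b : Ω // Fl (Xs (ρ a) b) e1 e3} ∧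
      (Fx Ω Q1 ∩ Fx Ω Q2).ncard = 1 + Nat.card {b : Ω // Fl (Xs (ρ a) b) e1 e3} := by
  obtain ⟨g, rfl⟩ := ht
  obtain ⟨w, χ, hd, hg⟩ := (c.rep a).exists_tv htt
  rw [hg] at ht1 ⊢
  have hw : w ≠ 0 := by rintro rfl; exact ht1 (by rw [tv_zero_left, map_one])
  have hχ : χ ≠ 0 := by rintro rfl; exact ht1 (by rw [tv_zero_right, map_one])
  refine ⟨Qs (ρ a) w, Qs ((ρ a).comp dual) χ, Or.inl ⟨w, hw, rfl⟩, Or.inr ⟨χ, hχ, rfl⟩, ⟨χ, hd, rfl⟩,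
    tv_mem_dual hd, ?_, Fx_tv (c.fix a) (hP a) hw hχ hd, card_Fx_Qs (c.fix a) (hP a) hw,
    card_Fx_Qs' (c.fix a) (hP a) hχ, card_Fx_inter (c.fix a) (hP a) hw hχ hd⟩
  rintro Q (⟨v, hv, rfl⟩ | ⟨φ, hφ, rfl⟩) hQ
  · exact Or.inl (Qs_unique (c.rep a) hw hχ hd hQ)
  · exact Or.inr (Qs_unique' (c.rep a) hw hχ hd hQ)

/-- `q = 2` and `A = 1` -/
theorem fl_small (c : Cfg ρ) (hP : TypeFl ρ) {a b0 : Ω} (hab0 : b0 ≠ a) :
    Nat.card F = 2 ∧ Nat.card {b : Ω // Fl (Xs (ρ a) b) e1 e3} = 1 := by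
  classical
  have hd : (e3 : Fin 3 → F) ⬝ᵥ e1 = 0 := by rw [dot_e1]; rfl
  have hA := c.Af_pos hP hab0
  have hq := q_sub F
  set A := Nat.card {b : Ω // Fl (Xs (ρ a) b) e1 e3} with hAdef
  have htt : ρ a (tv e1 e3) * ρ a (tv e1 e3) = 1 := by rw [← map_mul, tv_sq hd, map_one]
  have ht1 : ρ a (tv e1 e3) ≠ 1 := (c.rep a).tv_ne hd e1_ne e3_ne
  have htN : ρ a (tv e1 e3) ∈ N ρ a := rho_mem _ _
  revert htt ht1 htN
  generalize ρ a (tv e1 e3) = t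
  intro htt ht1 htN
  obtain ⟨Q1, Q2, hQ1, hQ2, ht1', ht2', -, hfix, hn1, hn2, hn12⟩ := c.two_Q hP a htN htt ht1
  rw [← hAdef] at hn1 hn2 hn12
  have hqA : 0 < Nat.card F * A := Nat.mul_pos (by omega) hA
  have hexp : (Nat.card F + 1) * A = Nat.card F * A + A := by ring
  -- a point of `Fix Q1` outside `Fix Q2`
  obtain ⟨b, hb1, hb2⟩ : ∃ b, b ∈ Fx Ω Q1 ∧ b ∉ Fx Ω Q2 := by
    by_contra hcon
    push Not at hcon
    have h1 : Fx Ω Q1 ∩ Fx Ω Q2 = Fx Ω Q1 := Set.inter_eq_left.2 hcon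
    rw [h1, hn1] at hn12
    omega
  obtain ⟨d, hd2, hd1⟩ : ∃ b, b ∈ Fx Ω Q2 ∧ b ∉ Fx Ω Q1 := by
    by_contra hcon
    push Not at hcon
    have h1 : Fx Ω Q1 ∩ Fx Ω Q2 = Fx Ω Q2 := Set.inter_eq_right.2 hcon
    rw [h1, hn2] at hn12
    omega
  have hQ1b := c.FQ_of_fix hP hQ1 hb1
  have hQ2d := c.FQ_of_fix hP hQ2 hd2
  have htb : t ∈ N ρ b := FQ_le hQ1b ht1'
  have htd : t ∈ N ρ d := FQ_le hQ2d ht2'
  -- the other group at `b`
  obtain ⟨Q3, hQ3, ht3, hfix3⟩ : ∃ Q3 : Subgroup G, Q3 ∈ FQ ρ b ∧ t ∈ Q3 ∧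
      {d : Ω | t • d = d} = Fx Ω Q1 ∪ Fx Ω Q3 := by
    obtain ⟨P1, P2, hP1, hP2, h1, h2, h3, h4, -, -, -⟩ := c.two_Q hP b htb htt ht1
    rcases h3 Q1 hQ1b ht1' with h5 | h5
    · exact ⟨P2, hP2, h2, by rw [h5, h4]⟩
    · exact ⟨P1, hP1, h1, by rw [h5, h4, Set.union_comm]⟩
  have hsub : ∀ e, e ∈ Fx Ω Q2 → e ∉ Fx Ω Q1 → e ∈ Fx Ω Q3 := by
    intro e he2 he1
    have h1 : e ∈ {d : Ω | t • d = d} := by
      rw [hfix]; exact Or.inr he2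
    rw [hfix3] at h1
    exact h1.resolve_left he1
  have hQ3d := c.FQ_of_fix hP hQ3 (hsub d hd2 hd1)
  have hne : Q2 ≠ Q3 := by
    rintro rfl
    apply hb2
    intro x hx
    exact c.N_fix (FQ_le hQ3 hx)
  have h23 : (Fx Ω Q2 ∩ Fx Ω Q3).ncard = 1 + A := by
    obtain ⟨P1, P2, hP1, hP2, h1, h2, h3, -, -, -, h5⟩ := c.two_Q hP d htd htt ht1
    rw [c.Af_eq hP d a, ← hAdef] at h5
    rcases h3 Q2 hQ2d ht2' with h6 | h6 <;> rcases h3 Q3 hQ3d ht3 with h7 | h7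
    · exact (hne (h6.trans h7.symm)).elim
    · rw [h6, h7, h5]
    · rw [h6, h7, Set.inter_comm, h5]
    · exact (hne (h6.trans h7.symm)).elim
  have h1 : Fx Ω Q2 ⊆ (Fx Ω Q1 ∩ Fx Ω Q2) ∪ (Fx Ω Q2 ∩ Fx Ω Q3) := by
    intro e he
    by_cases he1 : e ∈ Fx Ω Q1
    · exact Or.inl ⟨he1, he⟩
    · exact Or.inr ⟨he, hsub e he he1⟩
  have h2 := (Set.ncard_le_ncard h1 (Set.toFinite _)).trans (Set.ncard_union_le _ _)
  rw [hn2, hn12, h23, hexp] at h2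
  have h3 : Nat.card F * A ≤ A + 1 := by omega
  have h4 : 2 ≤ Nat.card F := by omega
  have h5 : A ≤ 1 := by nlinarith
  have h6 : A = 1 := by omega
  refine ⟨?_, h6⟩
  rw [h6] at h3
  omega

end Cfg

end Cfsg.Agent.H438.SLThree
end

-- part: H438/SLThreeZB
section
/-!
# Type `Fl`, VI: contradiction for `q = 2`, `|Ω| = 22` (helper438, S3727)
-/

set_option autoImplicit false
set_option linter.unusedSectionVars false
set_option linter.unusedSimpArgs false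

namespace Cfsg.Agent.H438.SLThree

open Matrix MulAction

variable {F : Type*} [Field F] {G Ω : Type*} [Group G] [MulAction G Ω]

theorem two_elts [Finite F] (hF : Nat.card F = 2) (x : F) : x = 0 ∨ x = 1 := by
  classical
  have : Fintype F := Fintype.ofFinite F
  by_contra hcon
  push Not at hcon
  have h4 : ({0, 1, x} : Finset F).card ≤ Fintype.card F := Finset.card_le_univ _
  have h5 : ({0, 1, x} : Finset F).card = 3 := by
    rw [Finset.card_eq_three]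
    exact ⟨0, 1, x, zero_ne_one, hcon.1.symm, hcon.2.symm, rfl⟩
  rw [← Nat.card_eq_fintype_card, hF, h5] at h4
  omega

theorem one_of_ne [Finite F] (hF : Nat.card F = 2) {x : F} (hx : x ≠ 0) : x = 1 :=
  (two_elts hF x).resolve_left hx

theorem aut_two [Finite F] (hF : Nat.card F = 2) (σ : F ≃+* F) (x : F) : σ x = x := by
  rcases two_elts hF x with rfl | rfl
  · exact map_zero σ
  · exact map_one σ

/-- an element of order 3 does not fix a flag -/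
theorem flag_three [CharP F 2] {g : S F} {v φ : Fin 3 → F} (hv : v ≠ 0) (hφ : φ ≠ 0) (hd : φ ⬝ᵥ v = 0)
    (h3 : g ^ 3 = 1) (h1 : g • v = v) (h2 : row φ g = φ) : g = 1 := by
  obtain ⟨k, hk, hk'⟩ := exists_flag hv hφ hd
  have h4 : k⁻¹ * g * k ∈ UT F := by
    rw [mem_UT]
    constructor
    · rw [mul_smul, mul_smul, hk, h1, ← hk, inv_smul_smul]
    · rw [row_mul, row_mul, hk', h2, ← hk', row_inv_row]
  have h5 := UT_pow_four h4
  have h6 : (k⁻¹ * g * k) ^ 4 = k⁻¹ * g ^ 4 * k := by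
    have := conj_pow (i := 4) (a := k⁻¹) (b := g)
    rwa [inv_inv] at this
  rw [h6] at h5
  have h7 : g ^ 4 = 1 := by
    have h8 : g ^ 4 = k * (k⁻¹ * g ^ 4 * k) * k⁻¹ := by group
    rw [h8, h5, mul_one, mul_inv_cancel]
  calc g = g ^ 4 * (g ^ 3)⁻¹ := by group
    _ = 1 := by rw [h7, h3, inv_one, mul_one]

/-- transvections are conjugate -/
theorem conj_tvs {v φ w χ : Fin 3 → F} (hv : v ≠ 0) (hφ : φ ≠ 0) (hd : φ ⬝ᵥ v = 0) (hw : w ≠ 0) (hχ : χ ≠ 0)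
    (hd' : χ ⬝ᵥ w = 0) : ∃ k : S F, k * tv v φ * k⁻¹ = tv w χ := by
  obtain ⟨k1, h1, h1'⟩ := exists_flag hv hφ hd
  obtain ⟨k2, h2, h2'⟩ := exists_flag hw hχ hd'
  refine ⟨k2 * k1⁻¹, ?_⟩
  rw [conj_tv hd, mul_smul, ← h1, inv_smul_smul, h2, _root_.mul_inv_rev, inv_inv, row_mul, ← h1', row_inv_row, h2']

variable {ρ : Ω → (S F →* G)}

namespace Cfg

variable [Finite F] [CharP F 2] [Finite (S F)] [Finite G] [Finite Ω]

/-- one point over a flag: trivial centralisers -/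
theorem K_bot (c : Cfg ρ) (hP : TypeFl ρ) {a b0 : Ω} (hab0 : b0 ≠ a)
    (hA : Nat.card {b : Ω // Fl (Xs (ρ a) b) e1 e3} = 1) {x : G} (hx : x ∈ K ρ a) : x = 1 := by
  obtain ⟨v, φ, h⟩ := hP a b0 hab0
  have h1 := fl_count (ρ := ρ a) (Ω := Ω) (fun _ => True) (fun _ _ => Iff.rfl) h.1 h.2.1 h.2.2.1
  simp only [true_and] at h1
  rw [hA] at h1
  obtain ⟨u, hu⟩ := Nat.card_eq_one_iff_exists.1 h1
  have h2 : Xs (ρ a) (x • b0) = Xs (ρ a) b0 := by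
    ext g
    rw [mem_Xs, mem_Xs, ← mul_smul, ← mem_K.1 hx g, mul_smul]
    exact smul_left_cancel_iff _
  have h3 : Fl (Xs (ρ a) (x • b0)) v φ := by rw [h2]; exact h
  have h4 : x • b0 = b0 := (congrArg Subtype.val (hu ⟨x • b0, h3⟩)).trans (congrArg Subtype.val (hu ⟨b0, h⟩)).symm
  exact c.KG_one_fl hP hab0 hx h4

/-- elements of order 3 fixing a point -/
theorem three_mem (c : Cfg ρ) (hP : TypeFl ρ) {a b0 : Ω} (hab0 : b0 ≠ a) (hF : Nat.card F = 2)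
    (hA : Nat.card {b : Ω // Fl (Xs (ρ a) b) e1 e3} = 1) {r : G} (hr : r ^ 3 = 1) (hra : r • a = a) :
    ∃ g : S F, g ^ 3 = 1 ∧ r = ρ a g := by
  have hrr : (r ^ 2) * (r ^ 2) = r := by
    calc (r ^ 2) * (r ^ 2) = r * r ^ 3 := by group
      _ = r := by rw [hr, mul_one]
  have hs : (r ^ 2) • a = a := by rw [pow_two, mul_smul, hra, hra]
  have key : ∃ C : GL (Fin 3) F, ∃ σ : F ≃+* F, Tr (ρ a) (ρ a) r C σ := by
    rcases c.exists_type hs with ⟨C, σ, hT⟩ | ⟨C, σ, hT⟩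
    · exact ⟨_, _, (hT.comp hT).of_eq hrr⟩
    · exact ⟨_, _, (hT.flip.comp hT).of_eq hrr⟩
  obtain ⟨C, σ, hT⟩ := key
  have hdet : C.1.det = 1 := by
    apply one_of_ne hF
    intro h0
    have h7 : C.1 * (C⁻¹ : GL (Fin 3) F).1 = 1 := by rw [← Units.val_mul, mul_inv_cancel, Units.val_one]
    have h8 := congrArg Matrix.det h7
    rw [det_mul, h0, zero_mul, det_one] at h8
    exact zero_ne_one h8
  let g : S F := ⟨C.1, hdet⟩
  have hcv : ∀ u : Fin 3 → F, cv C σ u = (1 : F) • (g • u) := by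
    intro u
    rw [one_smul, smul_eq]
    unfold cv
    change C.1 *ᵥ _ = C.1 *ᵥ _
    congr 1
    funext i
    exact aut_two hF σ _
  have h1 : (ρ a g)⁻¹ * r ∈ K ρ a := by
    rw [mem_K]
    intro x
    have h2 := hT x
    rw [th_of_smul hcv, map_mul, map_mul, map_inv] at h2
    have h3 : r * ρ a x = ρ a g * ρ a x * (ρ a g)⁻¹ * r := by rw [← h2]; group
    rw [mul_assoc, h3]
    group
  have h2 := c.K_bot hP hab0 hA h1
  have h3 : r = ρ a g := (inv_mul_eq_one.1 h2).symm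
  refine ⟨g, ?_, h3⟩
  have h4 : ρ a (g ^ 3) = 1 := by rw [map_pow, ← h3, hr]
  rw [c.rep a, mem_center_iff'] at h4
  obtain ⟨ω, hω, hall⟩ := h4
  have hω1 : ω = 1 := by
    apply one_of_ne hF
    rintro rfl
    rw [mul_zero] at hω
    exact zero_ne_one hω
  apply ext_smul
  intro u
  rw [hall u, hω1, one_smul, one_smul]

theorem not_typeFl (c : Cfg ρ) (hP : TypeFl ρ) {a b0 : Ω} (hab0 : b0 ≠ a) : False := by
  classical
  obtain ⟨hF, hAa⟩ := c.fl_small hP hab0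
  have hA : ∀ b, Nat.card {d : Ω // Fl (Xs (ρ b) d) e1 e3} = 1 := fun b => by rw [← c.Af_eq hP a b, hAa]
  have hother : ∀ b : Ω, ∃ b', b' ≠ b := by
    intro b
    by_cases h : b = a
    · exact ⟨b0, by rw [h]; exact hab0⟩
    · exact ⟨a, Ne.symm h⟩
  have hd : (e3 : Fin 3 → F) ⬝ᵥ e1 = 0 := by rw [dot_e1]; rfl
  have htt : ρ a (tv e1 e3) * ρ a (tv e1 e3) = 1 := by rw [← map_mul, tv_sq hd, map_one]
  have ht1 : ρ a (tv e1 e3) ≠ 1 := (c.rep a).tv_ne hd e1_ne e3_ne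
  have htN : ρ a (tv e1 e3) ∈ N ρ a := rho_mem _ _
  have hn := ncard_fix (ρ := ρ a) a (c.fix a) (hP a) e1_ne e3_ne hd
  rw [hF, hA] at hn
  revert htt ht1 htN hn
  generalize ρ a (tv e1 e3) = t
  intro htt ht1 htN hn
  have hta : t • a = a := c.N_fix htN
  obtain ⟨Q1, Q2, hQ1, hQ2, ht1', ht2', -, hfix, -, -, -⟩ := c.two_Q hP a htN htt ht1
  have hmem : ∀ d : Ω, t • d = d → t ∈ N ρ d := by
    intro d hd'
    have h1 : d ∈ {d : Ω | t • d = d} := hd'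
    rw [hfix] at h1
    rcases h1 with h1 | h1
    · exact FQ_le (c.FQ_of_fix hP hQ1 h1) ht1'
    · exact FQ_le (c.FQ_of_fix hP hQ2 h1) ht2'
  have htv : ∀ (d : Ω) (s : G), s * s = 1 → s ≠ 1 → s ∈ N ρ d →
      ∃ w χ : Fin 3 → F, w ≠ 0 ∧ χ ≠ 0 ∧ χ ⬝ᵥ w = 0 ∧ s = ρ d (tv w χ) := by
    rintro d _ hss hs1 ⟨g, rfl⟩
    obtain ⟨w, χ, hd', hg⟩ := (c.rep d).exists_tv hss
    refine ⟨w, χ, ?_, ?_, hd', hg⟩
    · rintro rfl; exact hs1 (by rw [hg, tv_zero_left, map_one])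
    · rintro rfl; exact hs1 (by rw [hg, tv_zero_right, map_one])
  -- the centraliser of `t` is transitive on `Fix(t)`
  have htrans : ∀ d : Ω, t • d = d → ∃ h : G, h * t = t * h ∧ h • a = d := by
    intro d hd'
    obtain ⟨a', ha'⟩ := hother a
    obtain ⟨d', hd''⟩ := hother d
    obtain ⟨g, hg, -⟩ := c.two a a' d d' ha'.symm hd''.symm
    obtain ⟨w, χ, hw, hχ, hdd, he⟩ := htv d t htt ht1 (hmem d hd')
    obtain ⟨w', χ', hw', hχ', hdd', he'⟩ := htv d (g * t * g⁻¹) (by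
      calc g * t * g⁻¹ * (g * t * g⁻¹) = g * (t * t) * g⁻¹ := by group
        _ = 1 := by rw [htt]; group) (by
      intro h
      rw [mul_inv_eq_one, mul_eq_left] at h
      exact ht1 h) (hg ▸ c.N_conj htN)
    obtain ⟨k, hk⟩ := conj_tvs hw' hχ' hdd' hw hχ hdd
    refine ⟨ρ d k * g, ?_, by rw [mul_smul, hg, c.fix]⟩
    have h1 : ρ d k * (g * t * g⁻¹) * (ρ d k)⁻¹ = t := by
      rw [he', ← map_inv, ← map_mul, ← map_mul, hk, ← he]
    calc ρ d k * g * t = (ρ d k * (g * t * g⁻¹) * (ρ d k)⁻¹) * (ρ d k * g) := by group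
      _ = t * (ρ d k * g) := by rw [h1]
  -- an element of order 3 commuting with `t`
  obtain ⟨r, hr3, hr1, hrt⟩ : ∃ r : G, r ^ 3 = 1 ∧ r ≠ 1 ∧ r * t = t * r := by
    have h1 : orbit (Subgroup.centralizer ({t} : Set G)) a = {d : Ω | t • d = d} := by
      ext d
      constructor
      · rintro ⟨⟨h, hh⟩, rfl⟩
        have h2 : t * h = h * t := Subgroup.mem_centralizer_singleton_iff.1 hh |>.symm
        change t • h • a = h • a
        rw [← mul_smul, h2, mul_smul, hta]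
      · intro hd'
        obtain ⟨h, hh, hha⟩ := htrans d hd'
        exact ⟨⟨h, Subgroup.mem_centralizer_singleton_iff.2 hh⟩, hha⟩
    have h2 : Nat.card (orbit (Subgroup.centralizer ({t} : Set G)) a) = 6 := by
      rw [h1, Nat.card_coe_set_eq, hn]
    have h3 : Nat.card (orbit (Subgroup.centralizer ({t} : Set G)) a) *
        Nat.card (stabilizer (Subgroup.centralizer ({t} : Set G)) a) = Nat.card (Subgroup.centralizer ({t} : Set G)) := by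
      rw [← Nat.card_prod]
      exact Nat.card_congr (MulAction.orbitProdStabilizerEquivGroup _ a)
    have h4 : 3 ∣ Nat.card (Subgroup.centralizer ({t} : Set G)) := by
      rw [← h3, h2]
      exact Dvd.dvd.mul_right (by norm_num) _
    have : Fact (Nat.Prime 3) := ⟨Nat.prime_three⟩
    obtain ⟨⟨r, hr⟩, hr'⟩ := exists_prime_orderOf_dvd_card' 3 h4
    rw [Subgroup.orderOf_mk] at hr'
    refine ⟨r, by rw [← hr', pow_orderOf_eq_one], ?_, Subgroup.mem_centralizer_singleton_iff.1 hr⟩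
    rintro rfl
    rw [orderOf_one] at hr'
    norm_num at hr'
  -- it fixes a point
  obtain ⟨d, hrd⟩ : ∃ d : Ω, r • d = d := by
    have : Fact (Nat.Prime 3) := ⟨Nat.prime_three⟩
    have h1 : IsPGroup 3 (Subgroup.zpowers r) := by
      apply IsPGroup.of_card (n := 1)
      rw [Nat.card_zpowers, pow_one]
      exact orderOf_eq_prime hr3 hr1
    have h2 := h1.card_modEq_card_fixedPoints Ω
    have h3 : Nat.card Ω = 22 := by
      rw [c.card_eq_fl hP a, hF, hA]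
      norm_num
    rw [h3] at h2
    have h4 : Nat.card (fixedPoints (Subgroup.zpowers r) Ω) ≠ 0 := by
      intro h0
      rw [h0] at h2
      exact absurd h2 (by decide)
    have h5 : Nonempty (fixedPoints (Subgroup.zpowers r) Ω) := (Nat.card_ne_zero.1 h4).1
    obtain ⟨d, hd'⟩ := h5
    exact ⟨d, hd' ⟨r, Subgroup.mem_zpowers r⟩⟩
  -- only one
  have huniq : ∀ e, r • e = e → e = d := by
    intro e he
    by_contra hed
    obtain ⟨d', hd''⟩ := hother d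
    obtain ⟨g, hg3, hg⟩ := c.three_mem hP hd'' hF (hA d) hr3 hrd
    obtain ⟨v, φ, hfl⟩ := hP d e hed
    have h1 : g ∈ Xs (ρ d) e := by rw [mem_Xs, ← hg, he]
    obtain ⟨μ, hμ⟩ := hfl.2.2.2.1 g h1
    obtain ⟨μ', hμ'⟩ := hfl.2.2.2.2.1 g h1
    have hμ1 : μ = 1 := by
      apply one_of_ne hF
      rintro rfl
      rw [zero_smul] at hμ
      exact smul_ne' hfl.1 g hμ
    have hμ1' : μ' = 1 := by
      apply one_of_ne hF
      rintro rfl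
      rw [zero_smul] at hμ'
      exact row_ne hfl.2.1 g hμ'
    rw [hμ1, one_smul] at hμ
    rw [hμ1', one_smul] at hμ'
    have h2 := flag_three hfl.1 hfl.2.1 hfl.2.2.1 hg3 hμ hμ'
    rw [h2, map_one] at hg
    exact hr1 hg
  have htd : t • d = d := by
    apply huniq
    rw [← mul_smul, hrt, mul_smul, hrd]
  obtain ⟨d', hd''⟩ := hother d
  obtain ⟨g, hg3, hg⟩ := c.three_mem hP hd'' hF (hA d) hr3 hrd
  obtain ⟨w, χ, hw, hχ, hdd, he⟩ := htv d t htt ht1 (hmem d htd)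
  have h1 : ρ d (g * tv w χ * g⁻¹) = ρ d (tv w χ) := by
    rw [map_mul, map_mul, map_inv, ← hg, ← he, hrt, mul_inv_cancel_right]
  have hdd2 : row χ g⁻¹ ⬝ᵥ (g • w) = 0 := by rw [dot_inv, hdd]
  rw [conj_tv hdd] at h1
  obtain ⟨k, hk, hk1, hk2⟩ := tv_inj hdd hdd2 hw hχ ((c.rep d).tv_eq hdd hdd2 h1.symm)
  have hk' : k = 1 := one_of_ne hF hk
  rw [hk', one_smul] at hk1
  rw [hk', inv_one, one_smul] at hk2
  have hrow : row χ g = χ := by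
    nth_rewrite 1 [← hk2]
    rw [row_inv_row]
  have h2 := flag_three hw hχ hdd hg3 hk1 hrow
  rw [h2, map_one] at hg
  exact hr1 hg

end Cfg

end Cfsg.Agent.H438.SLThree
end
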