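import Mathlib
import Cfsg.Agent.H438.SLThreeR
import Cfsg.Agent.S0414
import Cfsg.Agent.S1663
import Cfsg.Agent.S0243
import Cfsg.Agent.H438.SLThreeZB
set_option linter.all false

-- part: H438/SLThreeT
section
/-!
# The configurations of type `Pt`, VI: conclusion (helper438, S3727)
-/

set_option autoImplicit false
set_option linter.unusedSectionVars false
set_option linter.unusedSimpArgs false

namespace Cfsg.Agent.H438.SLThree

open Matrix MulAction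

variable {F : Type*} [Field F] {G Ω : Type*} [Group G] [MulAction G Ω]

variable {ρ : Ω → (S F →* G)}

theorem plane_arith {q : ℕ} (h2 : 2 ≤ q) (h : 1 + (q + 1) * 1 ∣ (1 + (q ^ 2 + q + 1) * 1) * (q ^ 2 + q + 1)) :
    q = 2 ∨ q = 4 ∨ q = 10 := by
  obtain ⟨r, rfl⟩ : ∃ r, q = r + 2 := ⟨q - 2, by omega⟩
  have h1 : (1 + ((r + 2) ^ 2 + (r + 2) + 1) * 1) * ((r + 2) ^ 2 + (r + 2) + 1) =
      (1 + (r + 2 + 1) * 1) * ((r + 2) ^ 3 + 4 * r + 3) + 12 := by ring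
  rw [h1, Nat.dvd_add_right (Dvd.intro _ rfl)] at h
  have h3 : 1 + (r + 2 + 1) * 1 ≤ 12 := Nat.le_of_dvd (by norm_num) h
  have h4 : r ≤ 8 := by omega
  interval_cases r <;> simp_all

namespace Cfg

variable [Finite F] [CharP F 2] [Finite (S F)] [Finite G] [Finite Ω]

theorem over_trans (_ : Cfg ρ) (hP : TypePt ρ) (a : Ω)
    (h : Nat.card {b : Ω // Pt (Xs (ρ a) b) e1} = 1 ∨
      (Nat.card {b : Ω // Pt (Xs (ρ a) b) e1} = Nat.card F - 1 ∧
        ∀ (b : Ω) (v : Fin 3 → F), Pt (Xs (ρ a) b) v → ∀ μ, EV (ρ a) b v μ → μ = 1)) :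
    ∀ b b' : Ω, b ≠ a → b' ≠ a → ∃ g, ρ a g • b = b' := by
  classical
  have : Fintype Ω := Fintype.ofFinite Ω
  have : Fintype F := Fintype.ofFinite F
  have key : ∀ b b' : Ω, Pt (Xs (ρ a) b) e1 → Pt (Xs (ρ a) b') e1 → ∃ g, ρ a g • b = b' := by
    intro b b' hb hb'
    rcases h with h | ⟨h, hM⟩
    · obtain ⟨⟨d, hd⟩, hd'⟩ := Nat.card_eq_one_iff_exists.1 h
      have e1' := congrArg Subtype.val (hd' ⟨b, hb⟩)
      have e2' := congrArg Subtype.val (hd' ⟨b', hb'⟩)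
      refine ⟨1, ?_⟩
      rw [map_one, one_smul]
      exact e1'.trans e2'.symm
    · have hdet : ∀ s : Fˣ, (s : F) * ((s⁻¹ : Fˣ) : F) * 1 = 1 := by
        intro s
        rw [mul_one, ← Units.val_mul, mul_inv_cancel, Units.val_one]
      have he : ∀ s : Fˣ, dg (s : F) ((s⁻¹ : Fˣ) : F) 1 (hdet s) • (e1 : Fin 3 → F) = (s : F) • e1 := by
        intro s
        rw [dg_apply]
        apply ext3 <;> simp [smul_ap]
      let Φ : Fˣ → {b : Ω // Pt (Xs (ρ a) b) e1} := fun s => ⟨ρ a (dg (s : F) ((s⁻¹ : Fˣ) : F) 1 (hdet s)) • b, by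
        have h1 := hb.conj (Xs_conj (ρ a) b (dg (s : F) ((s⁻¹ : Fˣ) : F) 1 (hdet s)))
        rw [he] at h1
        have h2 := h1.smul (c := (s : F)⁻¹) (inv_ne_zero s.ne_zero)
        rwa [smul_smul, inv_mul_cancel₀ s.ne_zero, one_smul] at h2⟩
      have hinj : Function.Injective Φ := by
        intro s s' hss
        have h1 : ρ a (dg (s : F) ((s⁻¹ : Fˣ) : F) 1 (hdet s)) • b =
            ρ a (dg (s' : F) ((s'⁻¹ : Fˣ) : F) 1 (hdet s')) • b := congrArg Subtype.val hss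
        have h2 : (dg (s' : F) ((s'⁻¹ : Fˣ) : F) 1 (hdet s'))⁻¹ * dg (s : F) ((s⁻¹ : Fˣ) : F) 1 (hdet s) ∈
            Xs (ρ a) b := by
          rw [mem_Xs, map_mul, map_inv, mul_smul, h1, inv_smul_smul]
        have h3 := hM b e1 hb (((s' : F)⁻¹) * s) ⟨_, h2, by
          rw [mul_smul, he, inv_smul_eq_iff, smul_smul_comm', he, smul_smul, mul_assoc, mul_comm (s : F),
            inv_mul_cancel_left₀ s'.ne_zero]⟩
        apply Units.ext
        have h4 : (s' : F) * ((s' : F)⁻¹ * s) = s' * 1 := by rw [h3]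
        rwa [mul_inv_cancel_left₀ s'.ne_zero, mul_one] at h4
      have hbij : Function.Bijective Φ := by
        rw [Fintype.bijective_iff_injective_and_card]
        refine ⟨hinj, ?_⟩
        rw [← Nat.card_eq_fintype_card, ← Nat.card_eq_fintype_card, h, Nat.card_units]
      obtain ⟨s, hs⟩ := hbij.2 ⟨b', hb'⟩
      exact ⟨_, congrArg Subtype.val hs⟩
  intro b b' hb hb'
  obtain ⟨v, hv⟩ := hP a b hb
  obtain ⟨v', hv'⟩ := hP a b' hb'
  obtain ⟨k, hk⟩ := exists_smul hv.1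
  obtain ⟨k', hk'⟩ := exists_smul hv'.1
  have h5 : Pt (Xs (ρ a) (ρ a k⁻¹ • b)) e1 := by
    have := hv.conj (Xs_conj (ρ a) b k⁻¹)
    rwa [← hk, inv_smul_smul] at this
  have h6 : Pt (Xs (ρ a) (ρ a k'⁻¹ • b')) e1 := by
    have := hv'.conj (Xs_conj (ρ a) b' k'⁻¹)
    rwa [← hk', inv_smul_smul] at this
  obtain ⟨g, hg⟩ := key _ _ h5 h6
  refine ⟨k' * g * k⁻¹, ?_⟩
  rw [map_mul, map_mul, mul_smul, mul_smul, hg, map_inv, smul_inv_smul]

/-- **Type `Pt`: the conclusion.** -/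
theorem pt_main (c : Cfg ρ) (hP : TypePt ρ) (a : Ω) {n : ℕ} (hn : 1 ≤ n) (hF : Nat.card F = 2 ^ n) :
    (∀ b b' : Ω, b ≠ a → b' ≠ a → ∃ g, ρ a g • b = b') ∧
      ((Odd n ∧ Nat.card Ω = Nat.card F ^ 3) ∨
        (n = 2 ∧ ∀ a : Ω, Nat.card {b : Ω // Pt (Xs (ρ a) b) e1} = 1)) := by
  classical
  have hq := q_sub F
  have hcard := c.card_eq hP a
  by_cases hM : ∀ (b : Ω) (v : Fin 3 → F), Pt (Xs (ρ a) b) v → ∀ μ, EV (ρ a) b v μ → μ = 1
  · -- trivial eigenvalue group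
    have h1 := c.A_ge hP a hM
    have h2 := c.A_le hP a
    have h3 := c.A_odd hP a
    have h4 : Even (Nat.card F) := by
      rw [hF, Nat.even_pow]
      exact ⟨even_two, by omega⟩
    have h5 : Nat.card {b : Ω // Pt (Xs (ρ a) b) e1} = Nat.card F - 1 := by
      rcases Nat.lt_or_ge (Nat.card {b : Ω // Pt (Xs (ρ a) b) e1}) (Nat.card F) with h6 | h6
      · omega
      · have h7 : Nat.card {b : Ω // Pt (Xs (ρ a) b) e1} = Nat.card F := le_antisymm h2 h6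
        rw [h7] at h3
        exact (Nat.not_odd_iff_even.2 h4 h3).elim
    refine ⟨c.over_trans hP a (Or.inr ⟨h5, hM⟩), Or.inl ⟨?_, ?_⟩⟩
    · -- `n` is odd
      by_contra hodd
      rw [Nat.not_odd_iff_even] at hodd
      obtain ⟨r, hr⟩ := hodd
      have h3d : 3 ∣ Nat.card Fˣ := by
        rw [Nat.card_units, hF, hr, ← two_mul, pow_mul]
        have := Nat.sub_dvd_pow_sub_pow (2 ^ 2) 1 r
        rwa [one_pow] at this
      have : Fact (Nat.Prime 3) := ⟨Nat.prime_three⟩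
      obtain ⟨u, hu⟩ := exists_prime_orderOf_dvd_card' 3 h3d
      have h6 : (u : F) * u * u = 1 := by
        have h7 := pow_orderOf_eq_one u
        rw [hu] at h7
        have := congrArg Units.val h7
        push_cast at this
        rw [← this]; ring
      obtain ⟨b, hb⟩ := c.A_pos hP a e1_ne
      have h8 := hM b e1 hb u ⟨dg u u u h6, by
        rw [mem_Xs, ((c.rep a) _).2 (dg_mem_center h6), one_smul], by
        rw [dg_apply]
        apply ext3 <;> simp [smul_ap]⟩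
      have h9 : u = 1 := Units.ext h8
      rw [h9, orderOf_one] at hu
      norm_num at hu
    · rw [hcard, h5]
      obtain ⟨r, hr⟩ : ∃ r, Nat.card F = r + 1 := ⟨Nat.card F - 1, by omega⟩
      rw [hr, Nat.add_sub_cancel]
      ring
  · push Not at hM
    obtain ⟨b0, v0, h0, μ, hμ, hμ1⟩ := hM
    have hA := c.A_one hP h0 hμ hμ1
    refine ⟨c.over_trans hP a (Or.inl (hA a)), Or.inr ⟨?_, hA⟩⟩
    have h1 := c.plane_dvd hP a
    rw [hcard, hA a] at h1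
    have h2 : 2 ≤ Nat.card F := by omega
    have hμ0 : μ ≠ 0 := by
      rintro rfl
      obtain ⟨g, -, hg⟩ := hμ
      rw [zero_smul] at hg
      exact smul_ne' h0.1 g hg
    have h3 : Nat.card F ≠ 2 := by
      intro h3
      have : Fintype F := Fintype.ofFinite F
      have h4 : ({0, 1, μ} : Finset F).card ≤ Fintype.card F := Finset.card_le_univ _
      have h5 : ({0, 1, μ} : Finset F).card = 3 := by
        rw [Finset.card_eq_three]
        exact ⟨0, 1, μ, zero_ne_one, hμ0.symm, hμ1.symm, rfl⟩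
      rw [← Nat.card_eq_fintype_card, h3, h5] at h4
      omega
    rcases plane_arith h2 h1 with h4 | h4 | h4
    · exact (h3 h4).elim
    · rw [hF] at h4
      have : (2 : ℕ) ^ n = 2 ^ 2 := by rw [h4]; norm_num
      exact Nat.pow_right_injective le_rfl this
    · rw [hF] at h4
      exfalso
      have h5 : n < 4 := by
        by_contra h5
        push Not at h5
        have : 2 ^ 4 ≤ 2 ^ n := Nat.pow_le_pow_right (by norm_num) h5
        omega
      interval_cases n <;> omega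

end Cfg

end Cfsg.Agent.H438.SLThree
end

-- part: H438/SLThreeU
section
/-!
# The Steiner system `S(3,6,22)` and `M₂₂` (helper438, S3727)
-/

set_option autoImplicit false
set_option linter.unusedSectionVars false
set_option linter.unusedSimpArgs false

namespace Cfsg.Agent.H438.SLThree

open Matrix MulAction
open scoped Pointwise

variable {F : Type*} [Field F] {G Ω : Type*} [Group G] [MulAction G Ω]

theorem two_planes {v w φ ψ : Fin 3 → F} (hv : v ≠ 0) (hφ : φ ≠ 0) (hnp : ¬ ∃ k : F, w = k • v)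
    (h1 : φ ⬝ᵥ v = 0) (h2 : φ ⬝ᵥ w = 0) (h3 : ψ ⬝ᵥ v = 0) (h4 : ψ ⬝ᵥ w = 0) : ∃ k : F, ψ = k • φ := by
  obtain ⟨k, β, hβ, hk, hkφ, hkw⟩ := exists_adapted hv hφ h1 h2 hnp
  have e0 : row ψ k ⬝ᵥ e1 = 0 := by rw [row_dot, hk, h3]
  have e1' : row ψ k ⬝ᵥ ![0, 1, 0] = 0 := by rw [row_dot, hkw, dotProduct_smul, h4, smul_zero]
  refine ⟨row ψ k 2, ?_⟩
  have h5 : row ψ k = row ψ k 2 • e3 := by
    apply ext3
    · rw [dot_e1] at e0
      rw [e0]; simp [smul_ap]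
    · rw [dot_apply] at e1'
      simp at e1'
      rw [e1']; simp [smul_ap]
    · simp [smul_ap]
  rw [← hkφ, ← row_smul, ← h5, row_row_inv]

variable {ρ : Ω → (S F →* G)}

/-- the blocks -/
def Bks (ρ : Ω → (S F →* G)) : Set (Finset Ω) := {s | ∃ a φ, φ ≠ 0 ∧ (s : Set Ω) = Blk ρ a φ}

/-- the order of `N a` -/
theorem card_N [Finite F] {a : Ω} (h : IsRep (ρ a)) :
    Nat.card (N ρ a) = Nat.card (Matrix.ProjectiveSpecialLinearGroup (Fin 3) F) := by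
  have hk : (ρ a).ker = Subgroup.center (S F) := by
    ext g
    rw [MonoidHom.mem_ker, h g]
  exact Nat.card_congr ((QuotientGroup.quotientKerEquivRange (ρ a)).symm.trans
    (QuotientGroup.quotientMulEquivOfEq hk)).toEquiv

namespace Cfg

variable [Finite F] [CharP F 2] [Finite (S F)] [Finite G] [Finite Ω]

theorem smul_blk (c : Cfg ρ) (hP : TypePt ρ) (y : G) {a : Ω} {φ : Fin 3 → F} (hφ : φ ≠ 0) :
    ∃ φ' : Fin 3 → F, φ' ≠ 0 ∧ ∀ d, y • d ∈ Blk ρ (y • a) φ' ↔ d ∈ Blk ρ a φ := by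
  obtain ⟨w, hw, hφw, -⟩ := exists_common φ φ
  obtain ⟨g', hg'⟩ := c.conj y a (tv w φ)
  have hsq : ρ (y • a) g' * ρ (y • a) g' = 1 := by
    rw [← hg']
    have h1 : y * ρ a (tv w φ) * y⁻¹ * (y * ρ a (tv w φ) * y⁻¹) = y * (ρ a (tv w φ * tv w φ)) * y⁻¹ := by
      rw [map_mul]; group
    rw [h1, tv_sq hφw, map_one]; group
  obtain ⟨w', φ', h1, h2⟩ := (c.rep (y • a)).exists_tv hsq
  have hne : ρ (y • a) (tv w' φ') ≠ 1 := by
    rw [← h2, ← hg']
    intro h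
    rw [mul_inv_eq_one, mul_eq_left] at h
    exact (c.rep a).tv_ne hφw hw hφ h
  have hw' : w' ≠ 0 := by rintro rfl; exact hne (by rw [tv_zero_left, map_one])
  have hφ' : φ' ≠ 0 := by rintro rfl; exact hne (by rw [tv_zero_right, map_one])
  refine ⟨φ', hφ', fun d => ?_⟩
  rw [← c.fix_eq_blk hP hφw hw, ← c.fix_eq_blk hP h1 hw']
  simp only [Set.mem_ofPred_eq]
  rw [← h2, ← hg', mul_smul, mul_smul, inv_smul_smul]
  exact smul_left_cancel_iff y

theorem steiner (c : Cfg ρ) (hP : TypePt ρ) (hF : Nat.card F = 4)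
    (hA : ∀ a : Ω, Nat.card {b : Ω // Pt (Xs (ρ a) b) e1} = 1) : Cfsg.IsSteinerSystem 3 6 (Bks ρ) := by
  classical
  constructor
  · rintro s ⟨a, φ, hφ, hs⟩
    have h := c.card_blk hP a hφ
    rw [hF, hA a, ← hs] at h
    rwa [Nat.card_coe_set_eq, Set.ncard_coe_finset] at h
  · intro s hs
    obtain ⟨x, y, z, hxy, hxz, hyz, rfl⟩ := Finset.card_eq_three.1 hs
    obtain ⟨v, hv⟩ := hP x y hxy.symm
    obtain ⟨w, hw⟩ := hP x z hxz.symm
    have hnp : ¬ ∃ k : F, w = k • v := by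
      rintro ⟨k, rfl⟩
      have hk : k ≠ 0 := by rintro rfl; exact hw.1 (zero_smul _ _)
      have h1 := hv.smul hk
      have h2 : Nat.card {b : Ω // Pt (Xs (ρ x) b) (k • v)} = 1 := by rw [pt_count _ hw.1, hA]
      obtain ⟨u, hu⟩ := Nat.card_eq_one_iff_exists.1 h2
      exact hyz ((congrArg Subtype.val (hu ⟨y, h1⟩)).trans (congrArg Subtype.val (hu ⟨z, hw⟩)).symm)
    obtain ⟨φ, hφ, h1, h2⟩ := exists_common v w
    rw [dotProduct_comm] at h1 h2
    refine ⟨(Set.toFinite (Blk ρ x φ)).toFinset, ⟨⟨x, φ, hφ, by simp⟩, ?_⟩, ?_⟩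
    · intro d hd
      rw [Set.Finite.mem_toFinset]
      simp only [Finset.mem_insert, Finset.mem_singleton] at hd
      rcases hd with rfl | rfl | rfl
      · exact Or.inl rfl
      · exact Or.inr ⟨v, hv, h1⟩
      · exact Or.inr ⟨w, hw, h2⟩
    · rintro t ⟨⟨a', φ', hφ', ht⟩, hsub⟩
      have hmem : ∀ d, d ∈ ({x, y, z} : Finset Ω) → d ∈ Blk ρ a' φ' := by
        intro d hd
        rw [← ht]
        exact_mod_cast hsub hd
      obtain ⟨φ'', h3, h4⟩ := c.blk_change hP hφ' (hmem x (by simp))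
      have hy := hmem y (by simp)
      have hz := hmem z (by simp)
      rw [h4] at hy hz
      have h5 : φ'' ⬝ᵥ v = 0 := by
        rcases mem_Blk.1 hy with h | ⟨v', hv', h5⟩
        · exact (hxy h.symm).elim
        obtain ⟨k, hk, rfl⟩ := hv.par hv'
        rw [dotProduct_smul, smul_eq_mul, mul_eq_zero] at h5
        exact h5.resolve_left hk
      have h6 : φ'' ⬝ᵥ w = 0 := by
        rcases mem_Blk.1 hz with h | ⟨v', hv', h5⟩
        · exact (hxz h.symm).elim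
        obtain ⟨k, hk, rfl⟩ := hw.par hv'
        rw [dotProduct_smul, smul_eq_mul, mul_eq_zero] at h5
        exact h5.resolve_left hk
      obtain ⟨k, rfl⟩ := two_planes hv.1 hφ hnp h1 h2 h5 h6
      have hk : k ≠ 0 := by rintro rfl; exact h3 (zero_smul _ _)
      apply Finset.coe_injective
      rw [ht, h4, Blk_smul hk, Set.Finite.coe_toFinset]

theorem order_ge (c : Cfg ρ) (a : Ω) (hF : Nat.card F = 4) (hcard : Nat.card Ω = 22) : 443520 ≤ Nat.card G := by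
  classical
  have : Fintype F := Fintype.ofFinite F
  have h1 : Nat.card (N ρ a) = 20160 := by
    have h2 := Cfsg.Agent.S0243.result (F := F) (q := 4) (by rw [← Nat.card_eq_fintype_card, hF]) 3 (by norm_num)
    rw [card_N (c.rep a)]
    have h3 : ∏ i : Fin 3, (4 ^ 3 - 4 ^ (i : ℕ)) = 181440 := by
      rw [Fin.prod_univ_three]; norm_num
    rw [h3] at h2
    have h4 : Nat.gcd 3 (4 - 1) = 3 := by norm_num
    rw [h4] at h2
    omega
  have h4 : orbit G a = Set.univ := by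
    rw [Set.eq_univ_iff_forall]
    intro b
    have hnt : Nontrivial Ω := by
      rw [← Finite.one_lt_card_iff_nontrivial, hcard]; norm_num
    obtain ⟨a', ha'⟩ := exists_ne a
    obtain ⟨b', hb'⟩ := exists_ne b
    obtain ⟨g, hg, -⟩ := c.two a a' b b' ha'.symm hb'.symm
    exact ⟨g, hg⟩
  have h5 : Nat.card (orbit G a) * Nat.card (stabilizer G a) = Nat.card G := by
    rw [← Nat.card_prod]
    exact Nat.card_congr (MulAction.orbitProdStabilizerEquivGroup G a)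
  have h6 : Nat.card (orbit G a) = 22 := by
    rw [h4, Nat.card_univ, hcard]
  have h7 : N ρ a ≤ stabilizer G a := by
    intro x hx
    exact c.N_fix hx
  have h8 : Nat.card (N ρ a) ≤ Nat.card (stabilizer G a) := Subgroup.card_le_of_le h7
  rw [← h5, h6]
  omega

theorem m22 [Fintype Ω] (c : Cfg ρ) (hP : TypePt ρ) (a : Ω) (hF : Nat.card F = 4)
    (hA : ∀ a : Ω, Nat.card {b : Ω // Pt (Xs (ρ a) b) e1} = 1) :
    Fintype.card Ω = 22 ∧ (Cfsg.Spor.IsoM22 G ∨ ∃ H : Subgroup G, H.index = 2 ∧ Cfsg.Spor.IsoM22 ↥H) := by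
  classical
  have : Fintype F := Fintype.ofFinite F
  have hcard0 : Nat.card Ω = 22 := by
    have h := c.card_eq hP a
    rwa [hF, hA] at h
  have hcard : Fintype.card Ω = 22 := by
    rw [← Nat.card_eq_fintype_card, hcard0]
  refine ⟨hcard, ?_⟩
  have hS := c.steiner hP hF hA
  obtain ⟨h1, -, H, hH2, hH⟩ := Cfsg.Agent.S0414.result hcard hS
  have hM := Cfsg.Agent.S1663.result hH
  have hsub : ∀ y : G, MulAction.toPermHom G Ω y • Bks ρ ⊆ Bks ρ := by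
    rintro y _ ⟨s, ⟨b, φ, hφ, hs⟩, rfl⟩
    obtain ⟨φ', hφ', hd⟩ := c.smul_blk hP y (a := b) hφ
    refine ⟨y • b, φ', hφ', ?_⟩
    ext d
    have h2 : d ∈ ((MulAction.toPermHom G Ω y • s : Finset Ω) : Set Ω) ↔ y⁻¹ • d ∈ (s : Set Ω) := by
      rw [Finset.coe_smul_finset, Set.mem_smul_set_iff_inv_smul_mem, ← map_inv]
      rfl
    have h3 := hd (y⁻¹ • d)
    rw [smul_inv_smul] at h3
    rw [h3, ← hs]
    exact h2
  have hst : ∀ y : G, MulAction.toPermHom G Ω y ∈ Cfsg.setSystemAut (Bks ρ) := by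
    intro y
    rw [MulAction.mem_stabilizer_iff]
    refine Set.Subset.antisymm (hsub y) ?_
    rw [Set.subset_smul_set_iff, ← map_inv]
    exact hsub y⁻¹
  let f : G →* Cfsg.setSystemAut (Bks ρ) := (MulAction.toPermHom G Ω).codRestrict _ hst
  have hinj : Function.Injective f := by
    rw [injective_iff_map_eq_one]
    intro y hy
    apply c.faith
    intro x
    have h2 : (f y).1 x = x := by rw [hy]; rfl
    exact h2
  have hfin : Finite (Cfsg.setSystemAut (Bks ρ)) := inferInstance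
  have h2 : Nat.card f.range = Nat.card G := (Nat.card_congr (MonoidHom.ofInjective hinj).toEquiv).symm
  have h3 := c.order_ge a hF hcard0
  have h4 := f.range.card_mul_index
  rw [h1, h2] at h4
  have h5 : f.range.index ≤ 2 := by
    by_contra h5
    push Not at h5
    have : 443520 * 3 ≤ Nat.card G * f.range.index := Nat.mul_le_mul h3 h5
    omega
  have h6 : 0 < f.range.index := Nat.pos_of_ne_zero Subgroup.index_ne_zero_of_finite
  have hHcard : Nat.card H = 443520 := hH.2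
  have h7 : f.range.index = 1 ∨ f.range.index = 2 := by omega
  rcases h7 with h7 | h7
  · right
    rw [Subgroup.index_eq_one, MonoidHom.range_eq_top] at h7
    let e : G ≃* Cfsg.setSystemAut (Bks ρ) := MulEquiv.ofBijective f ⟨hinj, h7⟩
    refine ⟨H.map e.symm.toMonoidHom, ?_, ?_⟩
    · rw [Subgroup.index_map_of_bijective, hH2]
      exact e.symm.bijective
    · obtain ⟨i⟩ := hM
      exact ⟨(e.symm.subgroupMap H).symm.trans i⟩
  · left
    have hn : f.range.Normal := Subgroup.normal_of_index_eq_two h7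
    have hs : IsSimpleGroup H := hH.1
    have hG : Nat.card G = 443520 := by
      rw [h7] at h4; omega
    rcases (inferInstance : (f.range.subgroupOf H).Normal).eq_bot_or_eq_top with h8 | h8
    · exfalso
      have h9 : f.range.relIndex H ∣ f.range.index := Subgroup.relIndex_dvd_index_of_normal _ _
      have h10 := (f.range.subgroupOf H).card_mul_index
      rw [h8, Subgroup.card_bot, one_mul, hHcard, Subgroup.index_bot, hHcard] at h10
      have h11 : f.range.relIndex H = Nat.card H := by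
        rw [Subgroup.relIndex, h8, Subgroup.index_bot]
      rw [h11, hHcard, h7] at h9
      norm_num at h9
    · have h9 : H ≤ f.range := by
        rwa [Subgroup.subgroupOf_eq_top] at h8
      have h10 : H = f.range := Subgroup.eq_of_le_of_card_ge h9 (by rw [h2, hHcard, hG])
      obtain ⟨i⟩ := hM
      exact ⟨(MonoidHom.ofInjective hinj).trans ((MulEquiv.subgroupCongr h10.symm).trans i)⟩

end Cfg

end Cfsg.Agent.H438.SLThree
end

-- part: H438/SLThreeAA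
section
/-!
# The affine case, I: coordinates (helper438, S3727)
-/

set_option autoImplicit false
set_option linter.unusedSectionVars false
set_option linter.unusedSimpArgs false

namespace Cfsg.Agent.H438.SLThree

open Matrix MulAction
open scoped Pointwise

variable {F : Type*} [Field F] {G Ω : Type*} [Group G] [MulAction G Ω]

variable {ρ : Ω → (S F →* G)}

/-- coordinates at `a` -/
structure Crd (ρ : Ω → (S F →* G)) (a : Ω) (β : (Fin 3 → F) ≃ Ω) : Prop where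
  zero : β 0 = a
  act : ∀ (g : S F) (v : Fin 3 → F), ρ a g • β v = β (g • v)
  pt : ∀ v, v ≠ 0 → Pt (Xs (ρ a) (β v)) v

namespace Cfg

variable [Finite F] [CharP F 2] [Finite (S F)] [Finite G] [Finite Ω]

theorem A_of_card (c : Cfg ρ) (hP : TypePt ρ) (hΩ : Nat.card Ω = Nat.card F ^ 3) (a : Ω) :
    Nat.card {b : Ω // Pt (Xs (ρ a) b) e1} = Nat.card F - 1 := by
  have h := c.card_eq hP a
  have hq := q_sub F
  rw [hΩ] at h
  obtain ⟨r, hr⟩ : ∃ r, Nat.card F = r + 1 := ⟨Nat.card F - 1, by omega⟩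
  rw [hr] at h ⊢
  have h1 : (r + 1) ^ 3 = 1 + ((r + 1) ^ 2 + (r + 1) + 1) * r := by ring
  rw [h1] at h
  have h2 := Nat.add_left_cancel h
  rw [Nat.add_sub_cancel]
  exact (Nat.eq_of_mul_eq_mul_left (by positivity) h2).symm

theorem ev_one (c : Cfg ρ) (hP : TypePt ρ) (hΩ : Nat.card Ω = Nat.card F ^ 3) {a b : Ω} {v : Fin 3 → F}
    (h : Pt (Xs (ρ a) b) v) {μ : F} (hμ : EV (ρ a) b v μ) : μ = 1 := by
  by_contra hμ1
  have h1 := c.A_one hP h hμ hμ1 a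
  rw [c.A_of_card hP hΩ a] at h1
  have h2 : Nat.card F = 2 := by omega
  apply hμ1
  apply one_of_ne h2
  rintro rfl
  obtain ⟨g, -, hg⟩ := hμ
  rw [zero_smul] at hg
  exact smul_ne' h.1 g hg

open Classical in
theorem exists_crd (c : Cfg ρ) (hP : TypePt ρ) (hΩ : Nat.card Ω = Nat.card F ^ 3) (a : Ω) :
    ∃ β : (Fin 3 → F) ≃ Ω, Crd ρ a β := by
  obtain ⟨b0, hb0⟩ := c.A_pos hP a e1_ne
  let β0 : (Fin 3 → F) → Ω := fun v => if h : v = 0 then a else ρ a (Classical.choose (exists_smul h)) • b0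
  have hβ0 : ∀ v (h : v ≠ 0), β0 v = ρ a (Classical.choose (exists_smul h)) • b0 := fun v h => dif_neg h
  have hzero : β0 0 = a := dif_pos rfl
  have hact : ∀ (g : S F) (v : Fin 3 → F), ρ a g • β0 v = β0 (g • v) := by
    intro g v
    by_cases hv : v = 0
    · rw [hv, smul_zero, hzero, c.fix]
    have hgv : g • v ≠ 0 := smul_ne' hv g
    rw [hβ0 v hv, hβ0 _ hgv]
    have h1 := Classical.choose_spec (exists_smul hv)
    have h2 := Classical.choose_spec (exists_smul hgv)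
    set k := Classical.choose (exists_smul hv)
    set k' := Classical.choose (exists_smul hgv)
    have h3 : k'⁻¹ * g * k ∈ Xs (ρ a) b0 := by
      apply hb0.2.2
      rw [mul_smul, mul_smul, h1, ← h2, inv_smul_smul]
    have h4 : ρ a (k'⁻¹ * g * k) • b0 = b0 := h3
    rw [map_mul, map_mul, mul_smul, mul_smul, map_inv, inv_smul_eq_iff] at h4
    exact h4
  have hpt : ∀ v, v ≠ 0 → Pt (Xs (ρ a) (β0 v)) v := by
    intro v hv
    have h1 := Classical.choose_spec (exists_smul hv)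
    have h2 := hb0.conj (Xs_conj (ρ a) b0 (Classical.choose (exists_smul hv)))
    rw [h1] at h2
    rw [hβ0 v hv]
    exact h2
  have hinj : Function.Injective β0 := by
    intro v w he
    by_cases hv : v = 0 <;> by_cases hw : w = 0
    · rw [hv, hw]
    · exfalso
      rw [hv, hzero] at he
      exact c.ne_of_pt (hpt w hw) he.symm
    · exfalso
      rw [hw, hzero] at he
      exact c.ne_of_pt (hpt v hv) he
    · have h1 := hpt w hw
      rw [← he] at h1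
      obtain ⟨k, hk, rfl⟩ := (hpt v hv).par h1
      obtain ⟨k1, hk1⟩ := exists_smul hv
      obtain ⟨k2, hk2⟩ := exists_smul hw
      have h2 : (k2 * k1⁻¹) • v = k • v := by rw [mul_smul, ← hk1, inv_smul_smul, hk2, hk1]
      have h3 : k = 1 := by
        apply c.ev_one hP hΩ (hpt v hv)
        refine ⟨k2 * k1⁻¹, ?_, h2⟩
        rw [mem_Xs, hact, h2, ← he]
      rw [h3, one_smul]
  have hbij : Function.Bijective β0 := by
    rw [Nat.bijective_iff_injective_and_card]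
    exact ⟨hinj, by rw [card_vec, hΩ]⟩
  exact ⟨Equiv.ofBijective β0 hbij, hzero, hact, hpt⟩

end Cfg

/-- the blocks -/
def Bl (ρ : Ω → (S F →* G)) : Set (Set Ω) := {B | ∃ a φ, φ ≠ 0 ∧ B = Blk ρ a φ}

theorem Blk_mem {a : Ω} {φ : Fin 3 → F} (hφ : φ ≠ 0) : Blk ρ a φ ∈ Bl ρ := ⟨a, φ, hφ, rfl⟩

theorem self_mem_Blk {a : Ω} {φ : Fin 3 → F} : a ∈ Blk ρ a φ := Or.inl rfl

/-- the plane `φ = k` -/
def Pl (β : (Fin 3 → F) ≃ Ω) (φ : Fin 3 → F) (k : F) : Set Ω := {d | φ ⬝ᵥ β.symm d = k}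

theorem mem_Pl {β : (Fin 3 → F) ≃ Ω} {φ : Fin 3 → F} {k : F} {d : Ω} : d ∈ Pl β φ k ↔ φ ⬝ᵥ β.symm d = k := Iff.rfl

theorem card_Pl [Finite F] (β : (Fin 3 → F) ≃ Ω) {φ : Fin 3 → F} (hφ : φ ≠ 0) (k : F) :
    (Pl β φ k).ncard = Nat.card F ^ 2 := by
  obtain ⟨u, hu⟩ := exists_dot hφ
  rw [← card_perp hφ]
  change Nat.card {d : Ω // φ ⬝ᵥ β.symm d = k} = _
  apply Nat.card_congr
  refine (β.symm.trans (Equiv.subRight (k • u))).subtypeEquiv ?_
  intro d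
  rw [Equiv.trans_apply, Equiv.subRight_apply, dotProduct_comm (β.symm d - k • u) φ, dotProduct_sub, dotProduct_smul, hu, smul_eq_mul,
    mul_one, sub_eq_zero]

namespace Crd

variable {a : Ω} {β : (Fin 3 → F) ≃ Ω} (h : Crd ρ a β)

include h

theorem Blk_eq {φ : Fin 3 → F} : Blk ρ a φ = Pl β φ 0 := by
  ext d
  rw [mem_Blk, mem_Pl]
  obtain ⟨v, rfl⟩ := β.surjective d
  rw [Equiv.symm_apply_apply]
  constructor
  · rintro (h1 | ⟨w, h1, h2⟩)
    · rw [← h.zero] at h1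
      rw [β.injective h1, dotProduct_zero]
    · by_cases hv : v = 0
      · rw [hv, dotProduct_zero]
      obtain ⟨k, hk, rfl⟩ := h1.par (h.pt v hv)
      rw [dotProduct_smul, h2, smul_zero]
  · intro h1
    by_cases hv : v = 0
    · left
      rw [hv, h.zero]
    · right
      exact ⟨v, h.pt v hv, h1⟩

theorem tv_act {w φ : Fin 3 → F} (hd : φ ⬝ᵥ w = 0) (v : Fin 3 → F) : ρ a (tv w φ) • β v = β (v + (φ ⬝ᵥ v) • w) := by
  rw [h.act, tv_smul hd]

theorem symm_act (g : S F) (d : Ω) : β.symm (ρ a g • d) = g • β.symm d := by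
  obtain ⟨v, rfl⟩ := β.surjective d
  rw [h.act, Equiv.symm_apply_apply, Equiv.symm_apply_apply]

end Crd

theorem mem_smul_set' {x : G} {B : Set Ω} {d : Ω} : d ∈ x • B ↔ x⁻¹ • d ∈ B := Set.mem_smul_set_iff_inv_smul_mem

namespace Cfg

variable [Finite F] [CharP F 2] [Finite (S F)] [Finite G] [Finite Ω]

theorem smul_Bl (c : Cfg ρ) (hP : TypePt ρ) (y : G) {B : Set Ω} (hB : B ∈ Bl ρ) : y • B ∈ Bl ρ := by
  obtain ⟨a, φ, hφ, rfl⟩ := hB
  obtain ⟨φ', hφ', h⟩ := c.smul_blk hP y (a := a) hφ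
  refine ⟨y • a, φ', hφ', ?_⟩
  ext d
  rw [mem_smul_set', ← h, smul_inv_smul]

theorem card_Bl_mem (c : Cfg ρ) (hP : TypePt ρ) (hΩ : Nat.card Ω = Nat.card F ^ 3) {B : Set Ω} (hB : B ∈ Bl ρ) :
    B.ncard = Nat.card F ^ 2 := by
  obtain ⟨a, φ, hφ, rfl⟩ := hB
  have h := c.card_blk hP a hφ
  rw [c.A_of_card hP hΩ] at h
  have hq := q_sub F
  rw [← Nat.card_coe_set_eq, h]
  obtain ⟨r, hr⟩ : ∃ r, Nat.card F = r + 1 := ⟨Nat.card F - 1, by omega⟩
  rw [hr, Nat.add_sub_cancel]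
  ring

/-- the number of blocks -/
theorem card_Bl (c : Cfg ρ) (hP : TypePt ρ) (hΩ : Nat.card Ω = Nat.card F ^ 3) :
    Nat.card (Bl ρ) = Nat.card F * (Nat.card F ^ 2 + Nat.card F + 1) := by
  classical
  have hq := q_sub F
  have hc := dcount (α := Ω × (Fin 3 → F)) (β := Set Ω) (fun p B => p.2 ≠ 0 ∧ B = Blk ρ p.1 p.2) (fun p => p.2 ≠ 0)
    (c := 1) (m := Nat.card F ^ 2 * (Nat.card F - 1))
    (by
      rintro ⟨d, φ⟩ hφ
      have : Unique {B : Set Ω // φ ≠ 0 ∧ B = Blk ρ d φ} :=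
        { default := ⟨Blk ρ d φ, hφ, rfl⟩
          uniq := fun B => Subtype.ext B.2.2 }
      exact Nat.card_unique)
    (by
      rintro B ⟨⟨d0, φ0⟩, hφ0, -, hB⟩
      simp only at hφ0 hB
      have h1 : ∀ d : B, ∃ φ : Fin 3 → F, φ ≠ 0 ∧ B = Blk ρ d.1 φ := by
        rintro ⟨d, hd⟩
        rw [hB] at hd
        obtain ⟨φ', h2, h3⟩ := c.blk_change hP hφ0 hd
        exact ⟨φ', h2, hB.trans h3⟩
      choose f hf1 hf2 using h1
      have e : B × Fˣ ≃ {p : Ω × (Fin 3 → F) // p.2 ≠ 0 ∧ (p.2 ≠ 0 ∧ B = Blk ρ p.1 p.2)} := by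
        refine Equiv.ofBijective (fun p => ⟨(p.1.1, (p.2 : F) • f p.1), smul_ne_zero p.2.ne_zero (hf1 _),
          smul_ne_zero p.2.ne_zero (hf1 _), by rw [Blk_smul p.2.ne_zero]; exact hf2 _⟩) ⟨?_, ?_⟩
        · rintro ⟨d, s⟩ ⟨d', s'⟩ hdd
          have h2 : ((d : Ω), (s : F) • f d) = ((d' : Ω), (s' : F) • f d') := congrArg Subtype.val hdd
          have h3 : d = d' := Subtype.ext (congrArg Prod.fst h2)
          subst h3
          have h4 : (s : F) • f d = (s' : F) • f d := congrArg Prod.snd h2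
          have h5 : s = s' := Units.ext (smul_left_injective F (hf1 d) h4)
          rw [h5]
        · rintro ⟨⟨d, φ⟩, h2, -, h3⟩
          have hd : d ∈ B := by
            rw [h3]
            exact Or.inl rfl
          obtain ⟨k, hk, hk'⟩ := c.blk_par hP (hf1 ⟨d, hd⟩) h2 (by rw [← hf2 ⟨d, hd⟩]; exact h3)
          refine ⟨(⟨d, hd⟩, Units.mk0 k hk), ?_⟩
          apply Subtype.ext
          exact Prod.ext rfl hk'.symm
      rw [← Nat.card_congr e, Nat.card_prod, Nat.card_units]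
      congr 1
      exact c.card_Bl_mem hP hΩ ⟨d0, φ0, hφ0, hB⟩)
  have h1 : Nat.card {p : Ω × (Fin 3 → F) // p.2 ≠ 0} = Nat.card Ω * (Nat.card F ^ 3 - 1) := by
    rw [← card_ne, ← Nat.card_prod]
    apply Nat.card_congr
    exact
      { toFun := fun p => (p.1.1, ⟨p.1.2, p.2⟩)
        invFun := fun p => ⟨(p.1, p.2.1), p.2.2⟩
        left_inv := fun _ => rfl
        right_inv := fun _ => rfl }
  have h2 : Nat.card F ^ 3 - 1 = (Nat.card F ^ 2 + Nat.card F + 1) * (Nat.card F - 1) := by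
    obtain ⟨r, hr⟩ : ∃ r, Nat.card F = r + 1 := ⟨Nat.card F - 1, by omega⟩
    rw [hr, Nat.add_sub_cancel]
    have : (r + 1) ^ 3 = ((r + 1) ^ 2 + (r + 1) + 1) * r + 1 := by ring
    rw [this, Nat.add_sub_cancel]
  rw [h1, mul_one, h2, ← mul_assoc, ← mul_assoc, hΩ] at hc
  have h3 := Nat.eq_of_mul_eq_mul_right hq hc
  have h4 : Nat.card (Bl ρ) = Nat.card {B : Set Ω // ∃ p : Ω × (Fin 3 → F), p.2 ≠ 0 ∧ (p.2 ≠ 0 ∧ B = Blk ρ p.1 p.2)} := by
    apply Nat.card_congr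
    refine Equiv.subtypeEquivRight fun B => ?_
    constructor
    · rintro ⟨a, φ, hφ, hB⟩
      exact ⟨(a, φ), hφ, hφ, hB⟩
    · rintro ⟨⟨a, φ⟩, hφ, -, hB⟩
      exact ⟨a, φ, hφ, hB⟩
  rw [h4]
  have h5 : 0 < Nat.card F ^ 2 := pow_pos (by omega) 2
  apply Nat.eq_of_mul_eq_mul_right h5
  rw [← h3]
  ring

end Cfg

end Cfsg.Agent.H438.SLThree
end

-- part: H438/SLThreeAB
section
/-!
# The affine case, II: the blocks are the affine planes (helper438, S3727)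
-/

set_option autoImplicit false
set_option linter.unusedSectionVars false
set_option linter.unusedSimpArgs false

namespace Cfsg.Agent.H438.SLThree

open Matrix MulAction
open scoped Pointwise

variable {F : Type*} [Field F] {G Ω : Type*} [Group G] [MulAction G Ω]

variable {ρ : Ω → (S F →* G)}

/-- the group with axis `φ` at `a` -/
def AX (ρ : Ω → (S F →* G)) (a : Ω) (φ : Fin 3 → F) : Subgroup G := Qs ((ρ a).comp dual) φ

theorem mem_AX {a : Ω} {φ : Fin 3 → F} {x : G} : x ∈ AX ρ a φ ↔ ∃ w, φ ⬝ᵥ w = 0 ∧ x = ρ a (tv w φ) := by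
  constructor
  · rintro ⟨ψ, hψ, rfl⟩
    have h1 : φ ⬝ᵥ (-ψ) = 0 := by rw [dotProduct_neg, dotProduct_comm, hψ, neg_zero]
    exact ⟨-ψ, h1, by rw [tv_dual_eq h1, neg_neg]⟩
  · rintro ⟨w, hw, rfl⟩
    exact ⟨-w, by rw [neg_dotProduct, dotProduct_comm, hw, neg_zero], (tv_dual_eq hw).symm⟩

theorem card_AX [Finite F] {a : Ω} (h : IsRep (ρ a)) {φ : Fin 3 → F} (hφ : φ ≠ 0) :
    Nat.card (AX ρ a φ) = Nat.card F ^ 2 := card_Qs h.toDual hφ

theorem AX_comm {a : Ω} {φ : Fin 3 → F} {x y : G} (hx : x ∈ AX ρ a φ) (hy : y ∈ AX ρ a φ) : x * y = y * x :=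
  Qs_comm hx hy

theorem AX_sq [CharP F 2] {a : Ω} {φ : Fin 3 → F} {x : G} (hx : x ∈ AX ρ a φ) : x * x = 1 := by
  obtain ⟨w, hw, rfl⟩ := mem_AX.1 hx
  rw [← map_mul, tv_sq hw, map_one]

theorem AX_pgroup [CharP F 2] (a : Ω) (φ : Fin 3 → F) : IsPGroup 2 (AX ρ a φ) := by
  rintro ⟨x, hx⟩
  refine ⟨1, ?_⟩
  apply Subtype.ext
  rw [pow_one, pow_two]
  exact AX_sq hx

namespace Cfg

variable [Finite F] [CharP F 2] [Finite (S F)] [Finite G] [Finite Ω]

theorem AX_fix (c : Cfg ρ) (hP : TypePt ρ) {a : Ω} {φ : Fin 3 → F} {x : G} (hx : x ∈ AX ρ a φ) (hx1 : x ≠ 1) :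
    {d : Ω | x • d = d} = Blk ρ a φ := by
  obtain ⟨w, hw, rfl⟩ := mem_AX.1 hx
  apply c.fix_eq_blk hP hw
  rintro rfl
  exact hx1 (by rw [tv_zero_left, map_one])

theorem mem_AX_of (c : Cfg ρ) (hP : TypePt ρ) {a d : Ω} {φ : Fin 3 → F} (hφ : φ ≠ 0) {x : G} (hx : x ∈ N ρ d)
    (hxx : x * x = 1) (hfix : {e : Ω | x • e = e} = Blk ρ a φ) : x ∈ AX ρ a φ := by
  by_cases hx1 : x = 1
  · rw [hx1]; exact (AX ρ a φ).one_mem
  obtain ⟨g, rfl⟩ := hx
  obtain ⟨w, χ, hd, hg⟩ := (c.rep d).exists_tv hxx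
  rw [hg] at hx1 hfix ⊢
  have hw : w ≠ 0 := by rintro rfl; exact hx1 (by rw [tv_zero_left, map_one])
  have hχ : χ ≠ 0 := by rintro rfl; exact hx1 (by rw [tv_zero_right, map_one])
  have h1 : a ∈ {e : Ω | ρ d (tv w χ) • e = e} := by rw [hfix]; exact self_mem_Blk
  obtain ⟨w', φ', h2, h3, h4, h5⟩ := c.tv_change hP hd hw hχ h1
  rw [h5, c.fix_eq_blk hP h2 h3] at hfix
  obtain ⟨k, hk, hk'⟩ := c.blk_par hP hφ h4 hfix.symm
  rw [h5, hk', ← tv_smul_left (v := w') (φ := φ)]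
  · rw [hk', smul_dotProduct, smul_eq_mul, mul_eq_zero] at h2
    exact mem_AX.2 ⟨k • w', by rw [dotProduct_smul, h2.resolve_left hk, smul_zero], rfl⟩
  · rw [hk', smul_dotProduct, smul_eq_mul, mul_eq_zero] at h2
    exact h2.resolve_left hk

theorem AX_conj (c : Cfg ρ) (hP : TypePt ρ) {a b : Ω} {φ φ' : Fin 3 → F} (hφ : φ ≠ 0) {y : G}
    (hy : y • Blk ρ b φ' = Blk ρ a φ) {x : G} (hx : x ∈ AX ρ b φ') : y * x * y⁻¹ ∈ AX ρ a φ := by
  by_cases hx1 : x = 1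
  · rw [hx1, mul_one, mul_inv_cancel]; exact (AX ρ a φ).one_mem
  have hN : x ∈ N ρ b := by
    obtain ⟨w, -, rfl⟩ := mem_AX.1 hx
    exact rho_mem _ _
  refine c.mem_AX_of hP hφ (c.N_conj (y := y) hN) ?_ ?_
  · calc y * x * y⁻¹ * (y * x * y⁻¹) = y * (x * x) * y⁻¹ := by group
      _ = 1 := by rw [AX_sq hx]; group
  · rw [← hy, ← c.AX_fix hP hx hx1]
    ext e
    rw [mem_smul_set', Set.mem_ofPred_eq, Set.mem_ofPred_eq, mul_smul, mul_smul]
    rw [← eq_inv_smul_iff]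

theorem AX_eq (c : Cfg ρ) (hP : TypePt ρ) {a b : Ω} {φ φ' : Fin 3 → F} (hφ : φ ≠ 0) (hφ' : φ' ≠ 0)
    (h : Blk ρ b φ' = Blk ρ a φ) : AX ρ b φ' = AX ρ a φ := by
  apply le_antisymm
  · intro x hx
    have := c.AX_conj hP hφ (y := 1) (by rw [one_smul, h]) hx
    rwa [one_mul, inv_one, mul_one] at this
  · intro x hx
    have := c.AX_conj hP hφ' (y := 1) (by rw [one_smul, h]) hx
    rwa [one_mul, inv_one, mul_one] at this

/-- action of `N a` on the blocks through `a` -/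
theorem smul_Blk (g : S F) {a : Ω} (hfix : ∀ g, ρ a g • a = a) (φ : Fin 3 → F) : ρ a g • Blk ρ a φ = Blk ρ a (row φ g⁻¹) := by
  ext d
  rw [mem_smul_set', mem_Blk, mem_Blk]
  have h1 : (ρ a g)⁻¹ • d = ρ a g⁻¹ • d := by rw [map_inv]
  rw [h1]
  constructor
  · rintro (h2 | ⟨v, h2, h3⟩)
    · left
      rw [map_inv, inv_smul_eq_iff, hfix] at h2
      exact h2
    · right
      refine ⟨g • v, ?_, by rw [dot_inv, h3]⟩
      have h4 := h2.conj (Xs_conj (ρ a) (ρ a g⁻¹ • d) g)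
      rwa [← mul_smul, ← map_mul, mul_inv_cancel, map_one, one_smul] at h4
  · rintro (h2 | ⟨v, h2, h3⟩)
    · left
      rw [h2, hfix]
    · right
      refine ⟨g⁻¹ • v, h2.conj (Xs_conj (ρ a) d g⁻¹), by rw [← row_dot, h3]⟩

/-- there is another block fixed by `AX a φ`, and it is disjoint from `Blk a φ` -/
theorem exists_fixed_block (c : Cfg ρ) (hP : TypePt ρ) (hΩ : Nat.card Ω = Nat.card F ^ 3) {n : ℕ} (hn : 1 ≤ n)
    (hF : Nat.card F = 2 ^ n) {a : Ω} {φ : Fin 3 → F} (hφ : φ ≠ 0) :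
    ∃ B ∈ Bl ρ, (∀ x ∈ AX ρ a φ, x • B = B) ∧ Disjoint B (Blk ρ a φ) := by
  classical
  let M : SubMulAction G (Set Ω) := ⟨Bl ρ, fun y _ hB => c.smul_Bl hP y hB⟩
  have hmod := (AX_pgroup (ρ := ρ) a φ).card_modEq_card_fixedPoints M
  have hM : Nat.card M = Nat.card F * (Nat.card F ^ 2 + Nat.card F + 1) := c.card_Bl hP hΩ
  have hfixB : ∀ x ∈ AX ρ a φ, x • Blk ρ a φ = Blk ρ a φ := by
    intro x hx
    by_cases hx1 : x = 1
    · rw [hx1, one_smul]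
    ext d
    rw [mem_smul_set', ← c.AX_fix hP hx hx1, Set.mem_ofPred_eq, Set.mem_ofPred_eq, smul_inv_smul]
    exact ⟨fun h => by rw [eq_inv_smul_iff] at h; exact h, fun h => by rw [eq_inv_smul_iff]; exact h⟩
  let B0 : fixedPoints (AX ρ a φ) M := ⟨⟨Blk ρ a φ, Blk_mem hφ⟩, by
    rintro ⟨x, hx⟩
    exact Subtype.ext (hfixB x hx)⟩
  have heven : 2 ∣ Nat.card (fixedPoints (AX ρ a φ) M) := by
    have h1 : 2 ∣ Nat.card M := by
      rw [hM, hF]
      exact Dvd.dvd.mul_right (dvd_pow_self 2 (by omega)) _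
    exact (hmod.dvd_iff dvd_rfl).1 h1
  have hlt : 1 < Nat.card (fixedPoints (AX ρ a φ) M) := by
    have h1 : 0 < Nat.card (fixedPoints (AX ρ a φ) M) := by
      rw [Nat.card_pos_iff]
      exact ⟨⟨B0⟩, inferInstance⟩
    omega
  rw [Finite.one_lt_card_iff_nontrivial] at hlt
  obtain ⟨B1, hB1⟩ := exists_ne B0
  obtain ⟨⟨B, hB⟩, hB'⟩ := B1
  have hfix : ∀ x ∈ AX ρ a φ, x • B = B := by
    intro x hx
    exact congrArg Subtype.val (hB' ⟨x, hx⟩)
  have hne : B ≠ Blk ρ a φ := by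
    intro h
    apply hB1
    apply Subtype.ext
    exact Subtype.ext h
  refine ⟨B, hB, hfix, ?_⟩
  rw [Set.disjoint_left]
  intro x hxB hxa
  obtain ⟨b, ψ, hψ, rfl⟩ := hB
  obtain ⟨φ2, h1, h2⟩ := c.blk_change hP hψ hxB
  obtain ⟨φ1, h3, h4⟩ := c.blk_change hP hφ hxa
  rw [h2] at hfix hne
  rw [h4] at hne
  have hAX := c.AX_eq hP h3 hφ h4
  rw [hAX] at hfix
  have hnp : ¬ ∃ k : F, φ2 = k • φ1 := by
    rintro ⟨k, rfl⟩
    apply hne
    apply Blk_smul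
    rintro rfl
    exact h1 (zero_smul _ _)
  obtain ⟨w, hw, hw'⟩ := exists_ker h3 hnp
  have h5 := hfix _ (mem_AX.2 ⟨w, hw, rfl⟩)
  rw [smul_Blk _ (c.fix x), tv_inv hw, row_tv (by rw [neg_dotProduct, hw, neg_zero])] at h5
  have h6 : φ2 + (φ2 ⬝ᵥ w) • -φ1 ≠ 0 := by
    intro h6
    apply hnp
    refine ⟨φ2 ⬝ᵥ w, ?_⟩
    rw [smul_neg, ← sub_eq_add_neg, sub_eq_zero] at h6
    exact h6
  obtain ⟨k, hk, h7⟩ := c.blk_par hP h1 h6 h5.symm
  apply hnp
  have h8 : (k - 1) • φ2 = (-(φ2 ⬝ᵥ w)) • φ1 := by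
    rw [sub_smul, one_smul, ← h7, smul_neg, neg_smul, add_sub_cancel_left]
  have h9 : k - 1 ≠ 0 := by
    intro h9
    rw [h9, zero_smul] at h8
    exact (smul_ne_zero (neg_ne_zero.2 hw') h3) h8.symm
  refine ⟨(k - 1)⁻¹ * (-(φ2 ⬝ᵥ w)), ?_⟩
  rw [mul_smul, ← h8, smul_smul, inv_mul_cancel₀ h9, one_smul]

end Cfg

end Cfsg.Agent.H438.SLThree
end

-- part: H438/SLThreeAC
section
/-!
# The affine case, III: the blocks are the affine planes, commuting axis groups (helper438, S3727)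
-/

set_option autoImplicit false
set_option linter.unusedSectionVars false
set_option linter.unusedSimpArgs false

namespace Cfsg.Agent.H438.SLThree

open Matrix MulAction
open scoped Pointwise

variable {F : Type*} [Field F] {G Ω : Type*} [Group G] [MulAction G Ω]

variable {ρ : Ω → (S F →* G)}

theorem card_img [Finite F] [Finite Ω] (h : (Fin 3 → F) → Set Ω) (h1 : ∀ (φ : Fin 3 → F) (k : F), k ≠ 0 → h (k • φ) = h φ)
    (h2 : ∀ φ φ' : Fin 3 → F, φ ≠ 0 → φ' ≠ 0 → h φ = h φ' → ∃ k : F, k ≠ 0 ∧ φ' = k • φ) :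
    {B : Set Ω | ∃ φ, φ ≠ 0 ∧ B = h φ}.ncard * (Nat.card F - 1) = Nat.card F ^ 3 - 1 := by
  classical
  have hc := dcount (fun (φ : Fin 3 → F) (B : Set Ω) => B = h φ) (fun φ => φ ≠ 0) (c := 1) (m := Nat.card F - 1)
    (fun φ _ => by
      have : Unique {B : Set Ω // B = h φ} := ⟨⟨⟨_, rfl⟩⟩, fun B => Subtype.ext B.2⟩
      exact Nat.card_unique)
    (by
      rintro B ⟨φ, hφ, rfl⟩
      have e : Fˣ ≃ {x // x ≠ 0 ∧ h φ = h x} := by
        refine Equiv.ofBijective (fun c => ⟨(c : F) • φ, smul_ne_zero c.ne_zero hφ, (h1 φ c c.ne_zero).symm⟩) ⟨?_, ?_⟩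
        · intro c d hcd
          have h3 : (c : F) • φ = (d : F) • φ := congrArg Subtype.val hcd
          exact Units.ext (smul_left_injective F hφ h3)
        · rintro ⟨y, hy1, hy2⟩
          obtain ⟨k, hk, hk'⟩ := h2 φ y hφ hy1 hy2
          exact ⟨Units.mk0 k hk, Subtype.ext hk'.symm⟩
      rw [← Nat.card_congr e, Nat.card_units])
  rw [card_ne, mul_one] at hc
  exact hc.symm

theorem exists_row_scale {φ : Fin 3 → F} (hφ : φ ≠ 0) {k : F} (hk : k ≠ 0) : ∃ g : S F, row φ g = k • φ := by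
  obtain ⟨h0, hh0⟩ := exists_row hφ
  have hdet : k⁻¹ * 1 * k = 1 := by rw [mul_one, inv_mul_cancel₀ hk]
  refine ⟨h0 * dg k⁻¹ 1 k hdet * h0⁻¹, ?_⟩
  rw [row_mul, row_mul]
  nth_rewrite 1 [← hh0]
  rw [row_inv_row, row_dg]
  have h1 : ![k⁻¹ * (e3 : Fin 3 → F) 0, 1 * (e3 : Fin 3 → F) 1, k * (e3 : Fin 3 → F) 2] = k • e3 := by
    apply ext3 <;> simp [smul_ap]
  rw [h1, row_smul, hh0]

namespace Cfg

variable [Finite F] [CharP F 2] [Finite (S F)] [Finite G] [Finite Ω]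

theorem Pl_mem (c : Cfg ρ) (hP : TypePt ρ) (hΩ : Nat.card Ω = Nat.card F ^ 3) {n : ℕ} (hn : 1 ≤ n)
    (hF : Nat.card F = 2 ^ n) {a : Ω} {β : (Fin 3 → F) ≃ Ω} (h : Crd ρ a β) {φ : Fin 3 → F} (hφ : φ ≠ 0) (k : F) :
    Pl β φ k ∈ Bl ρ := by
  obtain ⟨B, hB, hfix, hdisj⟩ := c.exists_fixed_block hP hΩ hn hF (a := a) hφ
  have hcard := c.card_Bl_mem hP hΩ hB
  have hq := q_sub F
  obtain ⟨x1, hx1⟩ : B.Nonempty := by
    rw [← Set.ncard_pos, hcard]
    exact pow_pos (by omega) 2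
  have hk1 : φ ⬝ᵥ β.symm x1 ≠ 0 := by
    intro h0
    apply Set.disjoint_left.1 hdisj hx1
    rw [h.Blk_eq]
    exact h0
  have hBP : Pl β φ (φ ⬝ᵥ β.symm x1) = B := by
    apply Set.eq_of_subset_of_ncard_le
    · intro d hd
      rw [mem_Pl] at hd
      have hw : φ ⬝ᵥ ((φ ⬝ᵥ β.symm x1)⁻¹ • (β.symm d - β.symm x1)) = 0 := by
        rw [dotProduct_smul, dotProduct_sub, hd, sub_self, smul_zero]
      have h1 : ρ a (tv ((φ ⬝ᵥ β.symm x1)⁻¹ • (β.symm d - β.symm x1)) φ) • x1 = d := by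
        have h2 := h.tv_act hw (β.symm x1)
        rw [Equiv.apply_symm_apply, smul_smul, mul_inv_cancel₀ hk1, one_smul, add_sub_cancel,
          Equiv.apply_symm_apply] at h2
        exact h2
      rw [← h1, ← hfix _ (mem_AX.2 ⟨_, hw, rfl⟩)]
      exact Set.smul_mem_smul_set hx1
    · rw [card_Pl β hφ, hcard]
    · exact Set.toFinite _
  by_cases hk : k = 0
  · rw [hk, ← h.Blk_eq]
    exact Blk_mem hφ
  obtain ⟨g, hg⟩ := exists_row_scale hφ (k := (φ ⬝ᵥ β.symm x1) * k⁻¹) (mul_ne_zero hk1 (inv_ne_zero hk))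
  have h2 : Pl β φ k = ρ a g⁻¹ • B := by
    rw [← hBP]
    ext d
    rw [mem_smul_set', mem_Pl, mem_Pl, ← map_inv, inv_inv, h.symm_act, ← row_dot, hg, smul_dotProduct, smul_eq_mul,
      mul_assoc]
    constructor
    · intro h3
      rw [h3, inv_mul_cancel₀ hk, mul_one]
    · intro h3
      have h4 := mul_left_cancel₀ hk1 (h3.trans (mul_one _).symm)
      rw [inv_mul_eq_iff_eq_mul₀ hk, mul_one] at h4
      exact h4
  rw [h2]
  exact c.smul_Bl hP _ hB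

theorem exists_Pl (c : Cfg ρ) (hP : TypePt ρ) (hΩ : Nat.card Ω = Nat.card F ^ 3) {n : ℕ} (hn : 1 ≤ n)
    (hF : Nat.card F = 2 ^ n) {a : Ω} {β : (Fin 3 → F) ≃ Ω} (h : Crd ρ a β) {B : Set Ω} (hB : B ∈ Bl ρ) :
    ∃ φ k, φ ≠ 0 ∧ B = Pl β φ k := by
  have hq := q_sub F
  obtain ⟨b, ψ, hψ, rfl⟩ := hB
  have h1 : {B : Set Ω | ∃ φ : Fin 3 → F, φ ≠ 0 ∧ B = Pl β φ (φ ⬝ᵥ β.symm b)} ⊆
      {B : Set Ω | ∃ φ : Fin 3 → F, φ ≠ 0 ∧ B = Blk ρ b φ} := by
    rintro _ ⟨φ, hφ, rfl⟩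
    obtain ⟨b', φ', hφ', h2⟩ := c.Pl_mem hP hΩ hn hF h hφ (φ ⬝ᵥ β.symm b)
    have h3 : b ∈ Blk ρ b' φ' := by rw [← h2]; exact rfl
    obtain ⟨φ'', h4, h5⟩ := c.blk_change hP hφ' h3
    exact ⟨φ'', h4, h2.trans h5⟩
  have h2 := card_img (Ω := Ω) (fun φ : Fin 3 → F => Pl β φ (φ ⬝ᵥ β.symm b)) (by
      intro φ k hk
      ext d
      rw [mem_Pl, mem_Pl, smul_dotProduct, smul_dotProduct, smul_eq_mul, smul_eq_mul]
      exact ⟨fun h3 => mul_left_cancel₀ hk h3, fun h3 => by rw [h3]⟩) (by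
      intro φ φ' hφ hφ' he
      obtain ⟨k, hk⟩ := sep (v := φ) (w := φ') hφ (by
        intro v hv
        rw [dotProduct_comm] at hv ⊢
        have h3 : β (β.symm b + v) ∈ Pl β φ (φ ⬝ᵥ β.symm b) := by
          rw [mem_Pl, Equiv.symm_apply_apply, dotProduct_add, hv, add_zero]
        rw [he, mem_Pl, Equiv.symm_apply_apply, dotProduct_add] at h3
        exact add_eq_left.1 h3)
      refine ⟨k, ?_, hk⟩
      rintro rfl
      exact hφ' (by rw [hk, zero_smul]))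
  have h3 := card_img (Ω := Ω) (fun φ : Fin 3 → F => Blk ρ b φ) (fun φ k hk => Blk_smul hk)
    (fun φ φ' hφ hφ' he => c.blk_par hP hφ hφ' he)
  rw [← h3] at h2
  have h4 := Nat.eq_of_mul_eq_mul_right hq h2
  have h5 := Set.eq_of_subset_of_ncard_le h1 h4.ge (Set.toFinite _)
  have h6 : Blk ρ b ψ ∈ {B : Set Ω | ∃ φ : Fin 3 → F, φ ≠ 0 ∧ B = Pl β φ (φ ⬝ᵥ β.symm b)} := by
    rw [h5]; exact ⟨ψ, hψ, rfl⟩
  obtain ⟨φ, hφ, h7⟩ := h6
  exact ⟨φ, _, hφ, h7⟩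

/-- intersecting planes -/
theorem _root_.Cfsg.Agent.H438.SLThree.par_of_disjoint {β : (Fin 3 → F) ≃ Ω} {φ ψ : Fin 3 → F} {k l : F}
    (hφ : φ ≠ 0) (h : Disjoint (Pl β φ k) (Pl β ψ l)) : ∃ m : F, ψ = m • φ := by
  by_contra hnp
  obtain ⟨w, hw, hw'⟩ := exists_ker hφ hnp
  obtain ⟨u, hu⟩ := exists_dot hφ
  have h1 : β (k • u + ((ψ ⬝ᵥ w)⁻¹ * (l - ψ ⬝ᵥ (k • u))) • w) ∈ Pl β φ k := by
    rw [mem_Pl, Equiv.symm_apply_apply, dotProduct_add, dotProduct_smul, dotProduct_smul, hu, hw, smul_zero, add_zero,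
      smul_eq_mul, mul_one]
  have h2 : β (k • u + ((ψ ⬝ᵥ w)⁻¹ * (l - ψ ⬝ᵥ (k • u))) • w) ∈ Pl β ψ l := by
    rw [mem_Pl, Equiv.symm_apply_apply, dotProduct_add,
      dotProduct_smul ((ψ ⬝ᵥ w)⁻¹ * (l - ψ ⬝ᵥ (k • u))), smul_eq_mul,
      mul_comm (ψ ⬝ᵥ w)⁻¹, mul_assoc, inv_mul_cancel₀ hw', mul_one, add_sub_cancel]
  exact Set.disjoint_left.1 h h1 h2

theorem fix_disjoint (c : Cfg ρ) (hP : TypePt ρ) (hΩ : Nat.card Ω = Nat.card F ^ 3) {n : ℕ} (hn : 1 ≤ n)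
    (hF : Nat.card F = 2 ^ n) {b : Ω} {φ : Fin 3 → F} (hφ : φ ≠ 0) {B : Set Ω} (hB : B ∈ Bl ρ)
    (hdisj : Disjoint (Blk ρ b φ) B) {x : G} (hx : x ∈ AX ρ b φ) : x • B = B := by
  obtain ⟨β, h⟩ := c.exists_crd hP hΩ b
  obtain ⟨ψ, k, hψ, rfl⟩ := c.exists_Pl hP hΩ hn hF h hB
  rw [h.Blk_eq] at hdisj
  obtain ⟨m, rfl⟩ := par_of_disjoint hφ hdisj
  obtain ⟨w, hw, rfl⟩ := mem_AX.1 hx
  ext d
  rw [mem_smul_set', mem_Pl, mem_Pl, ← map_inv, h.symm_act, ← row_dot, row_smul, tv_inv hw,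
    row_tv (by rw [neg_dotProduct, hw, neg_zero]), hw, zero_smul, add_zero]

theorem AX_inf (c : Cfg ρ) (hP : TypePt ρ) {a b : Ω} {φ φ' : Fin 3 → F}
    (hdisj : Disjoint (Blk ρ a φ) (Blk ρ b φ')) {x : G} (hx : x ∈ AX ρ a φ) (hx' : x ∈ AX ρ b φ') : x = 1 := by
  by_contra hx1
  have h1 := c.AX_fix hP hx hx1
  have h2 := c.AX_fix hP hx' hx1
  rw [← h1, ← h2, disjoint_self, Set.bot_eq_empty] at hdisj
  have h3 : a ∈ Blk ρ a φ := self_mem_Blk
  rw [← h1, hdisj] at h3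
  exact h3

theorem AX_commute (c : Cfg ρ) (hP : TypePt ρ) (hΩ : Nat.card Ω = Nat.card F ^ 3) {n : ℕ} (hn : 1 ≤ n)
    (hF : Nat.card F = 2 ^ n) {a b : Ω} {φ φ' : Fin 3 → F} (hφ : φ ≠ 0) (hφ' : φ' ≠ 0)
    (hdisj : Disjoint (Blk ρ a φ) (Blk ρ b φ')) {x y : G} (hx : x ∈ AX ρ a φ) (hy : y ∈ AX ρ b φ') :
    x * y = y * x := by
  have h1 : x * y * x⁻¹ ∈ AX ρ b φ' :=
    c.AX_conj hP hφ' (c.fix_disjoint hP hΩ hn hF hφ (Blk_mem hφ') hdisj hx) hy
  have h2 : y * x⁻¹ * y⁻¹ ∈ AX ρ a φ :=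
    c.AX_conj hP hφ (c.fix_disjoint hP hΩ hn hF hφ' (Blk_mem hφ) hdisj.symm hy) ((AX ρ a φ).inv_mem hx)
  have h3 : x * y * x⁻¹ * y⁻¹ ∈ AX ρ b φ' := (AX ρ b φ').mul_mem h1 ((AX ρ b φ').inv_mem hy)
  have h4 : x * (y * x⁻¹ * y⁻¹) ∈ AX ρ a φ := (AX ρ a φ).mul_mem hx h2
  have h5 := c.AX_inf hP hdisj (x := x * y * x⁻¹ * y⁻¹) (by simpa only [mul_assoc] using h4) h3
  rw [mul_inv_eq_one, mul_inv_eq_iff_eq_mul] at h5
  exact h5

end Cfg

end Cfsg.Agent.H438.SLThree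
end

-- part: H438/SLThreeAD
section
/-!
# The affine case, IV: translations (helper438, S3727)
-/

set_option autoImplicit false
set_option linter.unusedSectionVars false
set_option linter.unusedSimpArgs false

namespace Cfsg.Agent.H438.SLThree

open Matrix MulAction
open scoped Pointwise

variable {F : Type*} [Field F] {G Ω : Type*} [Group G] [MulAction G Ω]

variable {ρ : Ω → (S F →* G)}

theorem exists_two {φ ψ : Fin 3 → F} (hφ : φ ≠ 0) (hnp : ¬ ∃ m : F, ψ = m • φ) (k l : F) :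
    ∃ v : Fin 3 → F, φ ⬝ᵥ v = k ∧ ψ ⬝ᵥ v = l := by
  obtain ⟨w, hw, hw'⟩ := exists_ker hφ hnp
  obtain ⟨u, hu⟩ := exists_dot hφ
  refine ⟨k • u + ((ψ ⬝ᵥ w)⁻¹ * (l - ψ ⬝ᵥ (k • u))) • w, ?_, ?_⟩
  · rw [dotProduct_add, dotProduct_smul, dotProduct_smul, hu, hw, smul_zero, add_zero, smul_eq_mul, mul_one]
  · rw [dotProduct_add, dotProduct_smul ((ψ ⬝ᵥ w)⁻¹ * (l - ψ ⬝ᵥ (k • u))), smul_eq_mul,
      mul_comm (ψ ⬝ᵥ w)⁻¹, mul_assoc, inv_mul_cancel₀ hw', mul_one, add_sub_cancel]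

/-- the permutation of `V` induced by `x` -/
def hat (β : (Fin 3 → F) ≃ Ω) (x : G) (v : Fin 3 → F) : Fin 3 → F := β.symm (x • β v)

theorem hat_mul (β : (Fin 3 → F) ≃ Ω) (x y : G) (v : Fin 3 → F) : hat β (x * y) v = hat β x (hat β y v) := by
  unfold hat
  rw [Equiv.apply_symm_apply, mul_smul]

theorem hat_one (β : (Fin 3 → F) ≃ Ω) (v : Fin 3 → F) : hat β (1 : G) v = v := by
  unfold hat
  rw [one_smul, Equiv.symm_apply_apply]

theorem beta_hat (β : (Fin 3 → F) ≃ Ω) (x : G) (v : Fin 3 → F) : β (hat β x v) = x • β v := by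
  unfold hat
  rw [Equiv.apply_symm_apply]

/-- elements commuting with the axis group and fixing the planes `e3 = k` -/
structure Good (ρ : Ω → (S F →* G)) (a : Ω) (β : (Fin 3 → F) ≃ Ω) (x : G) : Prop where
  comm : ∀ t ∈ AX ρ a e3, x * t = t * x
  pres : ∀ v, e3 ⬝ᵥ hat β x v = e3 ⬝ᵥ v
  sq : x * x = 1

theorem e3_not {ψ : Fin 3 → F} (hψ : ¬ ∃ k : F, ψ = k • e3) : ¬ ∃ k : F, e3 = k • ψ := by
  rintro ⟨k, hk⟩
  have hk0 : k ≠ 0 := by
    rintro rfl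
    rw [zero_smul] at hk
    exact e3_ne hk
  exact hψ ⟨k⁻¹, by rw [hk, smul_smul, inv_mul_cancel₀ hk0, one_smul]⟩

namespace Cfg

variable [Finite F] [CharP F 2] [Finite (S F)] [Finite G] [Finite Ω]

theorem exists_mp (c : Cfg ρ) (hP : TypePt ρ) (hΩ : Nat.card Ω = Nat.card F ^ 3) {n : ℕ} (hn : 1 ≤ n)
    (hF : Nat.card F = 2 ^ n) {a : Ω} {β : (Fin 3 → F) ≃ Ω} (h : Crd ρ a β) (x : G) {ψ : Fin 3 → F} (hψ : ψ ≠ 0) :
    ∃ ψ' : Fin 3 → F, ψ' ≠ 0 ∧ ∃ f : F → F, ∀ v, ψ' ⬝ᵥ hat β x v = f (ψ ⬝ᵥ v) := by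
  have h0 : ∀ k : F, ∃ ψ' l, ψ' ≠ 0 ∧ x • Pl β ψ k = Pl β ψ' l := fun k =>
    c.exists_Pl hP hΩ hn hF h (c.smul_Bl hP x (c.Pl_mem hP hΩ hn hF h hψ k))
  obtain ⟨ψ', l0, hψ', h1⟩ := h0 0
  have h2 : ∀ k : F, ∃ l, x • Pl β ψ k ⊆ Pl β ψ' l := by
    intro k
    by_cases hk : k = 0
    · exact ⟨l0, by rw [hk, h1]⟩
    obtain ⟨ψ'', l, hψ'', h3⟩ := h0 k
    have h4 : Disjoint (Pl β ψ' l0) (Pl β ψ'' l) := by
      rw [← h1, ← h3, Set.disjoint_left]
      intro d hd1 hd2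
      rw [mem_smul_set', mem_Pl] at hd1 hd2
      exact hk (hd2.symm.trans hd1)
    obtain ⟨m, rfl⟩ := par_of_disjoint hψ' h4
    have hm : m ≠ 0 := by
      rintro rfl
      exact hψ'' (zero_smul _ _)
    refine ⟨m⁻¹ * l, ?_⟩
    rw [h3]
    intro d hd
    rw [mem_Pl, smul_dotProduct, smul_eq_mul] at hd
    rw [mem_Pl, ← hd, inv_mul_cancel_left₀ hm]
  choose f hf using h2
  refine ⟨ψ', hψ', f, fun v => ?_⟩
  have h3 : x • β v ∈ x • Pl β ψ (ψ ⬝ᵥ v) := Set.smul_mem_smul_set (by rw [mem_Pl, Equiv.symm_apply_apply])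
  exact hf _ h3

theorem shape (c : Cfg ρ) (hP : TypePt ρ) (hΩ : Nat.card Ω = Nat.card F ^ 3) {n : ℕ} (hn : 1 ≤ n)
    (hF : Nat.card F = 2 ^ n) {a : Ω} {β : (Fin 3 → F) ≃ Ω} (h : Crd ρ a β) {x : G} (hx : Good ρ a β x)
    {ψ : Fin 3 → F} (hψ0 : ψ ≠ 0) (hψ : ¬ ∃ k : F, ψ = k • e3) :
    ∃ (f : F → F) (γ : F), ∀ v, ψ ⬝ᵥ hat β x v = f (ψ ⬝ᵥ v) + γ * (e3 ⬝ᵥ v) := by
  obtain ⟨ψ', hψ', f, hf⟩ := c.exists_mp hP hΩ hn hF h x hψ0
  obtain ⟨w, hw0, hw, hw'⟩ := exists_common (e3 : Fin 3 → F) ψ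
  have h1 := hx.comm _ (mem_AX.2 ⟨w, hw, rfl⟩)
  have h2 : ∀ v, hat β x (v + (e3 ⬝ᵥ v) • w) = hat β x v + (e3 ⬝ᵥ v) • w := by
    intro v
    have h3 : hat β (x * ρ a (tv w e3)) v = hat β (ρ a (tv w e3) * x) v := by rw [h1]
    rw [hat_mul, hat_mul] at h3
    have h4 : ∀ u, hat β (ρ a (tv w e3)) u = u + (e3 ⬝ᵥ u) • w := by
      intro u
      unfold hat
      rw [h.tv_act hw, Equiv.symm_apply_apply]
    rw [h4, h4, hx.pres] at h3
    exact h3
  have h3 : ψ' ⬝ᵥ w = 0 := by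
    have h4 : ψ' ⬝ᵥ hat β x (e3 + ((e3 : Fin 3 → F) ⬝ᵥ e3) • w) =
        ψ' ⬝ᵥ (hat β x e3 + ((e3 : Fin 3 → F) ⬝ᵥ e3) • w) := by rw [h2]
    rw [hf, dotProduct_add, dotProduct_add, hf, dotProduct_smul, hw', smul_zero, add_zero, dotProduct_smul,
      left_eq_add, smul_eq_mul, mul_eq_zero] at h4
    refine h4.resolve_left ?_
    rw [e3_dot]
    simp
  obtain ⟨α, γ, h5⟩ := plane_basis hψ0 hw0 (e3_not hψ) (by rw [dotProduct_comm, hw']) (by rw [dotProduct_comm, hw])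
    (by rw [dotProduct_comm, h3])
  have hα : α ≠ 0 := by
    rintro rfl
    rw [zero_smul, zero_add] at h5
    have h6 : ∀ v, γ * (e3 ⬝ᵥ v) = f (ψ ⬝ᵥ v) := by
      intro v
      have h7 := hf v
      rwa [h5, smul_dotProduct, hx.pres, smul_eq_mul] at h7
    obtain ⟨v0, hv0, hv0'⟩ := exists_two hψ0 (e3_not hψ) 0 1
    have h7 := h6 v0
    have h8 := h6 0
    rw [dotProduct_zero, dotProduct_zero, mul_zero] at h8
    rw [hv0, hv0', ← h8, mul_one] at h7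
    apply hψ'
    rw [h5, h7, zero_smul]
  refine ⟨fun s => α⁻¹ * f s, -(α⁻¹ * γ), fun v => ?_⟩
  have h6 := hf v
  rw [h5, add_dotProduct, smul_dotProduct, smul_dotProduct, hx.pres, smul_eq_mul, smul_eq_mul] at h6
  have h7 : α⁻¹ * (α * (ψ ⬝ᵥ hat β x v) + γ * (e3 ⬝ᵥ v)) = α⁻¹ * f (ψ ⬝ᵥ v) := by rw [h6]
  change _ = α⁻¹ * f (ψ ⬝ᵥ v) + -(α⁻¹ * γ) * (e3 ⬝ᵥ v)
  rw [← h7, mul_add, inv_mul_cancel_left₀ hα]
  ring

theorem form (c : Cfg ρ) (hP : TypePt ρ) (hΩ : Nat.card Ω = Nat.card F ^ 3) {n : ℕ} (hn : 1 ≤ n)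
    (hF : Nat.card F = 2 ^ n) {a : Ω} {β : (Fin 3 → F) ≃ Ω} (h : Crd ρ a β) {x : G} (hx : Good ρ a β x)
    {ψ : Fin 3 → F} (hψ0 : ψ ≠ 0) (hψ : ¬ ∃ k : F, ψ = k • e3) :
    ∃ s γ : F, ∀ v, ψ ⬝ᵥ hat β x v = ψ ⬝ᵥ v + s + γ * (e3 ⬝ᵥ v) := by
  obtain ⟨f, γ, hf⟩ := c.shape hP hΩ hn hF h hx hψ0 hψ
  have hψe : ¬ ∃ k : F, ψ + e3 = k • e3 := by
    rintro ⟨k, hk⟩
    exact hψ ⟨k - 1, by rw [sub_smul, one_smul, ← hk, add_sub_cancel_right]⟩
  have hψe0 : ψ + e3 ≠ 0 := by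
    intro h0
    exact hψe ⟨0, by rw [h0, zero_smul]⟩
  obtain ⟨g, γ', hg⟩ := c.shape hP hΩ hn hF h hx hψe0 hψe
  have key : ∀ s r : F, f s + γ * r + r = g (s + r) + γ' * r := by
    intro s r
    obtain ⟨v, h1, h2⟩ := exists_two hψ0 (e3_not hψ) s r
    have h3 := hg v
    rw [add_dotProduct, hf, hx.pres, add_dotProduct, h1, h2] at h3
    exact h3
  have hfg : ∀ s, f s = g s := by
    intro s
    have := key s 0
    rwa [mul_zero, add_zero, add_zero, add_zero, mul_zero, add_zero] at this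
  have hlin : ∀ r, f r = f 0 + (γ + 1 - γ') * r := by
    intro r
    have := key 0 r
    rw [zero_add, ← hfg] at this
    linear_combination -this
  have hinv : ∀ s, f (f s) = s := by
    intro s
    obtain ⟨v, h1, h2⟩ := exists_two hψ0 (e3_not hψ) s 0
    have h3 : hat β x (hat β x v) = v := by rw [← hat_mul, hx.sq, hat_one]
    have h4 := hf (hat β x v)
    rw [h3, hf v, hx.pres, h1, h2, mul_zero, add_zero, add_zero] at h4
    exact h4.symm
  have hδ : γ + 1 - γ' = 1 := by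
    have h0 := hinv 0
    have h1 := hinv 1
    rw [hlin (f 0)] at h0
    rw [hlin (f 1), hlin 1] at h1
    have h2 : (γ + 1 - γ') * (γ + 1 - γ') = 1 := by linear_combination h1 - h0
    have h2F : (2 : F) = 0 := CharTwo.two_eq_zero
    have h3 : (γ + 1 - γ' - 1) * (γ + 1 - γ' - 1) = 0 := by linear_combination h2 - (γ + 1 - γ' - 1) * h2F
    exact sub_eq_zero.1 (mul_self_eq_zero.1 h3)
  refine ⟨f 0, γ, fun v => ?_⟩
  rw [hf v, hlin (ψ ⬝ᵥ v), hδ]
  ring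

theorem good_mul (c : Cfg ρ) (hP : TypePt ρ) (hΩ : Nat.card Ω = Nat.card F ^ 3) {n : ℕ} (hn : 1 ≤ n)
    (hF : Nat.card F = 2 ^ n) {a b : Ω} {β : (Fin 3 → F) ≃ Ω} (h : Crd ρ a β) {φ : Fin 3 → F} (hφ : φ ≠ 0)
    (hb : Pl β e3 1 = Blk ρ b φ) {t t' : G} (ht : t ∈ AX ρ a e3) (ht' : t' ∈ AX ρ b φ) : Good ρ a β (t * t') := by
  have hdisj : Disjoint (Blk ρ a e3) (Blk ρ b φ) := by
    rw [← hb, h.Blk_eq, Set.disjoint_left]
    intro d h1 h2
    rw [mem_Pl] at h1 h2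
    exact zero_ne_one (h1.symm.trans h2)
  have hcomm : ∀ {s s' : G}, s ∈ AX ρ a e3 → s' ∈ AX ρ b φ → s * s' = s' * s := fun hs hs' =>
    c.AX_commute hP hΩ hn hF e3_ne hφ hdisj hs hs'
  refine ⟨?_, ?_, ?_⟩
  · intro s hs
    rw [mul_assoc, ← hcomm hs ht', ← mul_assoc, AX_comm ht hs, mul_assoc]
  · intro v
    rw [hat_mul]
    have h1 : ∀ u, e3 ⬝ᵥ hat β t u = e3 ⬝ᵥ u := by
      intro u
      obtain ⟨w, hw, rfl⟩ := mem_AX.1 ht
      unfold hat
      rw [h.tv_act hw, Equiv.symm_apply_apply, dotProduct_add, dotProduct_smul, hw, smul_zero, add_zero]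
    rw [h1]
    have h2 : t' • β v ∈ Pl β e3 (e3 ⬝ᵥ v) := by
      by_cases hv : e3 ⬝ᵥ v = 1
      · by_cases ht1 : t' = 1
        · rw [ht1, one_smul, mem_Pl, Equiv.symm_apply_apply]
        have h3 : β v ∈ Pl β e3 1 := by rw [mem_Pl, Equiv.symm_apply_apply, hv]
        have h4 : t' • β v = β v := by
          have h5 : β v ∈ {d : Ω | t' • d = d} := by rw [c.AX_fix hP ht' ht1, ← hb]; exact h3
          exact h5
        rw [h4, hv]
        exact h3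
      · have h3 := c.fix_disjoint hP hΩ hn hF hφ (c.Pl_mem hP hΩ hn hF h e3_ne (e3 ⬝ᵥ v)) (by
          rw [← hb, Set.disjoint_left]
          intro d h4 h5
          rw [mem_Pl] at h4 h5
          exact hv (h5.symm.trans h4)) ht'
        rw [← h3]
        exact Set.smul_mem_smul_set (by rw [mem_Pl, Equiv.symm_apply_apply])
    exact h2
  · calc t * t' * (t * t') = t * (t' * t) * t' := by group
      _ = (t * t) * (t' * t') := by rw [← hcomm ht ht']; group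
      _ = 1 := by rw [AX_sq ht, AX_sq ht', one_mul]

theorem exists_trans_plane (c : Cfg ρ) (hP : TypePt ρ) (hΩ : Nat.card Ω = Nat.card F ^ 3) {n : ℕ} (hn : 1 ≤ n)
    (hF : Nat.card F = 2 ^ n) {a : Ω} {β : (Fin 3 → F) ≃ Ω} (h : Crd ρ a β) {w : Fin 3 → F} (hw : e3 ⬝ᵥ w = 0) :
    ∃ x : G, ∀ v, x • β v = β (v + w) := by
  classical
  have e1n : ¬ ∃ k : F, (![1, 0, 0] : Fin 3 → F) = k • e3 := by
    rintro ⟨k, hk⟩
    have := congrFun hk 0
    simp [smul_ap] at this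
  have e2n : ¬ ∃ k : F, (![0, 1, 0] : Fin 3 → F) = k • e3 := by
    rintro ⟨k, hk⟩
    have := congrFun hk 1
    simp [smul_ap] at this
  have e1z : (![1, 0, 0] : Fin 3 → F) ≠ 0 := fun h => by simpa using congrFun h 0
  have e2z : (![0, 1, 0] : Fin 3 → F) ≠ 0 := fun h => by simpa using congrFun h 1
  -- the second plane
  obtain ⟨b0, φ0, hφ0, hb0⟩ := c.Pl_mem hP hΩ hn hF h e3_ne 1
  -- parameters
  have hpar : ∀ x : {x : G // Good ρ a β x}, ∃ p : (F × F) × (F × F), ∀ v,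
      hat β x.1 v 0 = v 0 + p.1.1 + p.1.2 * v 2 ∧ hat β x.1 v 1 = v 1 + p.2.1 + p.2.2 * v 2 := by
    rintro ⟨x, hx⟩
    obtain ⟨s, γ, h1⟩ := c.form hP hΩ hn hF h hx e1z e1n
    obtain ⟨s', γ', h2⟩ := c.form hP hΩ hn hF h hx e2z e2n
    refine ⟨((s, γ), (s', γ')), fun v => ⟨?_, ?_⟩⟩
    · have := h1 v
      rw [e3_dot, dot_apply, dot_apply] at this
      simpa using this
    · have := h2 v
      rw [e3_dot, dot_apply, dot_apply] at this
      simpa using this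
  choose Θ hΘ using hpar
  have hthird : ∀ x : {x : G // Good ρ a β x}, ∀ v, hat β x.1 v 2 = v 2 := by
    intro x v
    have := x.2.pres v
    rwa [e3_dot, e3_dot] at this
  have hΘinj : Function.Injective Θ := by
    intro x y he
    apply Subtype.ext
    have h1 : ∀ v, hat β x.1 v = hat β y.1 v := by
      intro v
      apply ext3
      · rw [(hΘ x v).1, (hΘ y v).1, he]
      · rw [(hΘ x v).2, (hΘ y v).2, he]
      · rw [hthird, hthird]
    have h2 : y.1⁻¹ * x.1 = 1 := by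
      apply c.faith
      intro d
      obtain ⟨v, rfl⟩ := β.surjective d
      rw [mul_smul, ← beta_hat, h1, beta_hat, inv_smul_smul]
    exact (inv_mul_eq_one.1 h2).symm
  have hdisj : Disjoint (Blk ρ a e3) (Blk ρ b0 φ0) := by
    rw [← hb0, h.Blk_eq, Set.disjoint_left]
    intro d h1 h2
    rw [mem_Pl] at h1 h2
    exact zero_ne_one (h1.symm.trans h2)
  let Ψ : AX ρ a e3 × AX ρ b0 φ0 → {x : G // Good ρ a β x} := fun p =>
    ⟨p.1.1 * p.2.1, c.good_mul hP hΩ hn hF h hφ0 hb0 p.1.2 p.2.2⟩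
  have hΨ : Function.Injective Ψ := by
    rintro ⟨t, t'⟩ ⟨s, s'⟩ he
    have h1 : t.1 * t'.1 = s.1 * s'.1 := congrArg Subtype.val he
    have h2 : s.1⁻¹ * t.1 = s'.1 * t'.1⁻¹ := by
      rw [inv_mul_eq_iff_eq_mul, ← mul_assoc, ← h1, mul_inv_cancel_right]
    have h3 : s.1⁻¹ * t.1 = 1 := c.AX_inf hP hdisj ((AX ρ a e3).mul_mem ((AX ρ a e3).inv_mem s.2) t.2) (by
      rw [h2]
      exact (AX ρ b0 φ0).mul_mem s'.2 ((AX ρ b0 φ0).inv_mem t'.2))
    rw [h3] at h2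
    exact Prod.ext (Subtype.ext (inv_mul_eq_one.1 h3).symm) (Subtype.ext (mul_inv_eq_one.1 h2.symm).symm)
  have hc1 := Nat.card_le_card_of_injective Ψ hΨ
  rw [Nat.card_prod, card_AX (c.rep a) e3_ne, card_AX (c.rep b0) hφ0] at hc1
  have hΘb : Function.Bijective Θ := by
    rw [Nat.bijective_iff_injective_and_card]
    refine ⟨hΘinj, le_antisymm (Nat.card_le_card_of_injective Θ hΘinj) ?_⟩
    rw [Nat.card_prod, Nat.card_prod]
    refine le_trans (le_of_eq ?_) hc1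
    ring
  obtain ⟨x, hx⟩ := hΘb.2 ((w 0, 0), (w 1, 0))
  refine ⟨x.1, fun v => ?_⟩
  rw [← beta_hat]
  congr 1
  rw [e3_dot] at hw
  apply ext3
  · rw [(hΘ x v).1, hx]; simp
  · rw [(hΘ x v).2, hx]; simp
  · rw [hthird, Pi.add_apply, hw, add_zero]

end Cfg

end Cfsg.Agent.H438.SLThree
end
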